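import Mathlib

/-!
# Binary linear groups: bisectors

For a binary affine group with linear part `H`, the set of `x` with `x + u` in the `H`-orbit of `x`
is an affine fixed space of a single element of `H` interchanging `x` and `x + u`.
This file contains that notion and its first consequences.
-/

set_option autoImplicit false

namespace Cfsg.Agent.BinAff

variable {p : ℕ} [Fact p.Prime] {V : Type*} [AddCommGroup V] [Module (ZMod p) V]

/-- The fixed space of a linear automorphism. -/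
def fix (g : V ≃ₗ[ZMod p] V) : Submodule (ZMod p) V :=
  LinearMap.eqLocus g.toLinearMap LinearMap.id

/-- The commutator space `(g - 1)V`. -/
def rng (g : V ≃ₗ[ZMod p] V) : Submodule (ZMod p) V :=
  LinearMap.range (g.toLinearMap - LinearMap.id)

theorem mem_fix {g : V ≃ₗ[ZMod p] V} {x : V} : x ∈ fix g ↔ g x = x := Iff.rfl

theorem mem_rng {g : V ≃ₗ[ZMod p] V} {v : V} : v ∈ rng g ↔ ∃ x, g x - x = v := by
  simp [rng, LinearMap.mem_range]

theorem sub_mem_rng (g : V ≃ₗ[ZMod p] V) (x : V) : g x - x ∈ rng g := mem_rng.2 ⟨x, rfl⟩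

theorem fix_ne_top {g : V ≃ₗ[ZMod p] V} (hg : g ≠ 1) : fix g ≠ ⊤ := fun h =>
  hg (LinearEquiv.ext fun x => mem_fix.1 (h ▸ Submodule.mem_top))

theorem eq_one_of_fix_top {g : V ≃ₗ[ZMod p] V} (h : ∀ x, g x = x) : g = 1 :=
  LinearEquiv.ext h

theorem fix_le_fix_mul {g k : V ≃ₗ[ZMod p] V} {S : Submodule (ZMod p) V} (hg : S ≤ fix g)
    (hk : S ≤ fix k) : S ≤ fix (g * k) := fun x hx => by
  rw [mem_fix, LinearEquiv.mul_apply, mem_fix.1 (hk hx), mem_fix.1 (hg hx)]

theorem fix_inv (g : V ≃ₗ[ZMod p] V) : fix g⁻¹ = fix g := by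
  ext x
  rw [mem_fix, mem_fix]
  constructor <;> intro h
  · conv_lhs => rw [← h]
    change (g * g⁻¹) x = x
    rw [mul_inv_cancel]; rfl
  · conv_lhs => rw [← h]
    change (g⁻¹ * g) x = x
    rw [inv_mul_cancel]; rfl

theorem inv_apply_self (g : V ≃ₗ[ZMod p] V) (x : V) : g⁻¹ (g x) = x := by
  change (g⁻¹ * g) x = x
  rw [inv_mul_cancel]; rfl

theorem apply_inv_self (g : V ≃ₗ[ZMod p] V) (x : V) : g (g⁻¹ x) = x := by
  change (g * g⁻¹) x = x
  rw [mul_inv_cancel]; rfl

theorem mem_fix_conj {g h : V ≃ₗ[ZMod p] V} {x : V} :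
    x ∈ fix (h * g * h⁻¹) ↔ h⁻¹ x ∈ fix g := by
  rw [mem_fix, mem_fix, LinearEquiv.mul_apply, LinearEquiv.mul_apply]
  constructor <;> intro H
  · conv_rhs => rw [← H]
    rw [inv_apply_self]
  · rw [H, apply_inv_self]

theorem mem_rng_conj {g h : V ≃ₗ[ZMod p] V} {v : V} :
    v ∈ rng (h * g * h⁻¹) ↔ h⁻¹ v ∈ rng g := by
  rw [mem_rng, mem_rng]
  constructor
  · rintro ⟨x, rfl⟩
    exact ⟨h⁻¹ x, by simp [LinearEquiv.mul_apply, map_sub, inv_apply_self]⟩
  · rintro ⟨x, hx⟩
    refine ⟨h x, ?_⟩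
    have := congrArg h hx
    rw [map_sub, apply_inv_self] at this
    simpa [LinearEquiv.mul_apply, inv_apply_self] using this

theorem mem_fix_of_pow (g : V ≃ₗ[ZMod p] V) (n : ℕ) : fix g ≤ fix (g ^ n) := by
  intro x hx
  induction n with
  | zero => simp [mem_fix]
  | succ n ih => rw [mem_fix, pow_succ, LinearEquiv.mul_apply, mem_fix.1 hx, mem_fix.1 ih]

theorem apply_apply_of_mul_self {g : V ≃ₗ[ZMod p] V} (hg : g * g = 1) (x : V) : g (g x) = x := by
  rw [← LinearEquiv.mul_apply, hg]; rfl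

/-- The basic property of the linear part of a binary affine group: for every `u` there is a
single element interchanging `x` and `x + u` for every `x` with `x + u` in the orbit of `x`,
and fixing whatever is fixed by any element moving such an `x` to `x + u`. -/
def Bisect (H : Subgroup (V ≃ₗ[ZMod p] V)) : Prop :=
  ∀ u : V, ∃ g ∈ H, ∀ h ∈ H, ∀ x : V, h x = x + u →
    g x = x + u ∧ g (x + u) = x ∧ fix h ≤ fix g

variable {H : Subgroup (V ≃ₗ[ZMod p] V)}

/-- An element interchanging `x` and `h x` that fixes the fixed space of `h`. -/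
theorem Bisect.swap (B : Bisect H) {h : V ≃ₗ[ZMod p] V} (hh : h ∈ H) (x : V) :
    ∃ g ∈ H, g x = h x ∧ g (h x) = x ∧ fix h ≤ fix g ∧
      ∀ h' ∈ H, ∀ y, h' y - y = h x - x → g y = h' y ∧ g (h' y) = y ∧ fix h' ≤ fix g := by
  obtain ⟨g, hgH, hg⟩ := B (h x - x)
  obtain ⟨a, b, c⟩ := hg h hh x (by abel)
  refine ⟨g, hgH, by rw [a]; abel, ?_, c, fun h' hh' y hy => ?_⟩
  · rwa [show x + (h x - x) = h x by abel] at b
  · obtain ⟨a', b', c'⟩ := hg h' hh' y (by rw [← hy]; abel)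
    have e : y + (h x - x) = h' y := by rw [← hy]; abel
    rw [e] at a' b'
    exact ⟨a', b', c'⟩

/-- An element moving `y` by a vector in the commutator space of `j` fixes `y` if `j` does. -/
theorem Bisect.eq_of_sub_mem_rng (B : Bisect H) {h j : V ≃ₗ[ZMod p] V} (hh : h ∈ H) (hj : j ∈ H)
    {y : V} (hy : j y = y) (hd : h y - y ∈ rng j) : h y = y := by
  obtain ⟨z, hz⟩ := mem_rng.1 hd
  obtain ⟨g, -, g1, -, -, g2⟩ := B.swap hh y
  obtain ⟨-, -, g3⟩ := g2 j hj z hz
  rw [← g1]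
  exact mem_fix.1 (g3 (mem_fix.2 hy))

/-- If the stabilizer of `x` among the elements fixing `T` is trivial, all such elements are
involutions. -/
theorem Bisect.mul_self_of_regular (B : Bisect H) {T : Submodule (ZMod p) V} {x : V}
    (hreg : ∀ j ∈ H, T ≤ fix j → j x = x → j = 1) {h : V ≃ₗ[ZMod p] V} (hh : h ∈ H)
    (hT : T ≤ fix h) : h * h = 1 := by
  obtain ⟨g, hg, g1, g2, g3, -⟩ := B.swap hh x
  have hgh : g⁻¹ * h = 1 := hreg _ (H.mul_mem (H.inv_mem hg) hh)
    (fix_le_fix_mul (by rw [fix_inv]; exact hT.trans g3) hT)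
    (by rw [LinearEquiv.mul_apply, ← g1, inv_apply_self])
  have e : g = h := inv_mul_eq_one.1 hgh
  subst e
  exact hreg _ (H.mul_mem hh hh) (fix_le_fix_mul hT hT) (by rw [LinearEquiv.mul_apply, g2])

theorem commute_of_mul_self {G : Type*} [Group G] {a b : G} (ha : a * a = 1) (hb : b * b = 1)
    (hab : (a * b) * (a * b) = 1) : a * b = b * a := by
  have ia : a⁻¹ = a := inv_eq_of_mul_eq_one_left ha
  have ib : b⁻¹ = b := inv_eq_of_mul_eq_one_left hb
  calc a * b = (a * b)⁻¹ := (inv_eq_of_mul_eq_one_left hab).symm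
    _ = b * a := by rw [mul_inv_rev, ia, ib]

theorem mul_self_conj {G : Type*} [Group G] {a : G} (h : G) (ha : a * a = 1) :
    (h * a * h⁻¹) * (h * a * h⁻¹) = 1 := by
  rw [show (h * a * h⁻¹) * (h * a * h⁻¹) = h * (a * a) * h⁻¹ by group, ha, mul_one,
    mul_inv_cancel]

end Cfsg.Agent.BinAff
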