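import Cfsg.Agent.BinAff.Plane

/-!
# No system of imprimitivity made of planes
-/

set_option autoImplicit false

namespace Cfsg.Agent.BinAff.IsPlane

variable {p : ℕ} [Fact p.Prime] {V : Type*} [AddCommGroup V] [Module (ZMod p) V]
  {H : Subgroup (V ≃ₗ[ZMod p] V)} {T P : Submodule (ZMod p) V}
  {M : Set (V ≃ₗ[ZMod p] V)} {q : ℕ}

/-- Two distinct roots span the plane. -/
theorem sup_rng [Finite V] (hP : IsPlane H T P M q) {g g' : V ≃ₗ[ZMod p] V} (hg : g ∈ M)
    (hg' : g' ∈ M) (hne : g ≠ g') : rng g ⊔ rng g' = P := by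
  refine le_antisymm (sup_le (hP.mem g hg).2.2.2.2 (hP.mem g' hg').2.2.2.2) fun x hx => ?_
  let f : rng g × rng g' → P := fun ab =>
    ⟨ab.1.1 + ab.2.1, add_mem ((hP.mem g hg).2.2.2.2 ab.1.2) ((hP.mem g' hg').2.2.2.2 ab.2.2)⟩
  have hinj : Function.Injective f := by
    rintro ⟨⟨a, ha⟩, ⟨b, hb⟩⟩ ⟨⟨a', ha'⟩, ⟨b', hb'⟩⟩ h
    have h' : a + b = a' + b' := congrArg Subtype.val h
    have hd : a - a' = 0 := by
      by_contra h0
      refine hne (hP.root_unique g hg g' hg' _ h0 (sub_mem ha ha') ?_)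
      rw [sub_eq_sub_iff_add_eq_add.2 (by rw [h', add_comm] : a + b = b' + a')]
      exact sub_mem hb' hb
    rw [sub_eq_zero] at hd
    subst hd
    rw [add_right_inj] at h'
    subst h'
    rfl
  haveI := Finite.of_injective f hinj
  have hbij := hinj.bijective_of_nat_card_le (by
    rw [Nat.card_prod, hP.card_rng g hg, hP.card_rng g' hg', hP.card_P, pow_two])
  obtain ⟨⟨a, b⟩, hab⟩ := hbij.2 ⟨x, hx⟩
  rw [← show a.1 + b.1 = x from congrArg Subtype.val hab]
  exact Submodule.add_mem_sup a.2 b.2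

/-- The hypothesis that every conjugate root lies inside the plane or inside its complement. -/
def Split (H : Subgroup (V ≃ₗ[ZMod p] V)) (T P : Submodule (ZMod p) V)
    (M : Set (V ≃ₗ[ZMod p] V)) : Prop :=
  ∀ h ∈ H, ∀ g ∈ M, (∀ v ∈ rng g, h v ∈ P) ∨ ∀ v ∈ rng g, h v ∈ T

theorem image_cases [Finite V] (hP : IsPlane H T P M q) (hs : Split H T P M)
    {h : V ≃ₗ[ZMod p] V} (hh : h ∈ H) : (∀ v ∈ P, h v ∈ P) ∨ ∀ v ∈ P, h v ∈ T := by
  classical
  obtain ⟨g, hg⟩ := hP.nonempty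
  obtain ⟨g', hg', hne'⟩ : ∃ g' ∈ M, g' ≠ g := by
    by_contra hc
    push Not at hc
    have : M = {g} := Set.eq_singleton_iff_unique_mem.2 ⟨hg, hc⟩
    have h1 := hP.card_M
    rw [this, Nat.card_coe_set_eq, Set.ncard_singleton] at h1
    have := hP.two_le
    omega
  obtain ⟨g'', hg'', hne, hne''⟩ : ∃ g'' ∈ M, g'' ≠ g ∧ g'' ≠ g' := by
    by_contra hc
    push Not at hc
    have hsub : M ⊆ {g, g'} := fun x hx => by
      by_cases e : x = g
      · exact Or.inl e
      · exact Or.inr (hc x hx e)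
    have h1 := Set.ncard_le_ncard hsub (Set.toFinite _)
    rw [Set.ncard_pair hne'.symm, ← Nat.card_coe_set_eq, hP.card_M] at h1
    have := hP.two_le
    omega
  have spread : ∀ a ∈ M, ∀ b ∈ M, a ≠ b → ∀ S : Submodule (ZMod p) V,
      (∀ v ∈ rng a, h v ∈ S) → (∀ v ∈ rng b, h v ∈ S) → ∀ v ∈ P, h v ∈ S := by
    intro a ha b hb hab S h1 h2 v hv
    rw [← hP.sup_rng ha hb hab] at hv
    obtain ⟨x, hx, y, hy, rfl⟩ := Submodule.mem_sup.1 hv
    rw [map_add]
    exact add_mem (h1 x hx) (h2 y hy)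
  rcases hs h hh g hg with a | a <;> rcases hs h hh g' hg' with b | b <;>
    rcases hs h hh g'' hg'' with c | c
  all_goals first
    | exact Or.inl (spread g hg g' hg' hne'.symm P a b)
    | exact Or.inr (spread g hg g' hg' hne'.symm T a b)
    | exact Or.inl (spread g hg g'' hg'' hne.symm P a c)
    | exact Or.inr (spread g hg g'' hg'' hne.symm T a c)
    | exact Or.inl (spread g' hg' g'' hg'' hne''.symm P b c)
    | exact Or.inr (spread g' hg' g'' hg'' hne''.symm T b c)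

/-- In a split configuration with at least ten vectors in the plane, nothing moves the plane into
its complement. -/
theorem false_of_split [Finite V] (hP : IsPlane H T P M q) (B : Bisect H) (hs : Split H T P M)
    (hq : 3 ≤ q) {h₀ : V ≃ₗ[ZMod p] V} (hh₀ : h₀ ∈ H) (hT : ∀ v ∈ P, h₀ v ∈ T) : False := by
  classical
  have disj : ∀ v, v ∈ T → v ∈ P → v = 0 := Submodule.disjoint_def.1 hP.compl.disjoint
  have sideT : ∀ h ∈ H, ∀ v ∈ P, v ≠ 0 → h v ∈ T → ∀ w ∈ P, h w ∈ T := by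
    intro h hh v hv hv0 hvT
    rcases hP.image_cases hs hh with hc | hc
    · exact absurd (h.map_eq_zero_iff.1 (disj _ hvT (hc v hv))) hv0
    · exact hc
  have sideP : ∀ h ∈ H, ∀ v ∈ P, v ≠ 0 → h v ∈ P → ∀ w ∈ P, h w ∈ P := by
    intro h hh v hv hv0 hvP
    rcases hP.image_cases hs hh with hc | hc
    · exact hc
    · exact absurd (h.map_eq_zero_iff.1 (disj _ (hc v hv) hvP)) hv0
  obtain ⟨g₀, hg₀⟩ := hP.nonempty
  obtain ⟨α, hαP, hα0⟩ : ∃ α ∈ P, α ≠ 0 := by
    obtain ⟨-, -, g1, -, hle⟩ := hP.mem g₀ hg₀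
    by_contra hc
    push Not at hc
    exact g1 (eq_one_of_fix_top fun x => sub_eq_zero.1 (hc _ (hle (sub_mem_rng g₀ x))))
  obtain ⟨b₀, hb₀, c1, c2, -, -⟩ := B.swap hh₀ α
  have hbT : ∀ v ∈ P, b₀ v ∈ T := sideT b₀ hb₀ α hαP hα0 (c1 ▸ hT α hαP)
  have hbb : ∀ v ∈ P, b₀ (b₀ v) ∈ P := fun v hv => by
    rw [← LinearEquiv.mul_apply]
    exact sideP _ (H.mul_mem hb₀ hb₀) α hαP hα0
      (by rw [LinearEquiv.mul_apply, c1, c2]; exact hαP) v hv
  -- a vector of the plane outside the orbit of `α`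
  obtain ⟨w, hwP, hw0, hwo⟩ : ∃ w ∈ P, w ≠ 0 ∧ ∀ g ∈ M, g α ≠ w := by
    by_contra hc
    push Not at hc
    have hsub : (P : Set V) ⊆ insert 0 ((fun g : V ≃ₗ[ZMod p] V => g α) '' M) := fun x hx => by
      by_cases e : x = 0
      · exact Or.inl e
      · exact Or.inr (hc x hx e)
    haveI : Finite (V ≃ₗ[ZMod p] V) :=
      Finite.of_injective (fun g : V ≃ₗ[ZMod p] V => (g : V → V)) DFunLike.coe_injective
    have h1 := Set.ncard_le_ncard hsub (Set.toFinite _)
    have h2 := Set.ncard_insert_le (0 : V) ((fun g : V ≃ₗ[ZMod p] V => g α) '' M)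
    have h3 := Set.ncard_image_le (f := fun g : V ≃ₗ[ZMod p] V => g α) (s := M) (Set.toFinite _)
    rw [← Nat.card_coe_set_eq M, hP.card_M] at h3
    rw [← Nat.card_coe_set_eq, show Nat.card ((P : Set V) : Type _) = q ^ 2 from hP.card_P] at h1
    have : 3 * q ≤ q ^ 2 := by rw [pow_two]; exact Nat.mul_le_mul_right q hq
    omega
  -- the preimage of `w` under `b₀²` in the plane
  obtain ⟨γ, hγ, hγw⟩ : ∃ γ ∈ P, b₀ (b₀ γ) = w := by
    let f : P → P := fun v => ⟨b₀ (b₀ v.1), hbb v.1 v.2⟩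
    have hf : Function.Injective f := fun a b e =>
      Subtype.ext (b₀.injective (b₀.injective (congrArg Subtype.val e)))
    obtain ⟨⟨γ, hγ⟩, e⟩ := (hf.bijective_of_nat_card_le le_rfl).2 ⟨w, hwP⟩
    exact ⟨γ, hγ, congrArg Subtype.val e⟩
  have hγ0 : γ ≠ 0 := fun e => hw0 (by rw [← hγw, e, map_zero, map_zero])
  set β := b₀ γ with hβ
  have hβT : β ∈ T := hbT γ hγ
  have main : ∀ k ∈ M, ∃ b ∈ H, b α = b₀ (k α) ∧ b β = w ∧ b (b₀ (k α)) = α ∧ b w = β := by
    intro k hk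
    obtain ⟨kH, -, -, kT, -⟩ := hP.mem k hk
    obtain ⟨b, hb, e1, e2, -, -⟩ := B.swap (H.mul_mem hb₀ kH) (α + β)
    have hy : (b₀ * k) (α + β) = b₀ (k α) + w := by
      rw [LinearEquiv.mul_apply, map_add, mem_fix.1 (kT hβT), map_add, hγw]
    rw [hy] at e1 e2
    rw [map_add] at e1
    have hk' : b₀ (k α) ∈ T := hbT _ (hP.maps hk hαP)
    have hk0 : b₀ (k α) ≠ 0 := fun e => hα0 (k.map_eq_zero_iff.1 (b₀.map_eq_zero_iff.1 e))
    have hcomb : ∀ a ∈ P, ∀ t ∈ T, a + t = w + b₀ (k α) → a = w ∧ t = b₀ (k α) := by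
      intro a ha t ht e
      have : a - w = b₀ (k α) - t := by rw [sub_eq_sub_iff_add_eq_add, add_comm (b₀ (k α)), e]
      have h0 := disj _ (this ▸ sub_mem hk' ht) (sub_mem ha hwP)
      refine ⟨sub_eq_zero.1 h0, ?_⟩
      rw [h0, eq_comm, sub_eq_zero] at this
      exact this.symm
    have hbα : b α ∈ T := by
      rcases hP.image_cases hs hb with hc | hc
      · exfalso
        rcases hP.image_cases hs (H.mul_mem hb hb₀) with hc' | hc'
        · have h1 : b α + b β ∈ P := add_mem (hc α hαP) (by rw [hβ]; exact hc' γ hγ)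
          rw [e1] at h1
          have h2 : b₀ (k α) ∈ P := by simpa using sub_mem h1 hwP
          exact hk0 (disj _ hk' h2)
        · have h2 : b β ∈ T := hc' γ hγ
          obtain ⟨a1, -⟩ := hcomb _ (hc α hαP) _ h2 (by rw [e1, add_comm])
          obtain ⟨g, hg, hgα⟩ := hP.exists_apply_eq hb hαP (hc α hαP)
          exact hwo g hg (hgα.trans a1)
      · exact hc α hαP
    have hbβ : b β ∈ P := by
      rcases hP.image_cases hs (H.mul_mem hb hb₀) with hc | hc
      · exact hc γ hγ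
      · exfalso
        have h1 : b α + b β ∈ T := add_mem hbα (hc γ hγ)
        rw [e1] at h1
        have : w ∈ T := by simpa using sub_mem h1 hk'
        exact hw0 (disj w this hwP)
    obtain ⟨a1, a2⟩ := hcomb _ hbβ _ hbα (by rw [add_comm, e1, add_comm])
    refine ⟨b, hb, a2, a1, ?_⟩
    rw [map_add] at e2
    have hbw : b w ∈ T := sideT b hb α hαP hα0 hbα w hwP
    have hbk : b (b₀ (k α)) ∈ P := by
      rcases hP.image_cases hs (H.mul_mem hb hb) with hc | hc
      · rw [← a2]; exact hc α hαP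
      · exfalso
        have h1 : b (b₀ (k α)) ∈ T := by rw [← a2]; exact hc α hαP
        have h2 := add_mem h1 hbw
        rw [e2] at h2
        have : α ∈ T := by simpa using sub_mem h2 hβT
        exact hα0 (disj α this hαP)
    have h1 : b (b₀ (k α)) - α = β - b w := by rw [sub_eq_sub_iff_add_eq_add, e2, add_comm]
    have h2 := disj _ (h1 ▸ sub_mem hβT hbw) (sub_mem hbk hαP)
    refine ⟨sub_eq_zero.1 h2, ?_⟩
    rw [h2, eq_comm, sub_eq_zero] at h1
    exact h1.symm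
  obtain ⟨gα, hgα, hgαα⟩ := hP.fix_exists α (hP.not_mem_T hαP hα0)
  obtain ⟨gw, hgw, hgww⟩ := hP.fix_exists w (hP.not_mem_T hwP hw0)
  obtain ⟨b₁, hb₁, -, c4, c5, -⟩ := main gα hgα
  rw [hgαα] at c5
  have hφP : ∀ v ∈ P, b₁ (b₀ v) ∈ P := fun v hv =>
    sideP (b₁ * b₀) (H.mul_mem hb₁ hb₀) α hαP hα0
      (by rw [LinearEquiv.mul_apply, c5]; exact hαP) v hv
  have hφ := hP.stab_plane (H.mul_mem hb₁ hb₀) hφP hαP
    (show (b₁ * b₀) α = α by rw [LinearEquiv.mul_apply, c5]) hgα hgαα hα0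
  have three : ∀ k ∈ M, k α = α ∨ k α = gw α ∨ k α = gα (gw α) := by
    intro k hk
    obtain ⟨b, hb, d1, -, -, d4⟩ := main k hk
    have hew : (b₁ * b) w = w := by rw [LinearEquiv.mul_apply, d4, c4]
    have heP : ∀ v ∈ P, (b₁ * b) v ∈ P :=
      sideP (b₁ * b) (H.mul_mem hb₁ hb) w hwP hw0 (by rw [hew]; exact hwP)
    have he : (b₁ * b) α = α ∨ (b₁ * b) α = gw α := by
      rcases hP.stab_plane (H.mul_mem hb₁ hb) heP hwP hew hgw hgww hw0 with h | h
      · exact Or.inl (h α hαP)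
      · exact Or.inr (h α hαP)
    rw [LinearEquiv.mul_apply, d1] at he
    have hkP := hP.maps hk hαP
    have gg := apply_apply_of_mul_self (hP.mem gα hgα).2.1
    rcases hφ with h | h
    · rw [show b₁ (b₀ (k α)) = k α from h _ hkP] at he
      tauto
    · rw [show b₁ (b₀ (k α)) = gα (k α) from h _ hkP] at he
      rcases he with e | e
      · left
        rw [← gg (k α), e, hgαα]
      · right; right
        rw [← gg (k α), e]
  have hinj : Set.InjOn (fun k : V ≃ₗ[ZMod p] V => k α) M := fun a ha b hb e =>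
    hP.inj a ha b hb α (hP.not_mem_T hαP hα0) e
  have hsub : (fun k : V ≃ₗ[ZMod p] V => k α) '' M ⊆ {α, gw α, gα (gw α)} := by
    rintro _ ⟨k, hk, rfl⟩
    simpa using three k hk
  have h1 := Set.ncard_le_ncard hsub (Set.toFinite _)
  rw [hinj.ncard_image, ← Nat.card_coe_set_eq, hP.card_M] at h1
  have h2 : ({α, gw α, gα (gw α)} : Set V).ncard ≤ 3 :=
    (Set.ncard_insert_le _ _).trans (Nat.add_le_add_right (Set.ncard_insert_le _ _) _ |>.trans
      (by rw [Set.ncard_singleton]))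
  omega

end Cfsg.Agent.BinAff.IsPlane
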