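import Cfsg.Agent.BinAff.EvenPlane
import Cfsg.Agent.BinAff.PlaneSwap

/-!
# Characteristic two: the plane of an element of odd order is everything
-/

set_option autoImplicit false
set_option linter.style.haveILetI false

namespace Cfsg.Agent.BinAff

open Module (finrank)

variable {V : Type*} [AddCommGroup V] [Module (ZMod 2) V] {H : Subgroup (V ≃ₗ[ZMod 2] V)}

theorem rng_le_fix_of_mul_self {f : V ≃ₗ[ZMod 2] V} (hf : f * f = 1) : rng f ≤ fix f := by
  intro v hv
  obtain ⟨x, rfl⟩ := mem_rng.1 hv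
  rw [mem_fix, map_sub, apply_apply_of_mul_self hf, sub_two, sub_two, add_comm]

theorem Bisect.rng_le_fix_of_commute (B : Bisect H) {l a : V ≃ₗ[ZMod 2] V} (hl : l ∈ H)
    (ha : a ∈ H) (aa : a * a = 1) (hc : l * a = a * l) : rng a ≤ fix l := by
  intro v hv
  have h1 : a v = v := mem_fix.1 (rng_le_fix_of_mul_self aa hv)
  refine mem_fix.2 (B.eq_of_sub_mem_rng hl ha h1 ?_)
  obtain ⟨x, rfl⟩ := mem_rng.1 hv
  refine sub_mem (mem_rng.2 ⟨l x, ?_⟩) (sub_mem_rng a x)
  rw [map_sub, show a (l x) = l (a x) by rw [← LinearEquiv.mul_apply, ← hc]; rfl]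

theorem finrank_plane [Finite V] {T P : Submodule (ZMod 2) V} {M : Set (V ≃ₗ[ZMod 2] V)} {m : ℕ}
    (hP : IsPlane H T P M (2 ^ m)) :
    finrank (ZMod 2) P = 2 * m ∧ finrank (ZMod 2) T + 2 * m = finrank (ZMod 2) V := by
  have h1 := hP.card_P
  rw [Module.natCard_eq_pow_finrank (K := ZMod 2), Nat.card_zmod, ← pow_mul] at h1
  have h2 := Nat.pow_right_injective le_rfl h1
  have := Submodule.finrank_add_eq_of_isCompl hP.compl
  omega

theorem OddMax.connected_false [Finite V] (B : Bisect H) {h : V ≃ₗ[ZMod 2] V} (hh : OddMax H h)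
    {m : ℕ} {M : Set (V ≃ₗ[ZMod 2] V)} (hP : IsPlane H (fix h) (rng h) M (2 ^ m))
    (hdim : ∀ f ∈ M, finrank (ZMod 2) (rng f) = m)
    {l a₀ : V ≃ₗ[ZMod 2] V} (hl : l ∈ H) (ll : l * l = 1) (hl1 : l ≠ 1)
    (hlm : finrank (ZMod 2) (rng l) = m) (hlT : ¬ fix h ≤ fix l) (ha₀ : a₀ ∈ M)
    (hla : l * a₀ ≠ a₀ * l) : False := by
  classical
  haveI : Finite (V ≃ₗ[ZMod 2] V) :=
    Finite.of_injective (fun g : V ≃ₗ[ZMod 2] V => (g : V → V)) DFunLike.coe_injective
  obtain ⟨hdP, hdT⟩ := finrank_plane hP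
  have hm0 : m ≠ 0 := fun e => by have := hP.two_le; rw [e] at this; simp at this
  have hlM : l ∉ M := fun h => hlT (hP.mem l h).2.2.2.1
  -- planes through `l`
  have good : ∀ a ∈ M, l * a ≠ a * l → ∃ (T' Q : Submodule (ZMod 2) V)
      (M' : Set (V ≃ₗ[ZMod 2] V)), IsPlane H T' Q M' (2 ^ m) ∧ l ∈ M' ∧ a ∈ M' ∧
      fix l ⊓ fix a ≤ T' := by
    intro a ha hne
    obtain ⟨aH, aa, a1, -, -⟩ := hP.mem a ha
    obtain ⟨n, hn, hn1⟩ : ∃ n, Odd (orderOf ((l * a) ^ n)) ∧ (l * a) ^ n ≠ 1 := by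
      by_contra hc
      push Not at hc
      exact hne (commute_of_mul_self ll aa (B.mul_self_of_no_odd (H.mul_mem hl aH) hc))
    set e := (l * a) ^ n with he
    have eH : e ∈ H := H.pow_mem (H.mul_mem hl aH) n
    have hle : fix l ⊓ fix a ≤ fix e :=
      le_trans (fix_le_fix_mul inf_le_left inf_le_right) (mem_fix_of_pow _ _)
    have := Submodule.finrank_sup_add_finrank_inf_eq (fix l) (fix a)
    have := Submodule.finrank_le (fix l ⊔ fix a)
    have := finrank_fix_add_rng' l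
    have := finrank_fix_add_rng' a
    have := hdim a ha
    have := Submodule.finrank_mono hle
    have := hh.max e eH hn1 hn
    have heq : finrank (ZMod 2) (fix e) = finrank (ZMod 2) (fix h) := by omega
    obtain ⟨m', M', hP', hall, hd'⟩ := OddMax.plane B (h := e)
      ⟨eH, hn1, hn, fun h' a b c => heq ▸ hh.max h' a b c⟩
    have hTT : fix l ⊓ fix a = fix e := Submodule.eq_of_le_of_finrank_le hle (by omega)
    have haM' := hall a aH aa a1 (hTT ▸ inf_le_right)
    have hmm : m' = m := by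
      have := (hd' a haM').1
      omega
    subst hmm
    exact ⟨_, _, M', hP', hall l hl ll hl1 (hTT ▸ inf_le_left), haM', hTT.le⟩
  -- roots in `P` fixed by `l` commute with `l`
  have fixroot : ∀ a ∈ M, ∀ v ∈ rng a, v ≠ 0 → l v = v → l * a = a * l := by
    intro a ha v hv hv0 hlv
    by_contra hne
    obtain ⟨T', Q, M', hQ, -, haM', hTT⟩ := good a ha hne
    exact hQ.not_mem_T ((hQ.mem a haM').2.2.2.2 hv) hv0
      (hTT ⟨mem_fix.2 hlv, rng_le_fix_of_mul_self (hP.mem a ha).2.1 hv⟩)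
  have commfix : ∀ a ∈ M, l * a = a * l → rng a ≤ fix l := fun a ha hc =>
    B.rng_le_fix_of_commute hl (hP.mem a ha).1 (hP.mem a ha).2.1 hc
  have exv : ∀ a ∈ M, ∃ v ∈ rng a, v ≠ 0 := by
    intro a ha
    by_contra hc
    push Not at hc
    exact (hP.mem a ha).2.2.1 (eq_one_of_fix_top fun x => sub_eq_zero.1 (hc _ (sub_mem_rng a x)))
  obtain ⟨v, hv, hv0⟩ : ∃ v ∈ rng h ⊓ fix l, v ≠ 0 := by
    by_contra hcon
    push Not at hcon
    have h0 : rng h ⊓ fix l = ⊥ := (Submodule.eq_bot_iff _).2 hcon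
    have e := Submodule.finrank_sup_add_finrank_inf_eq (rng h) (fix l)
    rw [h0, finrank_bot, add_zero] at e
    have := Submodule.finrank_le (rng h ⊔ fix l)
    have := finrank_fix_add_rng' l
    omega
  obtain ⟨r, hr, hvr⟩ := hP.cover v hv.1 hv0
  have hlr : l * r = r * l := fixroot r hr v hvr hv0 (mem_fix.1 hv.2)
  have noncomm : ∀ a ∈ M, a ≠ r → l * a ≠ a * l := by
    intro a ha hne hc
    obtain ⟨w, hw, hw0⟩ := exv a₀ ha₀
    have hle : rng h ≤ fix l := by
      rw [← hP.sup_rng ha hr hne]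
      exact sup_le (commfix a ha hc) (commfix r hr hlr)
    exact hla (fixroot a₀ ha₀ w hw hw0 (mem_fix.1 (hle ((hP.mem a₀ ha₀).2.2.2.2 hw))))
  obtain ⟨rH, rr, r1, rT, rP⟩ := hP.mem r hr
  -- the two commuting roots are disjoint
  have hdis : ∀ u ∈ rng r, u ∈ rng l → u = 0 := by
    intro u hu hu'
    by_contra hu0
    obtain ⟨z, hz⟩ := mem_rng.1 hu
    obtain ⟨y, hy⟩ := mem_rng.1 hu'
    obtain ⟨b, bH, b1, b2, b3, b4⟩ := B.swap rH z
    obtain ⟨-, -, b5⟩ := b4 l hl y (hy.trans hz.symm)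
    have huT := hP.not_mem_T (rP hu) hu0
    have hbu : b u = u := mem_fix.1 (b3 (rng_le_fix_of_mul_self rr hu))
    have hru : r u = u := mem_fix.1 (rng_le_fix_of_mul_self rr hu)
    have hb1 : b ≠ 1 := fun e => hu0 (by rw [← hz, ← b1, e]; simp)
    have hbr : b = r := by
      rcases hP.gen b bH (rT.trans b3) r hr with hc | hc
      · exact hP.fix_unique u huT b hc r hr hbu hru
      · exact absurd (mul_right_cancel ((hP.fix_unique u huT _ hc r hr
          (by rw [LinearEquiv.mul_apply, hru, hbu]) hru).trans (one_mul r).symm)) hb1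
    subst hbr
    have := finrank_fix_add_rng' l
    have := finrank_fix_add_rng' b
    have := hdim b hr
    exact hlT (rT.trans (Submodule.eq_of_le_of_finrank_le b5 (by omega)).ge)
  obtain ⟨a, ha, har⟩ : ∃ a ∈ M, a ≠ r := by
    by_contra hc
    push Not at hc
    have : M = {r} := Set.eq_singleton_iff_unique_mem.2 ⟨hr, hc⟩
    have h1 := hP.card_M
    rw [this, Nat.card_coe_set_eq, Set.ncard_singleton] at h1
    have := hP.two_le
    omega
  obtain ⟨T', Q, M', hQ, hlM', haM', -⟩ := good a ha (noncomm a ha har)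
  -- the group of a plane conjugates any root to any other
  have transport : ∀ (T₁ P₁ : Submodule (ZMod 2) V) (M₁ : Set (V ≃ₗ[ZMod 2] V)),
      IsPlane H T₁ P₁ M₁ (2 ^ m) → ∀ f ∈ M₁, ∀ f' ∈ M₁,
      ∃ g ∈ H, ∀ w ∈ rng f, g w ∈ rng f' := by
    intro T₁ P₁ M₁ hP₁ f hf f' hf'
    obtain ⟨u, hu, hu0⟩ : ∃ u ∈ rng f, u ≠ 0 := by
      by_contra hc
      push Not at hc
      exact (hP₁.mem f hf).2.2.1 (eq_one_of_fix_top fun x => sub_eq_zero.1 (hc _ (sub_mem_rng f x)))
    have huP := (hP₁.mem f hf).2.2.2.2 hu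
    have huT := hP₁.not_mem_T huP hu0
    choose ρ hρ hρu using fun g : M₁ => hP₁.cover (g.1 u) (hP₁.maps g.2 huP)
      (fun e => hu0 (g.1.map_eq_zero_iff.1 e))
    have hinj : Function.Injective (fun g : M₁ => (⟨ρ g, hρ g⟩ : M₁)) := by
      intro g g' e
      have e' : ρ g = ρ g' := congrArg Subtype.val e
      obtain ⟨gH, gg, -, -, -⟩ := hP₁.mem g.1 g.2
      obtain ⟨g'H, -, -, -, -⟩ := hP₁.mem g'.1 g'.2
      obtain ⟨ρH, ρρ, -, -, -⟩ := hP₁.mem _ (hρ g)
      have hfix : ρ g (g.1 u) = g.1 u := mem_fix.1 (rng_le_fix_of_mul_self ρρ (hρu g))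
      have hd : (g'.1 * g.1) (g.1 u) - g.1 u ∈ rng (ρ g) := by
        rw [LinearEquiv.mul_apply, apply_apply_of_mul_self gg]
        exact sub_mem (e' ▸ hρu g') (hρu g)
      have := B.eq_of_sub_mem_rng (H.mul_mem g'H gH) ρH hfix hd
      rw [LinearEquiv.mul_apply, apply_apply_of_mul_self gg] at this
      exact Subtype.ext (hP₁.inj g.1 g.2 g'.1 g'.2 u huT this.symm)
    obtain ⟨g, hg⟩ := (Finite.injective_iff_surjective.1 hinj) ⟨f', hf'⟩
    have hg' : ρ g = f' := congrArg Subtype.val hg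
    obtain ⟨gH, gg, -, -, -⟩ := hP₁.mem g.1 g.2
    refine ⟨g.1, gH, fun w hw => ?_⟩
    have hgi : g.1⁻¹ = g.1 := inv_eq_of_mul_eq_one_left gg
    have hin : ∀ x ∈ rng f, g.1 x ∈ rng (g.1 * f * g.1⁻¹) := fun x hx => by
      rw [mem_rng_conj, inv_apply_self]; exact hx
    have e : g.1 * f * g.1⁻¹ = f' := by
      refine hP₁.root_unique _ ?_ f' hf' (g.1 u) (fun e => hu0 (g.1.map_eq_zero_iff.1 e))
        (hin u hu) (hg' ▸ hρu g)
      rw [hgi]
      exact hP₁.triple _ g.2 _ hf _ g.2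
    exact e ▸ hin w hw
  obtain ⟨k₁, hk₁, hk₁r⟩ := transport _ _ _ hP r hr a ha
  obtain ⟨k₂, hk₂, hk₂a⟩ := transport _ _ _ hQ a haM' l hlM'
  set k := k₂ * k₁ with hk
  have hkr : ∀ w ∈ rng r, k w ∈ rng l := fun w hw => by
    rw [hk, LinearEquiv.mul_apply]; exact hk₂a _ (hk₁r w hw)
  have rl : rng r ≤ fix l := B.rng_le_fix_of_commute hl rH rr hlr
  have lr : rng l ≤ fix r := B.rng_le_fix_of_commute rH hl ll hlr.symm
  -- a vector showing that `r * l` moves something by a forbidden vector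
  let Φ : (rng h × fix h) →ₗ[ZMod 2] V :=
    (k.toLinearMap.comp (r.toLinearMap - LinearMap.id) + (l.toLinearMap - LinearMap.id)).comp
        ((rng h).subtype.comp (LinearMap.fst _ _ _)) +
      (l.toLinearMap - LinearMap.id).comp ((fix h).subtype.comp (LinearMap.snd _ _ _))
  have hΦ : ∀ x : rng h × fix h, Φ x = (k (r x.1.1 - x.1.1) + (l x.1.1 - x.1.1)) +
      (l x.2.1 - x.2.1) := fun x => rfl
  have hΦl : LinearMap.range Φ ≤ rng l := by
    rintro _ ⟨x, rfl⟩
    rw [hΦ]
    exact add_mem (add_mem (hkr _ (sub_mem_rng r _)) (sub_mem_rng l _)) (sub_mem_rng l _)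
  obtain ⟨x, hx, hxr⟩ : ∃ x, Φ x = 0 ∧ r x.1.1 - x.1.1 ≠ 0 := by
    by_contra hc
    push Not at hc
    let j : LinearMap.ker Φ →ₗ[ZMod 2] ((fix r ⊓ rng h : Submodule (ZMod 2) V) ×
        (fix h ⊓ fix l : Submodule (ZMod 2) V)) :=
      LinearMap.prod
        ((((rng h).subtype.comp (LinearMap.fst _ _ _)).comp (LinearMap.ker Φ).subtype).codRestrict _
          (fun y => ⟨mem_fix.2 (sub_eq_zero.1 (hc y.1 y.2)), y.1.1.2⟩))
        ((((fix h).subtype.comp (LinearMap.snd _ _ _)).comp (LinearMap.ker Φ).subtype).codRestrict _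
          (fun y => ⟨y.1.2.2, by
            have e := y.2
            rw [LinearMap.mem_ker, hΦ, hc y.1 y.2, map_zero, zero_add] at e
            have h2 : l y.1.1.1 = y.1.1.1 := by
              have hrf : y.1.1.1 ∈ rng r := by
                obtain ⟨f, hf, hfy⟩ : ∃ f ∈ M, y.1.1.1 ∈ rng f := by
                  by_cases h0 : y.1.1.1 = 0
                  · exact ⟨r, hr, h0 ▸ zero_mem _⟩
                  · exact hP.cover _ y.1.1.2 h0
                by_cases h0 : y.1.1.1 = 0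
                · exact h0 ▸ zero_mem _
                · have := hP.fix_unique _ (hP.not_mem_T y.1.1.2 h0) f hf r hr
                    (mem_fix.1 (rng_le_fix_of_mul_self (hP.mem f hf).2.1 hfy))
                    (sub_eq_zero.1 (hc y.1 y.2))
                  exact this ▸ hfy
              exact mem_fix.1 (rl hrf)
            rw [h2, sub_self, zero_add] at e
            exact mem_fix.2 (sub_eq_zero.1 e)⟩))
    have hj : Function.Injective j := fun y y' e => by
      apply Subtype.ext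
      exact Prod.ext (Subtype.ext (congrArg (fun t => t.1.1) e))
        (Subtype.ext (congrArg (fun t => t.2.1) e))
    have h1 := LinearMap.finrank_le_finrank_of_injective hj
    have h2 := LinearMap.finrank_range_add_finrank_ker Φ
    rw [Module.finrank_prod] at h1 h2
    have h3 := Submodule.finrank_mono hΦl
    have h4 : finrank (ZMod 2) (fix r ⊓ rng h : Submodule (ZMod 2) V) ≤ m := by
      rw [← hdim r hr]
      refine Submodule.finrank_mono fun w hw => ?_
      by_cases h0 : w = 0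
      · exact h0 ▸ zero_mem _
      · obtain ⟨f, hf, hfw⟩ := hP.cover w hw.2 h0
        exact hP.fix_unique _ (hP.not_mem_T hw.2 h0) f hf r hr
          (mem_fix.1 (rng_le_fix_of_mul_self (hP.mem f hf).2.1 hfw)) (mem_fix.1 hw.1) ▸ hfw
    refine hlT ?_
    have h5 : fix h ⊓ fix l = fix h :=
      Submodule.eq_of_le_of_finrank_le inf_le_left (by omega)
    exact h5 ▸ inf_le_right
  set α := r x.1.1 - x.1.1 with hα
  have hαr : α ∈ rng r := sub_mem_rng r _
  have hjα : (r * l) α = α := by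
    rw [LinearEquiv.mul_apply, mem_fix.1 (rl hαr),
      mem_fix.1 (rng_le_fix_of_mul_self rr hαr)]
  have hd : k α - α ∈ rng (r * l) := by
    refine mem_rng.2 ⟨x.1.1 + x.2.1, ?_⟩
    have e1 : r (l x.1.1 - x.1.1) = l x.1.1 - x.1.1 := mem_fix.1 (lr (sub_mem_rng l _))
    have e2 : r (l x.2.1 - x.2.1) = l x.2.1 - x.2.1 := mem_fix.1 (lr (sub_mem_rng l _))
    have e3 : r x.2.1 = x.2.1 := mem_fix.1 (rT x.2.2)
    rw [map_sub, sub_eq_iff_eq_add] at e1 e2
    rw [hΦ, ← hα, add_assoc, add_eq_zero_iff_eq_neg, neg_two] at hx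
    rw [LinearEquiv.mul_apply, map_add, map_add, e1, e2, e3, hx,
      show r x.1.1 = α + x.1.1 by rw [hα, sub_add_cancel], sub_two, sub_two, sub_two, sub_two]
    calc l x.1.1 + x.1.1 + (α + x.1.1) + (l x.2.1 + x.2.1 + x.2.1) + (x.1.1 + x.2.1)
        = l x.1.1 + x.1.1 + (l x.2.1 + x.2.1) + α + ((x.1.1 + x.1.1) + (x.2.1 + x.2.1)) := by abel
      _ = l x.1.1 + x.1.1 + (l x.2.1 + x.2.1) + α := by
        rw [add_self_two, add_self_two, add_zero, add_zero]
  have hkα := B.eq_of_sub_mem_rng (H.mul_mem hk₂ hk₁) (H.mul_mem rH hl) hjα hd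
  exact hxr (hdis α hαr (hkα ▸ hkr α hαr))

/-- In an irreducible group an element of odd order with largest fixed space fixes only zero. -/
theorem OddMax.fix_eq_bot [Finite V] (B : Bisect H) {h : V ≃ₗ[ZMod 2] V} (hh : OddMax H h)
    (hirr : ∀ U : Submodule (ZMod 2) V, (∀ h ∈ H, ∀ v ∈ U, h v ∈ U) → U = ⊥ ∨ U = ⊤) :
    fix h = ⊥ := by
  obtain ⟨m, M, hP, hall, hd⟩ := hh.plane B
  have hdim : ∀ f ∈ M, finrank (ZMod 2) (rng f) = m := fun f hf => (hd f hf).1
  -- a conjugate outside the plane centralises it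
  have conjcases : ∀ g ∈ H, ∀ f ∈ M, (g * f * g⁻¹ ∈ M) ∨
      ((∀ a ∈ M, g * f * g⁻¹ * a = a * (g * f * g⁻¹)) ∧ ¬ fix h ≤ fix (g * f * g⁻¹)) := by
    intro g hg f hf
    obtain ⟨fH, ff, f1, -, -⟩ := hP.mem f hf
    have hlH := H.mul_mem (H.mul_mem hg fH) (H.inv_mem hg)
    have hl1 : g * f * g⁻¹ ≠ 1 := by simpa using f1
    by_cases hT : fix h ≤ fix (g * f * g⁻¹)
    · exact Or.inl (hall _ hlH (mul_self_conj g ff) hl1 hT)
    · refine Or.inr ⟨fun a ha => ?_, hT⟩
      have hlm : finrank (ZMod 2) (rng (g * f * g⁻¹)) = m := by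
        have : rng (g * f * g⁻¹) = (rng f).map g.toLinearMap := by
          ext v
          rw [mem_rng_conj, Submodule.mem_map_equiv]
          rfl
        rw [this]
        exact (LinearEquiv.finrank_map_eq g _).trans (hdim f hf)
      by_contra hne
      exact hh.connected_false B hP hdim hlH (mul_self_conj g ff) hl1 hlm hT ha hne
  have hin : ∀ (g f : V ≃ₗ[ZMod 2] V), ∀ v ∈ rng f, g v ∈ rng (g * f * g⁻¹) := fun g f v hv => by
    rw [mem_rng_conj, inv_apply_self]; exact hv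
  have twoM : ∀ f : V ≃ₗ[ZMod 2] V, ∃ a ∈ M, a ≠ f := fun f => by
    by_contra hc
    push Not at hc
    have hsub : M ⊆ {f} := hc
    haveI : Finite (V ≃ₗ[ZMod 2] V) :=
      Finite.of_injective (fun g : V ≃ₗ[ZMod 2] V => (g : V → V)) DFunLike.coe_injective
    have h1 := Set.ncard_le_ncard hsub (Set.toFinite _)
    rw [← Nat.card_coe_set_eq, hP.card_M, Set.ncard_singleton] at h1
    have := hP.two_le
    omega
  have hs : IsPlane.Split H (fix h) (rng h) M := by
    intro g hg f hf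
    rcases conjcases g hg f hf with hc | ⟨hc, -⟩
    · exact Or.inl fun v hv => (hP.mem _ hc).2.2.2.2 (hin g f v hv)
    · right
      intro v hv
      obtain ⟨fH, ff, -, -, -⟩ := hP.mem f hf
      have hfixall : ∀ a ∈ M, a (g v) = g v := fun a ha =>
        mem_fix.1 (B.rng_le_fix_of_commute (hP.mem a ha).1
          (H.mul_mem (H.mul_mem hg fH) (H.inv_mem hg)) (mul_self_conj g ff) (hc a ha).symm
          (hin g f v hv))
      obtain ⟨a, ha⟩ := hP.nonempty
      obtain ⟨b, hb, hba⟩ := twoM a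
      by_contra hvT
      exact hba (hP.fix_unique _ hvT b hb a ha (hfixall b hb) (hfixall a ha))
  by_cases hex : ∃ g ∈ H, ∀ v ∈ rng h, g v ∈ fix h
  · exfalso
    obtain ⟨g, hg, hgT⟩ := hex
    obtain ⟨a, ha⟩ := hP.nonempty
    obtain ⟨aH, aa, a1, aT, aP⟩ := hP.mem a ha
    obtain ⟨α, hα, hα0⟩ : ∃ α ∈ rng a, α ≠ 0 := by
      by_contra hc
      push Not at hc
      exact a1 (eq_one_of_fix_top fun x => sub_eq_zero.1 (hc _ (sub_mem_rng a x)))
    have hβT : g α ∈ fix h := hgT α (aP hα)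
    have notP : g α ∉ rng h := fun e => hα0 (g.map_eq_zero_iff.1
      (Submodule.disjoint_def.1 hP.compl.disjoint _ hβT e))
    rcases conjcases g hg a ha with hc | ⟨hc, -⟩
    · exact notP ((hP.mem _ hc).2.2.2.2 (hin g a α hα))
    have hlH := H.mul_mem (H.mul_mem hg aH) (H.inv_mem hg)
    have hPfix : rng h ≤ fix (g * a * g⁻¹) := by
      intro u hu
      by_cases h0 : u = 0
      · exact h0 ▸ zero_mem _
      obtain ⟨f, hf, hfu⟩ := hP.cover u hu h0
      exact B.rng_le_fix_of_commute hlH (hP.mem f hf).1 (hP.mem f hf).2.1 (hc f hf) hfu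
    obtain ⟨x, hx⟩ := mem_rng.1 hα
    obtain ⟨t, ht, y, hy, rfl⟩ := Submodule.mem_sup.1
      (hP.compl.sup_eq_top ▸ Submodule.mem_top (x := x))
    rw [map_add, mem_fix.1 (aT ht), add_sub_add_left_eq_sub] at hx
    have hbfix : (a * (g * a * g⁻¹)) (g α) = g α := by
      rw [LinearEquiv.mul_apply,
        mem_fix.1 (rng_le_fix_of_mul_self (mul_self_conj g aa) (hin g a α hα)),
        mem_fix.1 (aT hβT)]
    have hd : g⁻¹ (g α) - g α ∈ rng (a * (g * a * g⁻¹)) := by
      refine mem_rng.2 ⟨y + g y, ?_⟩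
      have e1 : (g * a * g⁻¹) (g y) = g α + g y := by
        rw [LinearEquiv.mul_apply, LinearEquiv.mul_apply, inv_apply_self, ← map_add, ← hx,
          sub_add_cancel]
      have e2 : a (g y) = g y := mem_fix.1 (aT (hgT y hy))
      have e3 : a (g α) = g α := mem_fix.1 (aT hβT)
      rw [inv_apply_self, LinearEquiv.mul_apply, map_add, e1, mem_fix.1 (hPfix hy), map_add,
        map_add, e2, e3, show a y = α + y by rw [← hx, sub_add_cancel], sub_two, sub_two]
      calc α + y + (g α + g y) + (y + g y) = α + g α + ((y + y) + (g y + g y)) := by abel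
        _ = α + g α := by rw [add_self_two, add_self_two, add_zero, add_zero]
    have e := B.eq_of_sub_mem_rng (H.inv_mem hg) (H.mul_mem aH hlH) hbfix hd
    rw [inv_apply_self] at e
    exact notP (e ▸ aP hα)
  · push Not at hex
    rcases hirr (rng h) (fun g hg v hv => by
      rcases hP.image_cases hs hg with hc | hc
      · exact hc v hv
      · obtain ⟨w, hw, hw'⟩ := hex g hg
        exact absurd (hc w hw) hw') with e | e
    · exact absurd (eq_one_of_fix_top fun x => sub_eq_zero.1 (by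
        have := sub_mem_rng h x
        rwa [e, Submodule.mem_bot] at this)) hh.ne_one
    · have := hP.compl.disjoint
      rwa [e, disjoint_top] at this

end Cfsg.Agent.BinAff
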