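import Cfsg.Agent.BinAff.Plane

/-!
# Planes from elements of odd order (characteristic two)
-/

set_option autoImplicit false
set_option linter.style.haveILetI false

namespace Cfsg.Agent.BinAff

open Module (finrank)

variable {V : Type*} [AddCommGroup V] [Module (ZMod 2) V]
  {H : Subgroup (V ≃ₗ[ZMod 2] V)}

theorem add_self_two (x : V) : x + x = 0 := by
  rw [← two_smul (ZMod 2) x, show (2 : ZMod 2) = 0 from rfl, zero_smul]

theorem neg_two (x : V) : -x = x := neg_eq_of_add_eq_zero_left (add_self_two x)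

theorem sub_two (x y : V) : x - y = x + y := by rw [sub_eq_add_neg, neg_two]

/-- There are no elements of order four. -/
theorem Bisect.no_four (B : Bisect H) {h : V ≃ₗ[ZMod 2] V} (hh : h ∈ H)
    (h4 : (h * h) * (h * h) = 1) : h * h = 1 := by
  let f : V → V := fun z => h z - z
  have hff : ∀ z, (h * h) z - z = f (f z) := by
    intro z
    change h (h z) - z = h (h z - z) - (h z - z)
    rw [map_sub, sub_two, sub_two, sub_two, sub_two,
      show h (h z) + h z + (h z + z) = h (h z) + (h z + h z) + z by abel, add_self_two, add_zero]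
  by_contra hne
  obtain ⟨z₀, hz₀⟩ : ∃ z, f (f z) ≠ 0 := by
    by_contra hc
    push Not at hc
    exact hne (eq_one_of_fix_top fun x => sub_eq_zero.1 ((hff x).trans (hc x)))
  have h4z : f (f (f (f z₀))) = 0 := by
    rw [← hff, ← hff z₀, sub_eq_zero, map_sub, ← LinearEquiv.mul_apply, h4,
      LinearEquiv.coe_one, id, sub_two, sub_two, add_comm]
  obtain ⟨z, hz2, hz3⟩ : ∃ z, f (f z) ≠ 0 ∧ f (f (f z)) = 0 := by
    by_cases h3 : f (f (f z₀)) = 0
    · exact ⟨z₀, hz₀, h3⟩
    · exact ⟨f z₀, h3, h4z⟩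
  have hy : (h * h) (f z) = f z := sub_eq_zero.1 ((hff (f z)).trans hz3)
  exact hz2 (sub_eq_zero.2 (B.eq_of_sub_mem_rng hh (H.mul_mem hh hh) hy
    (mem_rng.2 ⟨z, hff z⟩)))

theorem Bisect.mul_self_of_no_odd [Finite V] (B : Bisect H) {h : V ≃ₗ[ZMod 2] V} (hh : h ∈ H)
    (hodd : ∀ n : ℕ, Odd (orderOf (h ^ n)) → h ^ n = 1) : h * h = 1 := by
  haveI : Finite (V ≃ₗ[ZMod 2] V) :=
    Finite.of_injective (fun g : V ≃ₗ[ZMod 2] V => (g : V → V)) DFunLike.coe_injective
  have hn0 : orderOf h ≠ 0 := (orderOf_pos h).ne'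
  obtain ⟨a, o, ho, he⟩ := Nat.exists_eq_two_pow_mul_odd hn0
  have hord : orderOf (h ^ (2 ^ a)) = o := by
    rw [orderOf_pow' h (by positivity), he, Nat.gcd_mul_right_left,
      Nat.mul_div_cancel_left _ (by positivity)]
  have h1 : h ^ (2 ^ a) = 1 := hodd _ (hord ▸ ho)
  clear hord he
  induction a with
  | zero => simp at h1; rw [h1, mul_one]
  | succ b ih =>
    cases b with
    | zero => simpa [pow_two] using h1
    | succ c =>
      apply ih
      have e : ∀ n, h ^ (2 ^ (n + 1)) = h ^ (2 ^ n) * h ^ (2 ^ n) := fun n => by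
        rw [← pow_add]; congr 1; ring
      rw [e]
      exact B.no_four (H.pow_mem hh _) (by rw [← e, ← e]; exact h1)

theorem Bisect.eq_zero_of_odd (B : Bisect H) {h : V ≃ₗ[ZMod 2] V}
    (ho : Odd (orderOf h)) {v : V} (hv : h v = v) (hr : v ∈ rng h) : v = 0 := by
  obtain ⟨x, rfl⟩ := mem_rng.1 hr
  have : ∀ n : ℕ, (h ^ n) x = x + n • (h x - x) := by
    intro n
    induction n with
    | zero => simp
    | succ n ih =>
      rw [pow_succ', LinearEquiv.mul_apply, ih, map_add, map_nsmul, hv, succ_nsmul]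
      abel
  have h0 := this (orderOf h)
  rw [pow_orderOf_eq_one, LinearEquiv.coe_one, id, left_eq_add] at h0
  obtain ⟨k, hk⟩ := ho
  rwa [hk, succ_nsmul, two_mul, add_nsmul, add_self_two, zero_add] at h0

theorem fix_eq_ker' (g : V ≃ₗ[ZMod 2] V) :
    fix g = LinearMap.ker (g.toLinearMap - LinearMap.id) := by
  ext x
  simp [mem_fix, sub_eq_zero]

theorem finrank_fix_add_rng' [Finite V] (g : V ≃ₗ[ZMod 2] V) :
    finrank (ZMod 2) (fix g) + finrank (ZMod 2) (rng g) = finrank (ZMod 2) V := by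
  rw [fix_eq_ker', add_comm]
  exact LinearMap.finrank_range_add_finrank_ker _

theorem Bisect.isCompl_odd [Finite V] (B : Bisect H) {h : V ≃ₗ[ZMod 2] V}
    (ho : Odd (orderOf h)) : IsCompl (fix h) (rng h) :=
  (Submodule.isCompl_iff_disjoint _ _ (finrank_fix_add_rng' h).ge).2
    (Submodule.disjoint_def.2 fun _ a b => B.eq_zero_of_odd ho (mem_fix.1 a) b)

/-- An element of odd order with the largest fixed space. -/
structure OddMax (H : Subgroup (V ≃ₗ[ZMod 2] V)) (h : V ≃ₗ[ZMod 2] V) : Prop where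
  mem : h ∈ H
  ne_one : h ≠ 1
  odd : Odd (orderOf h)
  max : ∀ h' ∈ H, h' ≠ 1 → Odd (orderOf h') →
    finrank (ZMod 2) (fix h') ≤ finrank (ZMod 2) (fix h)

theorem exists_oddMax [Finite V] (hh : ∃ h ∈ H, h ≠ 1 ∧ Odd (orderOf h)) :
    ∃ h, OddMax H h := by
  haveI : Finite (V ≃ₗ[ZMod 2] V) :=
    Finite.of_injective (fun g : V ≃ₗ[ZMod 2] V => (g : V → V)) DFunLike.coe_injective
  obtain ⟨h, a, b, c⟩ := hh
  obtain ⟨g, ⟨gH, g1, go⟩, hg⟩ := Set.exists_max_image
    {g : V ≃ₗ[ZMod 2] V | g ∈ H ∧ g ≠ 1 ∧ Odd (orderOf g)}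
    (fun g => finrank (ZMod 2) (fix g)) (Set.toFinite _) ⟨h, a, b, c⟩
  exact ⟨g, gH, g1, go, fun k x y z => hg k ⟨x, y, z⟩⟩

/-- The elements of `H` fixing `T` pointwise. -/
def stabT (H : Subgroup (V ≃ₗ[ZMod 2] V)) (T : Submodule (ZMod 2) V) :
    Subgroup (V ≃ₗ[ZMod 2] V) where
  carrier := {j | j ∈ H ∧ T ≤ fix j}
  one_mem' := ⟨H.one_mem, fun _ _ => rfl⟩
  mul_mem' := fun a b => ⟨H.mul_mem a.1 b.1, fix_le_fix_mul a.2 b.2⟩
  inv_mem' := fun a => ⟨H.inv_mem a.1, by rw [fix_inv]; exact a.2⟩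

theorem OddMax.plane [Finite V] (B : Bisect H) {h : V ≃ₗ[ZMod 2] V} (hh : OddMax H h) :
    ∃ (m : ℕ) (M : Set (V ≃ₗ[ZMod 2] V)), IsPlane H (fix h) (rng h) M (2 ^ m) ∧
      (∀ f ∈ H, f * f = 1 → f ≠ 1 → fix h ≤ fix f → f ∈ M) ∧
      ∀ f ∈ M, finrank (ZMod 2) (rng f) = m ∧ rng f ≤ fix f := by
  haveI : Finite (V ≃ₗ[ZMod 2] V) :=
    Finite.of_injective (fun g : V ≃ₗ[ZMod 2] V => (g : V → V)) DFunLike.coe_injective
  set T := fix h with hT
  set W := rng h with hW
  set K := stabT H T with hK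
  have hcompl : IsCompl T W := B.isCompl_odd hh.odd
  have hhK : h ∈ K := ⟨hh.mem, le_rfl⟩
  have oddfix : ∀ k ∈ K, k ≠ 1 → Odd (orderOf k) → fix k = T := fun k hk k1 ko =>
    (Submodule.eq_of_le_of_finrank_le hk.2 (hh.max k hk.1 k1 ko)).symm
  have stab2 : ∀ j ∈ K, ∀ c ∉ T, j c = c → j * j = 1 := by
    intro j hj c hc hjc
    refine B.mul_self_of_no_odd hj.1 fun n hn => ?_
    by_contra hne
    exact hc ((oddfix _ (K.pow_mem hj n) hne hn).le (mem_fix_of_pow j n hjc))
  have oddord : ∀ n : ℕ, Odd n → ∀ x : V, n • x = x := by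
    rintro n ⟨k, rfl⟩ x
    rw [succ_nsmul, two_mul, add_nsmul, add_self_two, zero_add]
  -- if a normalised set moves `y` only inside `T`, it fixes `y`
  have faith : ∀ n ∈ K, n ≠ 1 → Odd (orderOf n) → ∀ j ∈ K, ∀ y ∈ rng n,
      j y - y ∈ T → j y = y := by
    intro n hn n1 no j hj y hy hu
    obtain ⟨b, bH, b1, -, b3, b4⟩ := B.swap hj.1 y
    have key : ∀ i : ℕ, b ((n ^ i) y - y) = (n ^ i) y - y := by
      intro i
      obtain ⟨e, -, -⟩ := b4 (n ^ i * j * (n ^ i)⁻¹)
        (H.mul_mem (H.mul_mem (H.pow_mem hn.1 i) hj.1) (H.inv_mem (H.pow_mem hn.1 i))) ((n ^ i) y)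
        (by rw [LinearEquiv.mul_apply, LinearEquiv.mul_apply, inv_apply_self, ← map_sub,
              mem_fix.1 (mem_fix_of_pow n i (hn.2 hu))])
      rw [map_sub, e, b1, LinearEquiv.mul_apply, LinearEquiv.mul_apply, inv_apply_self]
      have := mem_fix.1 (mem_fix_of_pow n i (hn.2 hu))
      rw [map_sub] at this
      calc (n ^ i) (j y) - j y = (n ^ i) (j y) - (n ^ i) y - (j y - y) + ((n ^ i) y - y) := by abel
        _ = (n ^ i) y - y := by rw [this]; abel
    have hsum : ∑ i ∈ Finset.range (orderOf n), (n ^ i) y = 0 := by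
      refine B.eq_zero_of_odd no ?_ ?_
      · rw [map_sum]
        have e : ∀ i, n ((n ^ i) y) = (n ^ (i + 1)) y := fun i => by
          rw [pow_succ', LinearEquiv.mul_apply]
        simp only [e]
        rw [← sub_eq_zero, ← Finset.sum_sub_distrib,
          Finset.sum_range_sub (fun i => (n ^ i) y)]
        simp [pow_orderOf_eq_one]
      · refine sum_mem fun i _ => ?_
        obtain ⟨x, rfl⟩ := mem_rng.1 hy
        refine mem_rng.2 ⟨(n ^ i) x, ?_⟩
        rw [map_sub, ← LinearEquiv.mul_apply, ← LinearEquiv.mul_apply, ← pow_succ', pow_succ]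
    have hy' : ∑ i ∈ Finset.range (orderOf n), ((n ^ i) y - y) = y := by
      rw [Finset.sum_sub_distrib, hsum, Finset.sum_const, Finset.card_range, oddord _ no,
        zero_sub, neg_two]
    have : b y = y := by
      conv_lhs => rw [← hy']
      rw [map_sum, Finset.sum_congr rfl fun i _ => key i, hy']
    rw [← b1, this]
  have faith1 : ∀ j ∈ K, (∀ x, j x - x ∈ T) → j = 1 := by
    intro j hj hall
    refine eq_one_of_fix_top fun x => ?_
    obtain ⟨t, ht, y, hy, rfl⟩ := Submodule.mem_sup.1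
      (hcompl.sup_eq_top ▸ Submodule.mem_top (x := x))
    rw [map_add, mem_fix.1 (hj.2 ht), faith h hhK hh.ne_one hh.odd j hj y hy (hall y)]
  have comm_pres : ∀ a k : V ≃ₗ[ZMod 2] V, a * k = k * a → ∀ z,
      a (k z - z) = k (a z) - a z := by
    intro a k hc z
    rw [map_sub, ← LinearEquiv.mul_apply, hc, LinearEquiv.mul_apply]
  have cit : ∀ a ∈ K, a * a = 1 → a ≠ 1 → ∀ k ∈ K, k ≠ 1 → Odd (orderOf k) →
      a * k ≠ k * a := by
    intro a ha aa a1 k hk k1 ko hc
    have hkf := oddfix k hk k1 ko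
    have hkc : IsCompl T (rng k) := hkf ▸ B.isCompl_odd ko
    obtain ⟨x, hx⟩ : ∃ x, a x - x ∉ T := by
      by_contra hc'
      push Not at hc'
      exact a1 (faith1 a ha hc')
    obtain ⟨t, ht, y, hy, rfl⟩ := Submodule.mem_sup.1
      (hkc.sup_eq_top ▸ Submodule.mem_top (x := x))
    rw [map_add, mem_fix.1 (ha.2 ht), add_sub_add_left_eq_sub] at hx
    obtain ⟨z, rfl⟩ := mem_rng.1 hy
    set w := a (k z - z) - (k z - z)
    have haw : a w = w := by
      rw [map_sub, apply_apply_of_mul_self aa]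
      simp only [w, sub_two]
      rw [add_comm]
    have hkw : k w - w ∈ rng a := by
      refine mem_rng.2 ⟨k (k z - z) - (k z - z), ?_⟩
      simp only [w, map_sub]
      rw [show a (k (k z)) = k (a (k z)) by rw [← LinearEquiv.mul_apply, hc]; rfl,
        show a (k z) = k (a z) by rw [← LinearEquiv.mul_apply, hc]; rfl]
      abel
    exact hx (hkf ▸ mem_fix.2 (B.eq_of_sub_mem_rng hk.1 ha.1 haw hkw) : w ∈ T)
  -- existence of vectors with nontrivial stabiliser
  have swapK : ∀ n ∈ K, n ≠ 1 → Odd (orderOf n) → ∀ y, n y ≠ y →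
      ∃ b ∈ K, b (n y - y) = n y - y ∧ b y = n y ∧ b ≠ 1 := by
    intro n hn n1 no y hy
    obtain ⟨b, bH, b1, b2, b3, -⟩ := B.swap hn.1 y
    refine ⟨b, ⟨bH, hn.2.trans b3⟩, ?_, b1, fun e => hy (by rw [← b1, e]; rfl)⟩
    rw [map_sub, b1, b2, sub_two, sub_two, add_comm]
  -- Sylow 2-subgroup
  haveI : Fact (Nat.Prime 2) := ⟨Nat.prime_two⟩
  let R : Sylow 2 K := default
  have hodd_of_two : ∀ (S : Subgroup K), IsPGroup 2 S → ∀ g ∈ S,
      Odd (orderOf g) → g = 1 := by
    intro S hS g hg ho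
    obtain ⟨k, hk⟩ := hS ⟨g, hg⟩
    have hk' : g ^ (2 ^ k) = 1 := congrArg Subtype.val hk
    obtain ⟨i, -, hi⟩ := (Nat.dvd_prime_pow Nat.prime_two).1 (orderOf_dvd_of_pow_eq_one hk')
    rcases Nat.eq_zero_or_pos i with h0 | h0
    · exact orderOf_eq_one_iff.1 (by rw [hi, h0, pow_zero])
    · rw [hi, Nat.odd_pow_iff h0.ne'] at ho
      exact absurd ho (by decide)
  have twosq : ∀ (S : Subgroup K), IsPGroup 2 S → ∀ r ∈ S, (r * r : K) = 1 := by
    intro S hS r hr
    apply Subtype.ext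
    refine B.mul_self_of_no_odd r.2.1 fun n hn => ?_
    have := hodd_of_two S hS (r ^ n) (S.pow_mem hr n) (by rwa [← Subgroup.orderOf_coe])
    simpa using congrArg Subtype.val this
  have Rsq : ∀ r ∈ (R : Subgroup K), r * r = 1 := twosq _ R.isPGroup'
  have Rcomm : ∀ r ∈ (R : Subgroup K), ∀ s ∈ (R : Subgroup K), r * s = s * r := fun r hr s hs =>
    commute_of_mul_self (Rsq r hr) (Rsq s hs) (Rsq _ (mul_mem hr hs))
  have normR : ∀ n ∈ Subgroup.normalizer ((R : Subgroup K) : Set K), Odd (orderOf n) → n = 1 := by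
    intro n hnR no
    by_contra n1
    have n1' : (n : V ≃ₗ[ZMod 2] V) ≠ 1 := fun e => n1 (Subtype.ext e)
    have no' : Odd (orderOf (n : V ≃ₗ[ZMod 2] V)) := by rwa [Subgroup.orderOf_coe]
    have hnf := oddfix _ n.2 n1' no'
    have hnc : IsCompl T (rng (n : V ≃ₗ[ZMod 2] V)) := hnf ▸ B.isCompl_odd no'
    -- vectors of the moved space sent into themselves modulo `T`
    obtain ⟨y, hyW, hy0, hyR⟩ : ∃ y ∈ rng (n : V ≃ₗ[ZMod 2] V), y ≠ 0 ∧
        ∀ r ∈ (R : Subgroup K), (r : V ≃ₗ[ZMod 2] V) y - y ∈ T := by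
      let act : MulAction (R : Subgroup K) (V ⧸ T) :=
        { smul := fun r => Submodule.mapQ T T (r : V ≃ₗ[ZMod 2] V).toLinearMap
            (fun t ht => by
              rw [Submodule.mem_comap]
              change ((r : K) : V ≃ₗ[ZMod 2] V) t ∈ T
              rw [mem_fix.1 ((r : K).2.2 ht)]
              exact ht)
          one_smul := fun q => by
            induction q using Submodule.Quotient.induction_on with
            | H x => rfl
          mul_smul := fun r s q => by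
            induction q using Submodule.Quotient.induction_on with
            | H x => rfl }
      have htop : T ≠ ⊤ := fix_ne_top hh.ne_one
      haveI : Finite (V ⧸ T) := Finite.of_surjective _ (Submodule.Quotient.mk_surjective T)
      haveI : Nontrivial (V ⧸ T) := Submodule.Quotient.nontrivial_iff.2 htop
      have h2 : 2 ∣ Nat.card (V ⧸ T) := by
        rw [Module.natCard_eq_pow_finrank (K := ZMod 2), Nat.card_zmod]
        exact dvd_pow_self 2 Module.finrank_pos.ne'
      have h0 : (0 : V ⧸ T) ∈ MulAction.fixedPoints (R : Subgroup K) (V ⧸ T) := fun r => map_zero _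
      obtain ⟨q, hq, hq0⟩ := R.isPGroup'.exists_fixed_point_of_prime_dvd_card_of_fixed_point
        (V ⧸ T) h2 h0
      obtain ⟨x, rfl⟩ := Submodule.Quotient.mk_surjective T q
      obtain ⟨t, ht, y, hy, rfl⟩ := Submodule.mem_sup.1
        (hnc.sup_eq_top ▸ Submodule.mem_top (x := x))
      refine ⟨y, hy, fun e => hq0 ?_, fun r hr => ?_⟩
      · subst e
        rw [add_zero]
        exact ((Submodule.Quotient.mk_eq_zero T).2 ht).symm
      · have e := hq ⟨r, hr⟩
        change Submodule.Quotient.mk ((r : V ≃ₗ[ZMod 2] V) (t + y)) =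
          Submodule.Quotient.mk (t + y) at e
        rwa [Submodule.Quotient.eq, map_add, mem_fix.1 (r.2.2 ht), add_sub_add_left_eq_sub] at e
    have hfixy : ∀ r ∈ (R : Subgroup K), (r : V ≃ₗ[ZMod 2] V) y = y := fun r hr =>
      faith _ n.2 n1' no' _ r.2 y hyW (hyR r hr)
    have hny : (n : V ≃ₗ[ZMod 2] V) y ≠ y := fun e =>
      hy0 (Submodule.disjoint_def.1 hnc.disjoint y (hnf ▸ mem_fix.2 e) hyW)
    obtain ⟨b, hbK, hbu, hby, -⟩ := swapK _ n.2 n1' no' y hny
    set u := (n : V ≃ₗ[ZMod 2] V) y - y with hu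
    have huT : u ∉ T := fun e => hny (sub_eq_zero.1
      (Submodule.disjoint_def.1 hnc.disjoint u e (sub_mem_rng _ y)))
    have hRu : ∀ r ∈ (R : Subgroup K), (r : V ≃ₗ[ZMod 2] V) u = u := by
      intro r hr
      have hr' : n⁻¹ * r * n ∈ (R : Subgroup K) := by
        have := (Subgroup.mem_normalizer_iff.1 (Subgroup.inv_mem _ hnR) r).1 hr
        rwa [inv_inv] at this
      have e := hfixy _ hr'
      simp only [Subgroup.coe_mul, Subgroup.coe_inv, LinearEquiv.mul_apply] at e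
      have e' := congrArg (n : V ≃ₗ[ZMod 2] V) e
      rw [apply_inv_self] at e'
      rw [hu, map_sub, e', hfixy r hr]
    let S : Subgroup K :=
      { carrier := {s | (s : V ≃ₗ[ZMod 2] V) u = u}
        one_mem' := rfl
        mul_mem' := fun {a c} ha hc => by
          change (a : V ≃ₗ[ZMod 2] V) ((c : V ≃ₗ[ZMod 2] V) u) = u
          rw [hc, ha]
        inv_mem' := fun {a} ha => by
          change ((a : V ≃ₗ[ZMod 2] V))⁻¹ u = u
          conv_lhs => rw [← ha]
          exact inv_apply_self _ _ }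
    have hS : IsPGroup 2 S := fun s => ⟨1, Subtype.ext (Subtype.ext (by
      simpa [pow_two] using stab2 _ s.1.2 u huT s.2))⟩
    have hRS : S = (R : Subgroup K) := R.is_maximal' hS hRu
    have hb : (⟨b, hbK⟩ : K) ∈ (R : Subgroup K) := hRS ▸ (show b u = u from hbu)
    exact hny (hby.symm.trans (hfixy _ hb))
  have hburn : Subgroup.normalizer ((R : Subgroup K) : Set K) ≤
      Subgroup.centralizer ((R : Subgroup K) : Set K) := by
    have h2 : IsPGroup 2 (Subgroup.normalizer ((R : Subgroup K) : Set K)) := by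
      intro g
      obtain ⟨a, o, ho, he⟩ := Nat.exists_eq_two_pow_mul_odd (orderOf_pos g).ne'
      refine ⟨a, ?_⟩
      have hord : orderOf (g ^ (2 ^ a)) = o := by
        rw [orderOf_pow' g (by positivity), he, Nat.gcd_mul_right_left,
          Nat.mul_div_cancel_left _ (by positivity)]
      have := normR _ (g ^ (2 ^ a)).2 (by rw [Subgroup.orderOf_coe, hord]; exact ho)
      exact Subtype.ext this
    have := R.is_maximal' h2 Subgroup.le_normalizer
    rw [this]
    intro r hr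
    rw [Subgroup.mem_centralizer_iff]
    exact fun s hs => Rcomm s hs r hr
  set O := (MonoidHom.transferSylow R hburn).ker with hO
  have hOc : O.IsComplement' (R : Subgroup K) := MonoidHom.ker_transferSylow_isComplement' R hburn
  have oddO : ∀ k ∈ O, Odd (orderOf k) := by
    intro k hk
    refine (Nat.not_even_iff_odd.1 fun he => ?_)
    have hnd : ¬ 2 ∣ Nat.card O := by
      rw [← hOc.index_eq_card]
      exact R.not_dvd_index
    exact hnd (he.two_dvd.trans (by
      rw [← Subgroup.orderOf_mk k hk]; exact orderOf_dvd_natCard _))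
  have decomp : ∀ j : K, ∃ k ∈ O, ∃ r ∈ (R : Subgroup K), j = k * r := by
    intro j
    obtain ⟨⟨⟨k, hk⟩, ⟨r, hr⟩⟩, e, -⟩ := hOc.existsUnique j
    exact ⟨k, hk, r, hr, e.symm⟩
  have oddmemO : ∀ k : K, Odd (orderOf k) → k ∈ O := by
    intro k ho
    obtain ⟨i, hi⟩ := R.isPGroup' (MonoidHom.transferSylow R hburn k)
    rw [hO, MonoidHom.mem_ker]
    have hdvd : orderOf (MonoidHom.transferSylow R hburn k) ∣ orderOf k := orderOf_map_dvd _ k
    have h2 := orderOf_dvd_of_pow_eq_one hi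
    rw [← orderOf_eq_one_iff]
    exact Nat.eq_one_of_dvd_coprimes (Nat.Coprime.pow_left i (Nat.coprime_two_left.2 ho)) h2 hdvd
  have hKodd : ∀ k : K, k ∈ O → k ≠ 1 → ((k : V ≃ₗ[ZMod 2] V) ≠ 1 ∧
      Odd (orderOf (k : V ≃ₗ[ZMod 2] V))) := fun k hk k1 =>
    ⟨fun e => k1 (Subtype.ext e), by rw [Subgroup.orderOf_coe]; exact oddO k hk⟩
  have inverts : ∀ a ∈ (R : Subgroup K), a ≠ 1 → ∀ k ∈ O, a * k * a⁻¹ = k⁻¹ := by
    intro a ha a1 k hk
    let φ : O → O := fun k => ⟨a * k * a⁻¹, (MonoidHom.normal_ker _).conj_mem _ k.2 a⟩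
    let φh : O →* O :=
      { toFun := φ
        map_one' := Subtype.ext (by simp [φ])
        map_mul' := fun x y => Subtype.ext (by simp [φ, mul_assoc]) }
    have hfpf : MonoidHom.FixedPointFree φh := by
      intro x hx
      by_contra x1
      obtain ⟨x1', xo⟩ := hKodd x.1 x.2 fun e => x1 (Subtype.ext e)
      refine cit _ a.2 (congrArg Subtype.val (Rsq a ha)) (fun e => a1 (Subtype.ext e)) _ x.1.2
        x1' xo ?_
      have e : a * (x : K) * a⁻¹ = x := congrArg Subtype.val hx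
      exact congrArg Subtype.val (show a * (x : K) = x * a by
        conv_rhs => rw [← e]
        group)
    have hinv : Function.Involutive φh := fun x => Subtype.ext (by
      change a * (a * x * a⁻¹) * a⁻¹ = x
      rw [show a * (a * (x : K) * a⁻¹) * a⁻¹ = (a * a) * x * (a * a)⁻¹ by group, Rsq a ha]
      simp)
    exact congrArg Subtype.val (congrFun (hfpf.coe_eq_inv_of_involutive hinv) ⟨k, hk⟩)
  have hhO : (⟨h, hhK⟩ : K) ∈ O := oddmemO _ (by rw [← Subgroup.orderOf_coe]; exact hh.odd)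
  have hh1 : (⟨h, hhK⟩ : K) ≠ 1 := fun e => hh.ne_one (congrArg Subtype.val e)
  obtain ⟨a, haR, ha1⟩ : ∃ a ∈ (R : Subgroup K), a ≠ 1 := by
    by_contra hc
    push Not at hc
    obtain ⟨y, hy⟩ : ∃ y, h y ≠ y := by
      by_contra hc'
      push Not at hc'
      exact hh.ne_one (eq_one_of_fix_top hc')
    obtain ⟨b, hbK, hbu, -, hb1⟩ := swapK h hhK hh.ne_one hh.odd y hy
    have huT : h y - y ∉ T := fun e => hy (sub_eq_zero.1
      (Submodule.disjoint_def.1 hcompl.disjoint _ e (sub_mem_rng h y)))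
    have bb := stab2 b hbK _ huT hbu
    obtain ⟨k, hk, r, hr, e⟩ := decomp ⟨b, hbK⟩
    rw [hc r hr, mul_one] at e
    have hb : (⟨b, hbK⟩ : K) * ⟨b, hbK⟩ = 1 := Subtype.ext bb
    rw [e] at hb
    have := oddO k hk
    have hd : orderOf k ∣ 2 := orderOf_dvd_of_pow_eq_one (by rw [pow_two, hb])
    rcases (Nat.dvd_prime Nat.prime_two).1 hd with h1 | h1
    · exact hb1 (congrArg Subtype.val (e.trans (orderOf_eq_one_iff.1 h1)))
    · rw [h1] at this
      exact absurd this (by decide)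
  have Rtwo : ∀ r ∈ (R : Subgroup K), r = 1 ∨ r = a := by
    intro r hr
    by_contra hc
    push Not at hc
    have e1 := inverts r hr hc.1 _ hhO
    have e2 := inverts a haR ha1 _ hhO
    have hra : r * a ≠ 1 := fun e => hc.2 (by
      calc r = r * (a * a) := by rw [Rsq a haR, mul_one]
        _ = a := by rw [← mul_assoc, e, one_mul])
    refine cit _ (r * a).2 (congrArg Subtype.val (Rsq _ (mul_mem hr haR)))
      (fun e => hra (Subtype.ext e)) h hhK hh.ne_one hh.odd ?_
    refine congrArg Subtype.val (show (r * a) * (⟨h, hhK⟩ : K) = ⟨h, hhK⟩ * (r * a) from ?_)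
    calc (r * a) * (⟨h, hhK⟩ : K) = r * (a * ⟨h, hhK⟩ * a⁻¹) * a := by group
      _ = (r * ⟨h, hhK⟩ * r⁻¹)⁻¹ * (r * a) := by rw [e2]; group
      _ = ⟨h, hhK⟩ * (r * a) := by rw [e1, inv_inv]
  have Ocomm : ∀ x ∈ O, ∀ y ∈ O, x * y = y * x := by
    intro x hx y hy
    have e := inverts a haR ha1 _ (mul_mem hx hy)
    rw [show a * (x * y) * a⁻¹ = (a * x * a⁻¹) * (a * y * a⁻¹) by group,
      inverts a haR ha1 x hx, inverts a haR ha1 y hy, mul_inv_rev] at e
    have := congrArg (·⁻¹) e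
    simp only [mul_inv_rev, inv_inv] at this
    exact this.symm
  -- the involutions
  let M : Set (V ≃ₗ[ZMod 2] V) := {f | f ∈ K ∧ f * f = 1 ∧ f ≠ 1}
  have Mform : ∀ f (hf : f ∈ M), ∃ k ∈ O, (⟨f, hf.1⟩ : K) = k * a := by
    intro f hf
    obtain ⟨k, hk, r, hr, e⟩ := decomp ⟨f, hf.1⟩
    rcases Rtwo r hr with rfl | rfl
    · exfalso
      rw [mul_one] at e
      have hd : orderOf k ∣ 2 := orderOf_dvd_of_pow_eq_one
        (by rw [pow_two, ← e]; exact Subtype.ext hf.2.1)
      rcases (Nat.dvd_prime Nat.prime_two).1 hd with h1 | h1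
      · exact hf.2.2 (congrArg Subtype.val (e.trans (orderOf_eq_one_iff.1 h1)))
      · have := oddO k hk
        rw [h1] at this
        exact absurd this (by decide)
    · exact ⟨k, hk, e⟩
  have anotO : a ∉ O := fun hk => by
    have hd : orderOf a ∣ 2 := orderOf_dvd_of_pow_eq_one (by rw [pow_two, Rsq a haR])
    rcases (Nat.dvd_prime Nat.prime_two).1 hd with h1 | h1
    · exact ha1 (orderOf_eq_one_iff.1 h1)
    · have := oddO a hk
      rw [h1] at this
      exact absurd this (by decide)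
  have kaM : ∀ k ∈ O, ((k * a : K) : V ≃ₗ[ZMod 2] V) ∈ M := by
    intro k hk
    refine ⟨(k * a).2, congrArg Subtype.val (show (k * a) * (k * a) = 1 from ?_), fun e => ?_⟩
    · calc (k * a) * (k * a) = k * (a * k * a⁻¹) * (a * a) := by group
        _ = 1 := by rw [inverts a haR ha1 k hk, Rsq a haR]; group
    · have : k * a = 1 := Subtype.ext e
      exact anotO (eq_inv_of_mul_eq_one_right this ▸ inv_mem hk)
  have prodO : ∀ f (hf : f ∈ M) g (hg : g ∈ M), (⟨f, hf.1⟩ * ⟨g, hg.1⟩ : K) ∈ O := by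
    intro f hf g hg
    obtain ⟨k, hk, e1⟩ := Mform f hf
    obtain ⟨l, hl, e2⟩ := Mform g hg
    rw [e1, e2, show k * a * (l * a) = k * (a * l * a⁻¹) * (a * a) by group,
      inverts a haR ha1 l hl, Rsq a haR, mul_one]
    exact mul_mem hk (inv_mem hl)
  have notO : ∀ f (hf : f ∈ M), (⟨f, hf.1⟩ : K) ∉ O := by
    intro f hf hk
    obtain ⟨k, hk', e⟩ := Mform f hf
    rw [e] at hk
    exact anotO ((mul_mem_cancel_left hk').1 hk)
  have eq_of_fix : ∀ c ∉ T, ∀ f ∈ M, ∀ g ∈ M, f c = c → g c = c → f = g := by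
    intro c hc f hf g hg hfc hgc
    by_contra hne
    have hfg := prodO f hf g hg
    have hne' : (⟨f, hf.1⟩ * ⟨g, hg.1⟩ : K) ≠ 1 := by
      intro e
      have e' : f * g = 1 := congrArg Subtype.val e
      exact hne (by
        calc f = f * (g * g) := by rw [hg.2.1, mul_one]
          _ = g := by rw [← mul_assoc, e', one_mul])
    obtain ⟨h1, h2⟩ := hKodd _ hfg hne'
    exact hc ((oddfix _ (K.mul_mem hf.1 hg.1) h1 h2).le
      (mem_fix.2 (by change f (g c) = c; rw [hgc, hfc])))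
  have fexists : ∀ c ∉ T, ∃ f ∈ M, f c = c := by
    intro c hc
    by_contra hne
    push Not at hne
    have hreg : ∀ j ∈ H, T ≤ fix j → j c = c → j = 1 := by
      intro j jH jT jc
      by_contra j1
      exact hne j ⟨⟨jH, jT⟩, stab2 j ⟨jH, jT⟩ c hc jc, j1⟩ jc
    have e := B.mul_self_of_regular hreg hh.mem le_rfl
    obtain ⟨k, hk⟩ := hh.odd
    have hd : orderOf h ∣ 2 := orderOf_dvd_of_pow_eq_one (by rw [pow_two, e])
    rcases (Nat.dvd_prime Nat.prime_two).1 hd with h1 | h1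
    · exact hh.ne_one (orderOf_eq_one_iff.1 h1)
    · omega
  -- every odd element preserves `W`, each involution acts on it
  have finv : ∀ f ∈ M, f * h = h⁻¹ * f := by
    intro f hf
    obtain ⟨k, hk, e⟩ := Mform f hf
    refine congrArg Subtype.val (show (⟨f, hf.1⟩ : K) * ⟨h, hhK⟩ =
      (⟨h, hhK⟩)⁻¹ * ⟨f, hf.1⟩ from ?_)
    rw [e, show k * a * (⟨h, hhK⟩ : K) = k * (a * ⟨h, hhK⟩ * a⁻¹) * a by group,
      inverts a haR ha1 _ hhO, Ocomm k hk _ (inv_mem hhO), mul_assoc]
  have fW : ∀ f ∈ M, ∀ v ∈ W, f v ∈ W := by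
    intro f hf v hv
    obtain ⟨z, rfl⟩ := mem_rng.1 hv
    refine mem_rng.2 ⟨h⁻¹ (f z), ?_⟩
    rw [map_sub, ← LinearEquiv.mul_apply f, finv f hf, LinearEquiv.mul_apply, apply_inv_self,
      sub_two, sub_two, add_comm]
  have rngW : ∀ f ∈ M, rng f ≤ W := by
    intro f hf v hv
    obtain ⟨x, rfl⟩ := mem_rng.1 hv
    obtain ⟨t, ht, y, hy, rfl⟩ := Submodule.mem_sup.1
      (hcompl.sup_eq_top ▸ Submodule.mem_top (x := x))
    rw [map_add, mem_fix.1 (hf.1.2 ht), add_sub_add_left_eq_sub]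
    exact sub_mem (fW f hf y hy) hy
  have rngfix : ∀ f ∈ M, rng f ≤ fix f := by
    intro f hf v hv
    obtain ⟨x, rfl⟩ := mem_rng.1 hv
    rw [mem_fix, map_sub, apply_apply_of_mul_self hf.2.1, sub_two, sub_two, add_comm]
  have dims : ∀ f ∈ M, 2 * finrank (ZMod 2) (rng f) = finrank (ZMod 2) W ∧
      rng f = fix f ⊓ W := by
    intro f hf
    let A : Submodule (ZMod 2) V := fix f ⊓ W
    have hsup : fix f = T ⊔ A := by
      refine le_antisymm (fun x hx => ?_) (sup_le hf.1.2 inf_le_left)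
      obtain ⟨t, ht, y, hy, rfl⟩ := Submodule.mem_sup.1
        (hcompl.sup_eq_top ▸ Submodule.mem_top (x := x))
      rw [mem_fix, map_add, mem_fix.1 (hf.1.2 ht), add_right_inj] at hx
      exact Submodule.add_mem_sup ht ⟨mem_fix.2 hx, hy⟩
    have e1 := Submodule.finrank_sup_add_finrank_inf_eq T A
    rw [(hcompl.disjoint.mono_right inf_le_right).eq_bot, finrank_bot, add_zero, ← hsup] at e1
    have hdis : Disjoint A (A.map h.toLinearMap) := by
      refine Submodule.disjoint_def.2 fun v hv hv' => ?_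
      obtain ⟨z, hz, rfl⟩ := Submodule.mem_map.1 hv'
      have e : f (h z) = h z := mem_fix.1 hv.1
      rw [← LinearEquiv.mul_apply, finv f hf, LinearEquiv.mul_apply, mem_fix.1 hz.1] at e
      have e' : (h * h) z = z := by
        rw [LinearEquiv.mul_apply]
        have := congrArg h e
        rw [apply_inv_self] at this
        exact this.symm
      have hh2 : h * h ≠ 1 := fun e2 => by
        obtain ⟨k, hk⟩ := hh.odd
        have hd : orderOf h ∣ 2 := orderOf_dvd_of_pow_eq_one (by rw [pow_two, e2])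
        rcases (Nat.dvd_prime Nat.prime_two).1 hd with h1 | h1
        · exact hh.ne_one (orderOf_eq_one_iff.1 h1)
        · omega
      have ho : Odd (orderOf (h * h)) := by
        rw [← pow_two, orderOf_pow' h two_ne_zero,
          Nat.Coprime.gcd_eq_one (Nat.coprime_two_right.2 hh.odd), Nat.div_one]
        exact hh.odd
      have : z = 0 := Submodule.disjoint_def.1 hcompl.disjoint z
        ((oddfix _ (K.mul_mem hhK hhK) hh2 ho).le (mem_fix.2 e')) hz.2
      rw [this, map_zero]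
    have hmapW : A.map h.toLinearMap ≤ W := by
      rintro _ ⟨z, hz, rfl⟩
      obtain ⟨x, rfl⟩ := mem_rng.1 hz.2
      exact mem_rng.2 ⟨h x, by simp⟩
    have e2 := Submodule.finrank_sup_add_finrank_inf_eq A (A.map h.toLinearMap)
    rw [hdis.eq_bot, finrank_bot, add_zero, LinearEquiv.finrank_map_eq h A] at e2
    have : finrank (ZMod 2) (A ⊔ A.map h.toLinearMap : Submodule (ZMod 2) V) ≤ finrank (ZMod 2) W :=
      Submodule.finrank_mono (sup_le (inf_le_right : A ≤ W) hmapW)
    have hle : rng f ≤ A := le_inf (rngfix f hf) (rngW f hf)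
    have := Submodule.finrank_mono hle
    have := finrank_fix_add_rng' f
    have := finrank_fix_add_rng' h
    have : finrank (ZMod 2) T = finrank (ZMod 2) (fix h) := rfl
    have : finrank (ZMod 2) W = finrank (ZMod 2) (rng h) := rfl
    have : finrank (ZMod 2) (fix f ⊓ W : Submodule (ZMod 2) V) = finrank (ZMod 2) A := rfl
    exact ⟨by omega, Submodule.eq_of_le_of_finrank_le hle (by omega)⟩
  set m := finrank (ZMod 2) W / 2 with hm
  have dimM : ∀ f ∈ M, finrank (ZMod 2) (rng f) = m := fun f hf => by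
    have := (dims f hf).1
    omega
  have haM : (a : V ≃ₗ[ZMod 2] V) ∈ M :=
    ⟨a.2, congrArg Subtype.val (Rsq a haR), fun e => ha1 (Subtype.ext e)⟩
  have cardW : Nat.card W = (2 ^ m) ^ 2 := by
    rw [Module.natCard_eq_pow_finrank (K := ZMod 2), Nat.card_zmod, ← pow_mul]
    congr 1
    have := (dims _ haM).1
    omega
  have hq2 : 2 ≤ 2 ^ m := by
    have hW0 : finrank (ZMod 2) W ≠ 0 := by
      intro h0
      rw [Submodule.finrank_eq_zero] at h0
      exact hh.ne_one (eq_one_of_fix_top fun x => sub_eq_zero.1 (by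
        have := sub_mem_rng h x
        rwa [← hW, h0, Submodule.mem_bot] at this))
    have := (dims _ haM).1
    exact Nat.le_self_pow (by omega) 2
  have cover : ∀ u ∈ W, u ≠ 0 → ∃ f ∈ M, u ∈ rng f := by
    intro u hu hu0
    obtain ⟨f, hf, hfu⟩ := fexists u fun e =>
      hu0 (Submodule.disjoint_def.1 hcompl.disjoint u e hu)
    exact ⟨f, hf, by rw [(dims f hf).2]; exact ⟨mem_fix.2 hfu, hu⟩⟩
  have notT : ∀ f ∈ M, ∀ u ∈ rng f, u ≠ 0 → u ∉ T := fun f hf u hu hu0 e =>
    hu0 (Submodule.disjoint_def.1 hcompl.disjoint u e (rngW f hf hu))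
  have runiq : ∀ f ∈ M, ∀ g ∈ M, ∀ u ≠ 0, u ∈ rng f → u ∈ rng g → f = g :=
    fun f hf g hg u hu hf' hg' => eq_of_fix u (notT f hf u hf' hu) f hf g hg
      (mem_fix.1 (rngfix f hf hf')) (mem_fix.1 (rngfix g hg hg'))
  have cardM : Nat.card M = 2 ^ m + 1 := by
    let e : (Σ f : M, {v : rng f.1 // v.1 ≠ 0}) → {u : W // u.1 ≠ 0} :=
      fun x => ⟨⟨x.2.1.1, rngW x.1.1 x.1.2 x.2.1.2⟩, x.2.2⟩
    have he : Function.Bijective e := by
      constructor
      · rintro ⟨⟨f, hf⟩, ⟨v, hv⟩, hv0⟩ ⟨⟨g, hg⟩, ⟨v', hv'⟩, hv0'⟩ hfg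
        have h' : v = v' := congrArg (fun x => x.1.1) hfg
        subst h'
        obtain rfl := runiq f hf g hg v hv0 hv hv'
        rfl
      · rintro ⟨⟨u, hu⟩, hu0⟩
        obtain ⟨f, hf, huf⟩ := cover u hu hu0
        exact ⟨⟨⟨f, hf⟩, ⟨⟨u, huf⟩, hu0⟩⟩, rfl⟩
    haveI : Fintype M := Fintype.ofFinite _
    have hne : ∀ S : Submodule (ZMod 2) V, Nat.card {v : S // v.1 ≠ 0} = Nat.card S - 1 := by
      intro S
      have h1 : Nat.card {v : S // v.1 ≠ 0} = Nat.card ({0}ᶜ : Set S) :=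
        Nat.card_congr (Equiv.subtypeEquivRight fun v => by simp)
      rw [h1, Nat.card_coe_set_eq, Set.ncard_compl, Set.ncard_singleton]
    have hc := Nat.card_congr (Equiv.ofBijective e he)
    have hsum : ∀ f : M, Nat.card {v : rng f.1 // v.1 ≠ 0} = 2 ^ m - 1 := by
      intro f
      rw [hne, Module.natCard_eq_pow_finrank (K := ZMod 2), Nat.card_zmod, dimM f.1 f.2]
    rw [Nat.card_sigma, Finset.sum_congr rfl (fun f _ => hsum f), hne, cardW, Finset.sum_const,
      Finset.card_univ, ← Nat.card_eq_fintype_card, smul_eq_mul] at hc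
    rw [show (2 ^ m) ^ 2 - 1 = (2 ^ m + 1) * (2 ^ m - 1) by
      simpa using Nat.sq_sub_sq (2 ^ m) 1] at hc
    exact Nat.eq_of_mul_eq_mul_right (by omega) hc
  refine ⟨m, M,
    { compl := hcompl
      two_le := hq2
      card_P := cardW
      card_M := cardM
      mem := fun f hf => ⟨hf.1.1, hf.2.1, hf.2.2, hf.1.2, rngW f hf⟩
      cover := cover
      root_unique := runiq
      card_rng := fun f hf => by
        rw [Module.natCard_eq_pow_finrank (K := ZMod 2), Nat.card_zmod, dimM f hf]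
      bisect := ?_
      fix_unique := fun c hc f hf g hg => eq_of_fix c hc f hf g hg
      fix_exists := fexists
      inj := ?_
      triple := ?_
      prod_not_mem := fun f hf g hg hfg => notO _ hfg (prodO f hf g hg)
      gen := ?_ }, fun f fH ff f1 fT => ⟨⟨fH, fT⟩, ff, f1⟩,
    fun f hf => ⟨dimM f hf, rngfix f hf⟩⟩
  · intro f hf k hk x hu hne
    obtain ⟨b, bH, b1, b2, b3, b4⟩ := B.swap hk x
    obtain ⟨z, hz⟩ := mem_rng.1 hu
    obtain ⟨-, -, b5⟩ := b4 f hf.1.1 z hz
    have hb1 : b ≠ 1 := fun e => hne (by rw [← b1, e]; rfl)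
    have hbK : b ∈ K := ⟨bH, hf.1.2.trans b5⟩
    have huT := notT f hf _ hu (sub_ne_zero.2 hne)
    have hfu := rngfix f hf hu
    have hbu := b5 hfu
    have hbM : b ∈ M := ⟨hbK, stab2 b hbK _ huT (mem_fix.1 hbu), hb1⟩
    rw [← eq_of_fix _ huT b hbM f hf (mem_fix.1 hbu) (mem_fix.1 hfu), b1]
  · intro f hf g hg v hv e
    by_contra hne
    have hfg := prodO f hf g hg
    have hne' : (⟨f, hf.1⟩ * ⟨g, hg.1⟩ : K) ≠ 1 := by
      intro e'
      have e'' : f * g = 1 := congrArg Subtype.val e'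
      exact hne (by
        calc f = f * (g * g) := by rw [hg.2.1, mul_one]
          _ = g := by rw [← mul_assoc, e'', one_mul])
    obtain ⟨h1, h2⟩ := hKodd _ hfg hne'
    exact hv ((oddfix _ (K.mul_mem hf.1 hg.1) h1 h2).le (mem_fix.2 (by
      change f (g v) = v
      rw [← e, apply_apply_of_mul_self hf.2.1])))
  · intro f hf g hg j hj
    obtain ⟨l, hl, e⟩ := Mform j hj
    have := kaM _ (mul_mem (prodO f hf g hg) hl)
    rwa [mul_assoc (⟨f, hf.1⟩ * ⟨g, hg.1⟩ : K) l a, ← e] at this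
  · intro j jH jT f hf
    obtain ⟨k, hk, r, hr, e⟩ := decomp ⟨j, jH, jT⟩
    obtain ⟨l, hl, e'⟩ := Mform f hf
    rcases Rtwo r hr with rfl | rfl
    · right
      rw [mul_one] at e
      have := kaM _ (mul_mem hk hl)
      rwa [mul_assoc, ← e', ← e] at this
    · left
      have := kaM k hk
      rwa [← e] at this

end Cfsg.Agent.BinAff
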