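import Cfsg.Agent.BinAff.Plane

/-!
# A plane which is the whole space: the semilinear norm-one group
-/

set_option autoImplicit false
set_option linter.style.haveILetI false

namespace Cfsg.Agent.BinAff

variable {p : ℕ} [Fact p.Prime] {V : Type} [AddCommGroup V] [Module (ZMod p) V]
  {H : Subgroup (V ≃ₗ[ZMod p] V)} {M : Set (V ≃ₗ[ZMod p] V)} {q : ℕ}

theorem exists_field_of_plane [Finite V] {P : Submodule (ZMod p) V}
    (hP : IsPlane H ⊥ P M q) :
    ∃ (F E : Type) (_ : Field F) (_ : Fintype F) (_ : Field E) (_ : Fintype E) (_ : Algebra F E)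
      (e : V ≃+ E), Module.finrank F E = 2 ∧ ∀ f : V → V, (∃ h ∈ H, ∀ v, h v = f v) ↔
        ∃ (a : E) (φ : E ≃ₐ[F] E), Algebra.norm F a = 1 ∧ ∀ v, e (f v) = a * φ (e v) := by
  classical
  haveI : Finite (V ≃ₗ[ZMod p] V) :=
    Finite.of_injective (fun g : V ≃ₗ[ZMod p] V => (g : V → V)) DFunLike.coe_injective
  have hPtop : P = ⊤ := by simpa using hP.compl.sup_eq_top
  obtain ⟨v₀, hv₀⟩ : ∃ v₀ : V, v₀ ≠ 0 := by
    by_contra hc
    push Not at hc
    obtain ⟨f, hf⟩ := hP.nonempty
    exact (hP.mem f hf).2.2.1 (eq_one_of_fix_top fun v => by rw [hc v, map_zero])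
  obtain ⟨g₀, hg₀, hgv₀⟩ := hP.fix_exists v₀ (fun h => hv₀ (by simpa using h))
  obtain ⟨g₀H, gg₀, g₀1, -, -⟩ := hP.mem g₀ hg₀
  have hbot : ∀ h : V ≃ₗ[ZMod p] V, (⊥ : Submodule (ZMod p) V) ≤ fix h := fun _ => bot_le
  -- the rotation group
  have minv : ∀ a ∈ M, a⁻¹ = a := fun a ha => inv_eq_of_mul_eq_one_left (hP.mem a ha).2.1
  have rev : ∀ a ∈ M, ∀ b ∈ M, ∀ c ∈ M, a * b * c = c * b * a := by
    intro a ha b hb c hc
    have := minv _ (hP.triple a ha b hb c hc)
    rw [mul_inv_rev, mul_inv_rev, minv a ha, minv b hb, minv c hc] at this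
    rw [← this, mul_assoc]
  let C : Subgroup (V ≃ₗ[ZMod p] V) :=
    { carrier := {x | x * g₀ ∈ M}
      one_mem' := by simpa using hg₀
      mul_mem' := fun {x y} hx hy => by
        have := hP.triple _ hx g₀ hg₀ _ hy
        rwa [show x * g₀ * g₀ * (y * g₀) = x * (g₀ * g₀) * y * g₀ by group, gg₀, mul_one] at this
      inv_mem' := fun {x} hx => by
        have h := hP.triple g₀ hg₀ _ hx g₀ hg₀
        rw [show g₀ * (x * g₀) * g₀ = g₀ * x * (g₀ * g₀) by group, gg₀, mul_one] at h
        have e := minv _ h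
        rw [mul_inv_rev, minv g₀ hg₀] at e
        change x⁻¹ * g₀ ∈ M
        rwa [e] }
  have hC : ∀ x, x ∈ C ↔ x * g₀ ∈ M := fun _ => Iff.rfl
  have hCH : ∀ x ∈ C, x ∈ H := fun x hx => by
    have := H.mul_mem (hP.mem _ hx).1 g₀H
    rwa [mul_assoc, gg₀, mul_one] at this
  have hcomm : ∀ x ∈ C, ∀ y ∈ C, x * y = y * x := by
    intro x hx y hy
    have := rev _ hx g₀ hg₀ _ hy
    rw [show x * g₀ * g₀ * (y * g₀) = x * (g₀ * g₀) * y * g₀ by group,
      show y * g₀ * g₀ * (x * g₀) = y * (g₀ * g₀) * x * g₀ by group, gg₀, mul_one, mul_one,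
      mul_left_inj] at this
    exact this
  have hinv : ∀ x ∈ C, g₀ * x * g₀ = x⁻¹ := by
    intro x hx
    have e := (hP.mem _ hx).2.1
    have : x * (g₀ * x * g₀) = 1 := by
      rw [← e]; group
    exact (inv_eq_of_mul_eq_one_right this).symm
  have hsemi : ∀ x ∈ C, ∀ v : V, v ≠ 0 → x v = v → x = 1 := by
    intro x hx v hv hxv
    have e : (x * g₀) (g₀ v) = v := by
      rw [LinearEquiv.mul_apply, apply_apply_of_mul_self gg₀, hxv]
    have e2 : g₀ v = (x * g₀) v := by
      conv_rhs => rw [← e]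
      exact (apply_apply_of_mul_self (hP.mem _ hx).2.1 _).symm
    have := hP.inj g₀ hg₀ _ hx v (fun h => hv (by simpa using h)) e2
    exact mul_right_cancel (this.symm.trans (one_mul g₀).symm)
  have cardC : Nat.card C = q + 1 := by
    rw [← hP.card_M]
    exact Nat.card_congr
      { toFun := fun x => ⟨x.1 * g₀, x.2⟩
        invFun := fun a => ⟨a.1 * g₀, by rw [hC, mul_assoc, gg₀, mul_one]; exact a.2⟩
        left_inv := fun x => Subtype.ext (by change x.1 * g₀ * g₀ = x.1; rw [mul_assoc, gg₀, mul_one])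
        right_inv := fun a => Subtype.ext (by change a.1 * g₀ * g₀ = a.1; rw [mul_assoc, gg₀, mul_one]) }
  have hdec : ∀ h ∈ H, h ∈ C ∨ h * g₀ ∈ C := by
    intro h hh
    rcases hP.gen h hh (hbot h) g₀ hg₀ with h1 | h1
    · exact Or.inr (by rw [hC, mul_assoc, gg₀, mul_one]; exact h1)
    · exact Or.inl h1
  have cardV : Nat.card V = q ^ 2 := by
    rw [← hP.card_P, hPtop]
    exact Nat.card_congr
      { toFun := fun v => ⟨v, trivial⟩, invFun := fun v => v.1, left_inv := fun _ => rfl,
        right_inv := fun _ => rfl }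
  obtain ⟨m, hqm, hm0⟩ : ∃ m, q = p ^ m ∧ m ≠ 0 := by
    have e : Nat.card V = p ^ Module.finrank (ZMod p) V := by
      rw [Module.natCard_eq_pow_finrank (K := ZMod p), Nat.card_zmod]
    obtain ⟨m, -, hm⟩ := (Nat.dvd_prime_pow (Fact.out : p.Prime)).1
      (show q ∣ p ^ Module.finrank (ZMod p) V by rw [← e, cardV]; exact dvd_pow_self q two_ne_zero)
    exact ⟨m, hm, fun h => by have := hP.two_le; rw [hm, h] at this; simp at this⟩
  -- invariant subspaces of the rotation group
  have irred : ∀ U : Submodule (ZMod p) V, (∀ x ∈ C, ∀ v ∈ U, x v ∈ U) → U = ⊥ ∨ U = ⊤ := by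
    intro U hU
    refine or_iff_not_imp_left.2 fun hne => ?_
    let act : MulAction C {u : U // u.1 ≠ 0} :=
      { smul := fun x u => ⟨⟨x.1 u.1.1, hU x.1 x.2 _ u.1.2⟩, fun e => u.2 (x.1.map_eq_zero_iff.1 e)⟩
        one_smul := fun u => rfl
        mul_smul := fun x y u => rfl }
    have hstab : ∀ u : {u : U // u.1 ≠ 0}, MulAction.stabilizer C u = ⊥ := fun u => by
      rw [Subgroup.eq_bot_iff_forall]
      intro x hx
      exact Subtype.ext (hsemi x.1 x.2 _ u.2 (congrArg (fun w : {u : U // u.1 ≠ 0} => w.1.1) hx))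
    have hdvd : q + 1 ∣ Nat.card {u : U // u.1 ≠ 0} := by
      haveI := Fintype.ofFinite (Quotient (MulAction.orbitRel C {u : U // u.1 ≠ 0}))
      rw [Nat.card_congr (MulAction.selfEquivSigmaOrbitsQuotientStabilizer C {u : U // u.1 ≠ 0}),
        Nat.card_sigma]
      refine Finset.dvd_sum fun o _ => ?_
      rw [hstab, ← cardC]
      exact dvd_of_eq (by rw [← Subgroup.index_bot, Subgroup.index_eq_card])
    have h1 : Nat.card {u : U // u.1 ≠ 0} = Nat.card U - 1 := by
      have h1 : Nat.card {u : U // u.1 ≠ 0} = Nat.card ({0}ᶜ : Set U) :=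
        Nat.card_congr (Equiv.subtypeEquivRight fun v => by simp)
      rw [h1, Nat.card_coe_set_eq, Set.ncard_compl, Set.ncard_singleton]
    rw [h1, Module.natCard_eq_pow_finrank (K := ZMod p) (V := U), Nat.card_zmod] at hdvd
    set i := Module.finrank (ZMod p) U
    have hp2 := (Fact.out : p.Prime).two_le
    have hi0 : i ≠ 0 := fun e => hne (Submodule.finrank_eq_zero.1 e)
    have hV : Module.finrank (ZMod p) V = m * 2 := by
      have e : Nat.card V = p ^ Module.finrank (ZMod p) V := by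
        rw [Module.natCard_eq_pow_finrank (K := ZMod p), Nat.card_zmod]
      rw [cardV, hqm, ← pow_mul] at e
      exact (Nat.pow_right_injective hp2 e).symm
    refine Submodule.eq_top_of_finrank_eq ?_
    have hle := Submodule.finrank_le U
    by_contra hlt
    have hpi : p ≤ p ^ i := Nat.le_self_pow hi0 p
    by_cases him : i ≤ m
    · have h2 := Nat.le_of_dvd (by omega) hdvd
      have : p ^ i ≤ p ^ m := Nat.pow_le_pow_right (by omega) him
      omega
    · obtain ⟨j, hj⟩ : ∃ j, i = m + j := ⟨i - m, by omega⟩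
      have hjm : j < m := by omega
      have hlt' : p ^ j < p ^ m := Nat.pow_lt_pow_right hp2 hjm
      have hji : 1 ≤ p ^ j := Nat.one_le_pow _ _ (by omega)
      rw [hj, pow_add, ← hqm] at hdvd
      have e : q * p ^ j - 1 + (p ^ j + 1) = (q + 1) * p ^ j := by
        have : 1 ≤ q * p ^ j := Nat.mul_pos (by have := hP.two_le; omega) hji
        rw [add_one_mul]
        omega
      have h3 : q + 1 ∣ p ^ j + 1 :=
        (Nat.dvd_add_right hdvd).1 (e ▸ dvd_mul_right (q + 1) (p ^ j))
      have := Nat.le_of_dvd (by omega) h3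
      omega
  -- the field
  let S : Set (Module.End (ZMod p) V) := (fun x : V ≃ₗ[ZMod p] V => x.toLinearMap) '' (C : Set _)
  let A : Subalgebra (ZMod p) (Module.End (ZMod p) V) := Algebra.adjoin (ZMod p) S
  have hS : ∀ a ∈ S, ∀ b ∈ S, a * b = b * a := by
    rintro _ ⟨x, hx, rfl⟩ _ ⟨y, hy, rfl⟩
    refine LinearMap.ext fun v => ?_
    exact congrArg (fun t : V ≃ₗ[ZMod p] V => t v) (hcomm x hx y hy)
  letI : CommRing A := Algebra.adjoinCommRingOfComm (ZMod p) hS
  let ev : A →ₗ[ZMod p] V :=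
    { toFun := fun a => a.1 v₀, map_add' := fun a b => rfl, map_smul' := fun c a => rfl }
  have hCA : ∀ x ∈ C, x.toLinearMap ∈ A := fun x hx => Algebra.subset_adjoin ⟨x, hx, rfl⟩
  have evsurj : Function.Surjective ev := by
    rw [← LinearMap.range_eq_top]
    refine (irred _ ?_).resolve_left fun h => hv₀ ?_
    · rintro x hx _ ⟨a, rfl⟩
      exact ⟨⟨x.toLinearMap, hCA x hx⟩ * a, rfl⟩
    · have : ev 1 ∈ LinearMap.range ev := ⟨1, rfl⟩
      rw [h, Submodule.mem_bot] at this
      exact this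
  have evinj : Function.Injective ev := by
    rw [← LinearMap.ker_eq_bot, LinearMap.ker_eq_bot']
    intro a ha
    refine Subtype.ext (LinearMap.ext fun v => ?_)
    obtain ⟨b, rfl⟩ := evsurj v
    have : (a * b : A) = b * a := mul_comm a b
    have e : a.1 (b.1 v₀) = b.1 (a.1 v₀) := congrArg (fun t : A => t.1 v₀) this
    change a.1 (b.1 v₀) = 0
    rw [e, show a.1 v₀ = 0 from ha, map_zero]
  haveI : Finite A := Finite.of_injective ev evinj
  haveI : Nontrivial A := by
    obtain ⟨a, ha⟩ := evsurj v₀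
    exact ⟨a, 0, fun e => hv₀ (by rw [← ha, e, map_zero])⟩
  haveI : IsDomain A := by
    haveI : NoZeroDivisors A := ⟨fun {a b} hab => by
      by_contra hne
      push Not at hne
      rcases irred (LinearMap.ker a.1) (fun x hx v hv => by
        rw [LinearMap.mem_ker] at hv ⊢
        have : (a * ⟨x.toLinearMap, hCA x hx⟩ : A) = ⟨x.toLinearMap, hCA x hx⟩ * a := mul_comm _ _
        have e := congrArg (fun t : A => t.1 v) this
        change a.1 (x v) = x (a.1 v) at e
        rw [e, hv, map_zero]) with h | h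
      · refine hne.2 (evinj (?_ : ev b = ev 0))
        rw [map_zero]
        have : a.1 (b.1 v₀) = 0 := congrArg (fun t : A => t.1 v₀) hab
        exact LinearMap.ker_eq_bot'.1 h _ this
      · exact hne.1 (Subtype.ext (LinearMap.ker_eq_top.1 h))⟩
    exact NoZeroDivisors.to_isDomain A
  letI : Fintype A := Fintype.ofFinite A
  letI : Field A := Fintype.fieldOfDomain A
  -- the field automorphism
  let g₀l : Module.End (ZMod p) V := g₀.toLinearMap
  have hgl : g₀l * g₀l = 1 := LinearMap.ext fun v => apply_apply_of_mul_self gg₀ v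
  let conjg : Module.End (ZMod p) V →ₐ[ZMod p] Module.End (ZMod p) V :=
    { toFun := fun a => g₀l * a * g₀l
      map_one' := by rw [mul_one, hgl]
      map_mul' := fun a b => by
        rw [show g₀l * a * g₀l * (g₀l * b * g₀l) = g₀l * a * (g₀l * g₀l) * b * g₀l by
          simp only [mul_assoc], hgl, mul_one]
        simp only [mul_assoc]
      map_zero' := by rw [mul_zero, zero_mul]
      map_add' := fun a b => by rw [mul_add, add_mul]
      commutes' := fun r => by
        rw [← Algebra.commutes, mul_assoc, hgl, mul_one] }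
  have hAc : ∀ a ∈ A, conjg a ∈ A := by
    intro a ha
    have : A.map conjg ≤ A := by
      rw [AlgHom.map_adjoin]
      refine Algebra.adjoin_le ?_
      rintro _ ⟨_, ⟨x, hx, rfl⟩, rfl⟩
      have e : conjg x.toLinearMap = (x⁻¹ : V ≃ₗ[ZMod p] V).toLinearMap := by
        rw [← hinv x hx]; rfl
      rw [e]
      exact hCA _ (C.inv_mem hx)
    exact this ⟨a, ha, rfl⟩
  have hττ : ∀ a, conjg (conjg a) = a := fun a => by
    change g₀l * (g₀l * a * g₀l) * g₀l = a
    rw [show g₀l * (g₀l * a * g₀l) * g₀l = g₀l * g₀l * a * (g₀l * g₀l) by simp only [mul_assoc],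
      hgl, one_mul, mul_one]
  let τ : A ≃+* A :=
    { toFun := fun a => ⟨conjg a.1, hAc a.1 a.2⟩
      invFun := fun a => ⟨conjg a.1, hAc a.1 a.2⟩
      left_inv := fun a => Subtype.ext (hττ a.1)
      right_inv := fun a => Subtype.ext (hττ a.1)
      map_mul' := fun a b => Subtype.ext (map_mul conjg a.1 b.1)
      map_add' := fun a b => Subtype.ext (map_add conjg a.1 b.1) }
  let cA : C → A := fun x => ⟨x.1.toLinearMap, hCA x.1 x.2⟩
  have cAinj : Function.Injective cA := fun x y e =>
    Subtype.ext (LinearEquiv.toLinearMap_injective (congrArg Subtype.val e))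
  have cA1 : cA 1 = 1 := rfl
  have cAmul : ∀ x y, cA (x * y) = cA x * cA y := fun x y => rfl
  have hτC : ∀ x : C, τ (cA x) = cA x⁻¹ := fun x => Subtype.ext (by
    change conjg x.1.toLinearMap = (x.1⁻¹ : V ≃ₗ[ZMod p] V).toLinearMap
    rw [← hinv x.1 x.2]; rfl)
  have hτne : τ ≠ 1 := by
    intro h
    have hsq : ∀ x : C, x = 1 ∨ cA x = -1 := by
      intro x
      have e : cA x = cA x⁻¹ := by rw [← hτC, h]; rfl
      have e2 : cA x * cA x = 1 := by
        nth_rewrite 2 [e]
        rw [← cAmul, mul_inv_cancel, cA1]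
      rcases mul_self_eq_one_iff.1 e2 with h1 | h1
      · exact Or.inl (cAinj (h1.trans cA1.symm))
      · exact Or.inr h1
    haveI : Fintype C := Fintype.ofFinite _
    have hle : Fintype.card C ≤ 2 := by
      let f : C → Bool := fun x => decide (x = 1)
      have : Function.Injective f := by
        intro x y e
        simp only [f, decide_eq_decide] at e
        by_cases hx : x = 1
        · rw [hx, e.1 hx]
        · exact cAinj (((hsq x).resolve_left hx).trans
            ((hsq y).resolve_left (fun hy => hx (e.2 hy))).symm)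
      exact (Fintype.card_le_of_injective f this).trans_eq Fintype.card_bool
    rw [← Nat.card_eq_fintype_card, cardC] at hle
    have := hP.two_le
    omega
  have hτ2 : orderOf τ = 2 := by
    refine orderOf_eq_prime ?_ hτne
    refine RingEquiv.ext fun a => ?_
    rw [pow_two]
    exact (Subtype.ext (hττ a.1) : τ (τ a) = a)
  let G' : Subgroup (A ≃+* A) := Subgroup.zpowers τ
  haveI : Finite (A ≃+* A) :=
    Finite.of_injective (fun g : A ≃+* A => (g : A → A)) DFunLike.coe_injective
  haveI : Fintype G' := Fintype.ofFinite _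
  have hG'card : Fintype.card G' = 2 := by
    rw [← Nat.card_eq_fintype_card, Nat.card_zpowers, hτ2]
  let F := FixedPoints.subfield G' A
  letI : Fintype F := Fintype.ofFinite F
  have hfin : Module.finrank F A = 2 := by rw [FixedPoints.finrank_eq_card, hG'card]
  have hG'mem : ∀ σ : G', σ = 1 ∨ σ.1 = τ := by
    intro σ
    obtain ⟨n, hn⟩ := Subgroup.mem_zpowers_iff.1 σ.2
    rcases Int.even_or_odd n with ⟨j, hj⟩ | ⟨j, hj⟩
    · left
      apply Subtype.ext
      rw [← hn, hj, ← two_mul, zpow_mul, zpow_two]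
      rw [show τ * τ = 1 by rw [← pow_two, ← hτ2]; exact pow_orderOf_eq_one τ, one_zpow]
      rfl
    · right
      rw [← hn, hj, zpow_add_one, zpow_mul, zpow_two,
        show τ * τ = 1 by rw [← pow_two, ← hτ2]; exact pow_orderOf_eq_one τ, one_zpow, one_mul]
  have cardA : Nat.card A = q ^ 2 := by
    rw [Nat.card_congr (Equiv.ofBijective ev ⟨evinj, evsurj⟩), cardV]
  have cardF : Nat.card F = q := by
    have h := Module.natCard_eq_pow_finrank (K := F) (V := A)
    rw [hfin, cardA] at h
    exact (Nat.pow_left_injective two_ne_zero h).symm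
  let e : V ≃+ A :=
    (LinearEquiv.ofBijective ev ⟨evinj, evsurj⟩).symm.toAddEquiv
  have he : ∀ a : A, e (a.1 v₀) = a := fun a =>
    (LinearEquiv.ofBijective ev ⟨evinj, evsurj⟩).symm_apply_apply a
  have hev : ∀ v, (e v).1 v₀ = v := fun v =>
    (LinearEquiv.ofBijective ev ⟨evinj, evsurj⟩).apply_symm_apply v
  have hx : ∀ (x : C) v, e (x.1 v) = cA x * e v := by
    intro x v
    conv_lhs => rw [← hev v]
    exact he (cA x * e v)
  have hg : ∀ v, e (g₀ v) = τ (e v) := by
    intro v
    conv_lhs => rw [← hev v]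
    have h1 : g₀ ((e v).1 v₀) = (τ (e v)).1 v₀ := by
      change g₀ ((e v).1 v₀) = g₀ ((e v).1 (g₀ v₀))
      rw [hgv₀]
    rw [h1]
    exact he _
  have hnorm : ∀ a : A, algebraMap F A (Algebra.norm F a) = a ^ (q + 1) := by
    intro a
    rw [FiniteField.algebraMap_norm_eq_pow, cardA, cardF]
    congr 1
    have h2 := hP.two_le
    refine Nat.div_eq_of_eq_mul_left (by omega) ?_
    simpa using Nat.sq_sub_sq q 1
  have hnorm1 : ∀ a : A, Algebra.norm F a = 1 ↔ ∃ x : C, cA x = a := by
    have hC1 : ∀ x : C, cA x ^ (q + 1) = 1 := by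
      intro x
      have hp : ∀ n : ℕ, cA (x ^ n) = cA x ^ n := by
        intro n
        induction n with
        | zero => rw [pow_zero, pow_zero]; exact cA1
        | succ n ih => rw [pow_succ, pow_succ, cAmul, ih]
      rw [← hp, ← cardC, pow_card_eq_one', cA1]
    intro a
    constructor
    · intro ha
      have haq : a ^ (q + 1) = 1 := by rw [← hnorm, ha, map_one]
      haveI : Fintype C := Fintype.ofFinite _
      let S : Finset A := (Polynomial.nthRoots (q + 1) (1 : A)).toFinset
      have hsub : Finset.univ.image cA ⊆ S := by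
        intro b hb
        obtain ⟨x, -, rfl⟩ := Finset.mem_image.1 hb
        rw [Multiset.mem_toFinset, Polynomial.mem_nthRoots (Nat.succ_pos q)]
        exact hC1 x
      have hcard : S.card ≤ (Finset.univ.image cA).card := by
        rw [Finset.card_image_of_injective _ cAinj, Finset.card_univ, ← Nat.card_eq_fintype_card,
          cardC]
        exact (Multiset.toFinset_card_le _).trans (Polynomial.card_nthRoots _ _)
      have : a ∈ Finset.univ.image cA := by
        rw [Finset.eq_of_subset_of_card_le hsub hcard, Multiset.mem_toFinset,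
          Polynomial.mem_nthRoots (Nat.succ_pos q)]
        exact haq
      obtain ⟨x, -, hx⟩ := Finset.mem_image.1 this
      exact ⟨x, hx⟩
    · rintro ⟨x, rfl⟩
      apply (algebraMap F A).injective
      rw [hnorm, hC1, map_one]
  refine ⟨F, A, inferInstance, inferInstance, inferInstance, inferInstance, inferInstance, e,
    hfin, fun f => ⟨?_, ?_⟩⟩
  · rintro ⟨h, hh, hf⟩
    let τ' : A ≃ₐ[F] A := AlgEquiv.ofRingEquiv (f := τ) fun x =>
      x.2 ⟨τ, Subgroup.mem_zpowers τ⟩
    rcases hdec h hh with h1 | h1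
    · exact ⟨cA ⟨h, h1⟩, AlgEquiv.refl, (hnorm1 _).2 ⟨_, rfl⟩, fun v => by
        rw [← hf v]; exact hx ⟨h, h1⟩ v⟩
    · refine ⟨cA ⟨h * g₀, h1⟩, τ', (hnorm1 _).2 ⟨_, rfl⟩, fun v => ?_⟩
      rw [← hf v, show h v = (h * g₀) (g₀ v) by
        rw [LinearEquiv.mul_apply, apply_apply_of_mul_self gg₀], hx ⟨_, h1⟩, hg]
      rfl
  · rintro ⟨a, φ, ha, hf⟩
    obtain ⟨x, rfl⟩ := (hnorm1 a).1 ha
    obtain ⟨σ, hσ⟩ := (FixedPoints.toAlgAut_bijective G' A).surjective φ
    have hφ : ∀ b, φ b = σ.1 b := fun b => by rw [← hσ]; rfl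
    rcases hG'mem σ with h1 | h1
    · refine ⟨x.1, hCH _ x.2, fun v => e.injective ?_⟩
      rw [hf, hφ, hx, h1]
      rfl
    · refine ⟨x.1 * g₀, H.mul_mem (hCH _ x.2) g₀H, fun v => e.injective ?_⟩
      rw [hf, hφ, h1, LinearEquiv.mul_apply, hx, hg]

end Cfsg.Agent.BinAff
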