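import Cfsg.Agent.BinAff.OddKill
import Cfsg.Agent.BinAff.EvenKill
import Cfsg.Agent.BinAff.Field

/-!
# Classification of the irreducible linear groups with the bisector property
-/

set_option autoImplicit false
set_option linter.style.haveILetI false

namespace Cfsg.Agent.BinAff

variable {p : ℕ} [Fact p.Prime] {V : Type} [AddCommGroup V] [Module (ZMod p) V]
  {H : Subgroup (V ≃ₗ[ZMod p] V)}

theorem of_sq_eq_one [Finite V] [Nontrivial V]
    (hirr : ∀ U : Submodule (ZMod p) V, (∀ h ∈ H, ∀ v ∈ U, h v ∈ U) → U = ⊥ ∨ U = ⊤)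
    (hsq : ∀ h ∈ H, h * h = 1) : (Nat.card V).Prime ∧ Nat.card H ≤ 2 := by
  classical
  haveI : Finite (V ≃ₗ[ZMod p] V) :=
    Finite.of_injective (fun g : V ≃ₗ[ZMod p] V => (g : V → V)) DFunLike.coe_injective
  have key : ∀ h ∈ H, h = 1 ∨ ∀ v, h v = -v := by
    intro h hh
    rcases hirr (fix h) (fun k hk v hv => by
      rw [mem_fix] at hv ⊢
      rw [← LinearEquiv.mul_apply, commute_of_mul_self (hsq h hh) (hsq k hk)
        (hsq _ (H.mul_mem hh hk)), LinearEquiv.mul_apply, hv]) with hb | hb
    · right
      intro v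
      have : v + h v ∈ fix h := by
        rw [mem_fix, map_add, apply_apply_of_mul_self (hsq h hh), add_comm]
      rw [hb, Submodule.mem_bot] at this
      exact eq_neg_of_add_eq_zero_right this
    · exact Or.inl (eq_one_of_fix_top fun v => mem_fix.1 (hb ▸ Submodule.mem_top))
  have hscal : ∀ h ∈ H, ∀ (U : Submodule (ZMod p) V), ∀ v ∈ U, h v ∈ U := by
    intro h hh U v hv
    rcases key h hh with rfl | h1
    · exact hv
    · rw [h1]; exact neg_mem hv
  constructor
  · obtain ⟨v, hv⟩ := exists_ne (0 : V)
    rcases hirr (Submodule.span (ZMod p) {v}) (fun h hh => hscal h hh _) with hb | hb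
    · exact absurd (Submodule.span_singleton_eq_bot.1 hb) hv
    · have h1 := finrank_span_singleton (K := ZMod p) hv
      rw [hb, finrank_top] at h1
      rw [Module.natCard_eq_pow_finrank (K := ZMod p), h1, Nat.card_zmod, pow_one]
      exact Fact.out
  · haveI : Fintype H := Fintype.ofFinite _
    rw [Nat.card_eq_fintype_card]
    let f : H → Bool := fun h => decide (h = 1)
    have : Function.Injective f := by
      intro a b e
      simp only [f, decide_eq_decide] at e
      by_cases ha : a = 1
      · rw [ha, e.1 ha]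
      · have hb : b ≠ 1 := fun hb => ha (e.2 hb)
        have h1 := (key a.1 a.2).resolve_left (fun h => ha (Subtype.ext h))
        have h2 := (key b.1 b.2).resolve_left (fun h => hb (Subtype.ext h))
        exact Subtype.ext (LinearEquiv.ext fun v => (h1 v).trans (h2 v).symm)
    exact (Fintype.card_le_of_injective f this).trans_eq Fintype.card_bool

/-- The irreducible linear groups with the bisector property: at most two scalars in dimension
one, or the semilinear norm-one group of a quadratic extension. -/
theorem classification [Finite V] [Nontrivial V] (B : Bisect H)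
    (hirr : ∀ U : Submodule (ZMod p) V, (∀ h ∈ H, ∀ v ∈ U, h v ∈ U) → U = ⊥ ∨ U = ⊤) :
    ((Nat.card V).Prime ∧ Nat.card H ≤ 2) ∨
    ∃ (F E : Type) (_ : Field F) (_ : Fintype F) (_ : Field E) (_ : Fintype E) (_ : Algebra F E)
      (e : V ≃+ E), Module.finrank F E = 2 ∧ ∀ f : V → V, (∃ h ∈ H, ∀ v, h v = f v) ↔
        ∃ (a : E) (φ : E ≃ₐ[F] E), Algebra.norm F a = 1 ∧ ∀ v, e (f v) = a * φ (e v) := by
  classical
  by_cases hp2 : p = 2
  · subst hp2
    by_cases hodd : ∃ h ∈ H, h ≠ 1 ∧ Odd (orderOf h)
    · right
      obtain ⟨h, hh⟩ := exists_oddMax hodd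
      obtain ⟨m, M, hP, -, -⟩ := hh.plane B
      rw [hh.fix_eq_bot B hirr] at hP
      exact exists_field_of_plane hP
    · left
      push Not at hodd
      refine of_sq_eq_one hirr fun h hh => B.mul_self_of_no_odd hh fun n hn => ?_
      by_contra hne
      exact hodd _ (H.pow_mem hh n) hne hn
  · by_cases hpair : ∃ g k, Top H g ∧ Top H k ∧ g * k ≠ k * g
    · right
      obtain ⟨g, k, hgk⟩ := exists_goodPair hpair
      have hP := (hgk.plane B hp2).1
      rw [hgk.fix_eq_bot B hp2 hirr] at hP
      exact exists_field_of_plane hP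
    · left
      push Not at hpair
      exact of_sq_eq_one hirr fun h hh => B.mul_self_of_commute hp2 (T := ⊥)
        (fun f f' hf hf' _ _ => hpair f f' hf hf') hh bot_le

end Cfsg.Agent.BinAff
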