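import Cfsg.Agent.BinAff.Basic

/-!
# Binary linear groups in odd characteristic: involutions with maximal fixed space
-/

set_option autoImplicit false
set_option linter.style.haveILetI false

namespace Cfsg.Agent.BinAff

variable {p : ℕ} [Fact p.Prime] {V : Type*} [AddCommGroup V] [Module (ZMod p) V]
  {H : Subgroup (V ≃ₗ[ZMod p] V)}

/-- A nontrivial element of `H` with maximal fixed space. -/
structure Top (H : Subgroup (V ≃ₗ[ZMod p] V)) (g : V ≃ₗ[ZMod p] V) : Prop where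
  mem : g ∈ H
  ne_one : g ≠ 1
  max : ∀ h ∈ H, h ≠ 1 → fix g ≤ fix h → fix h = fix g

theorem fix_eq_ker (g : V ≃ₗ[ZMod p] V) : fix g = LinearMap.ker (g.toLinearMap - LinearMap.id) := by
  ext x
  simp [mem_fix, sub_eq_zero]

theorem finite_aut [Finite V] : Finite (V ≃ₗ[ZMod p] V) :=
  Finite.of_injective (fun g : V ≃ₗ[ZMod p] V => (g : V → V)) DFunLike.coe_injective

theorem finrank_fix_add_rng [Finite V] (g : V ≃ₗ[ZMod p] V) :
    Module.finrank (ZMod p) (fix g) + Module.finrank (ZMod p) (rng g) =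
      Module.finrank (ZMod p) V := by
  rw [fix_eq_ker, add_comm]
  exact LinearMap.finrank_range_add_finrank_ker _

theorem eq_zero_of_add_self (hp2 : p ≠ 2) {v : V} (h : v + v = 0) : v = 0 := by
  have h2 : (2 : ZMod p) ≠ 0 := by
    intro h2
    have : ((2 : ℕ) : ZMod p) = 0 := by exact_mod_cast h2
    rw [ZMod.natCast_eq_zero_iff] at this
    have := Nat.le_of_dvd two_pos this
    have := (Fact.out : p.Prime).two_le
    omega
  have : (2 : ZMod p) • v = 0 := by rw [two_smul]; exact h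
  exact (smul_eq_zero.1 this).resolve_left h2

theorem Bisect.eq_zero_of_fix_rng (B : Bisect H) (hp2 : p ≠ 2) {h : V ≃ₗ[ZMod p] V} (hh : h ∈ H)
    {v : V} (hv : h v = v) (hr : v ∈ rng h) : v = 0 := by
  obtain ⟨x, rfl⟩ := mem_rng.1 hr
  obtain ⟨g, -, g1, g2, -, g4⟩ := B.swap hh x
  obtain ⟨a, -, -⟩ := g4 h hh (h x) (by rw [map_sub] at hv; exact hv)
  apply eq_zero_of_add_self hp2
  rw [g2] at a
  rw [map_sub, ← a] at hv
  calc (h x - x) + (h x - x) = (x - h x) + (h x - x) := by rw [hv]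
    _ = 0 := by abel

theorem Bisect.isCompl_fix_rng [Finite V] (B : Bisect H) (hp2 : p ≠ 2) {h : V ≃ₗ[ZMod p] V}
    (hh : h ∈ H) : IsCompl (fix h) (rng h) := by
  have hd : Disjoint (fix h) (rng h) := Submodule.disjoint_def.2 fun v a b =>
    B.eq_zero_of_fix_rng hp2 hh (mem_fix.1 a) b
  exact Submodule.isCompl_iff_disjoint _ _ (finrank_fix_add_rng h).ge |>.2 hd

theorem exists_top [Finite V] {h : V ≃ₗ[ZMod p] V} (hh : h ∈ H) (h1 : h ≠ 1) :
    ∃ g, Top H g ∧ fix h ≤ fix g := by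
  haveI := finite_aut (p := p) (V := V)
  obtain ⟨g, ⟨gH, g1, gh⟩, hg⟩ := Set.exists_max_image
    {g : V ≃ₗ[ZMod p] V | g ∈ H ∧ g ≠ 1 ∧ fix h ≤ fix g}
    (fun g => Module.finrank (ZMod p) (fix g)) (Set.toFinite _) ⟨h, hh, h1, le_rfl⟩
  exact ⟨g, ⟨gH, g1, fun k kH k1 hk =>
    (Submodule.eq_of_le_of_finrank_le hk (hg k ⟨kH, k1, gh.trans hk⟩)).symm⟩, gh⟩

theorem Top.conj {g b : V ≃ₗ[ZMod p] V} (hg : Top H g) (hb : b ∈ H) : Top H (b * g * b⁻¹) := by
  refine ⟨H.mul_mem (H.mul_mem hb hg.mem) (H.inv_mem hb), fun h => hg.ne_one ?_,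
    fun h hh h1 hle => ?_⟩
  · simpa using h
  · have key := hg.max (b⁻¹ * h * b) (H.mul_mem (H.mul_mem (H.inv_mem hb) hh) hb)
      (fun e => h1 (by
        calc h = b * (b⁻¹ * h * b) * b⁻¹ := by group
          _ = 1 := by rw [e]; group))
      (fun x hx => by
        rw [show b⁻¹ * h * b = b⁻¹ * h * (b⁻¹)⁻¹ by rw [inv_inv], mem_fix_conj, inv_inv]
        exact hle (by rw [mem_fix_conj, inv_apply_self]; exact hx))
    ext x
    rw [mem_fix_conj, ← key, show b⁻¹ * h * b = b⁻¹ * h * (b⁻¹)⁻¹ by rw [inv_inv], mem_fix_conj,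
      inv_inv, apply_inv_self]

theorem Top.mul_self (B : Bisect H) {g : V ≃ₗ[ZMod p] V} (hg : Top H g) : g * g = 1 := by
  refine eq_one_of_fix_top fun x => ?_
  rw [LinearEquiv.mul_apply]
  by_cases hx : g x = x
  · rw [hx, hx]
  obtain ⟨b, bH, b1, b2, b3, -⟩ := B.swap hg.mem x
  have hb1 : b ≠ 1 := fun e => hx (by rw [← b1, e]; rfl)
  have hmid : x + g x ∈ fix g := by
    rw [← hg.max b bH hb1 b3, mem_fix, map_add, b1, b2, add_comm]
  rw [mem_fix, map_add] at hmid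
  exact add_left_cancel (hmid.trans (add_comm x (g x)))

theorem apply_rng {g : V ≃ₗ[ZMod p] V} (hg : g * g = 1) {v : V} (hv : v ∈ rng g) : g v = -v := by
  obtain ⟨x, rfl⟩ := mem_rng.1 hv
  rw [map_sub, apply_apply_of_mul_self hg, neg_sub]

theorem Bisect.mem_rng_of_apply_neg [Finite V] (B : Bisect H) (hp2 : p ≠ 2)
    {g : V ≃ₗ[ZMod p] V} (hgH : g ∈ H) (hg : g * g = 1) {v : V} (hv : g v = -v) : v ∈ rng g := by
  obtain ⟨a, ha, b, hb, rfl⟩ := Submodule.mem_sup.1
    ((B.isCompl_fix_rng hp2 hgH).sup_eq_top ▸ Submodule.mem_top (x := v))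
  rw [map_add, mem_fix.1 ha, apply_rng hg hb, neg_add] at hv
  have : a + a = 0 := by
    have := congrArg (· + (a + b)) hv
    rw [show a + -b + (a + b) = a + a by abel, show -a + -b + (a + b) = 0 by abel] at this
    exact this
  rw [eq_zero_of_add_self hp2 this, zero_add]
  exact hb

theorem Top.commute_preserve {g k : V ≃ₗ[ZMod p] V} (hc : g * k = k * g) {v : V}
    (hv : v ∈ rng g) : k v ∈ rng g := by
  obtain ⟨x, rfl⟩ := mem_rng.1 hv
  exact mem_rng.2 ⟨k x, by rw [map_sub, ← LinearEquiv.mul_apply, hc]; rfl⟩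

theorem Top.eq_of_fix_eq [Finite V] (B : Bisect H) (hp2 : p ≠ 2) {g k : V ≃ₗ[ZMod p] V}
    (hg : Top H g) (hk : Top H k) (hS : fix g = fix k) : g = k := by
  have gg := hg.mul_self B
  have kk := hk.mul_self B
  by_cases h1 : g * k = 1
  · calc g = g * (k * k) := by rw [kk, mul_one]
      _ = k := by rw [← mul_assoc, h1, one_mul]
  have hle : fix g ≤ fix (g * k) := fix_le_fix_mul le_rfl hS.le
  have hS' := hg.max _ (H.mul_mem hg.mem hk.mem) h1 hle
  have htop : Top H (g * k) := ⟨H.mul_mem hg.mem hk.mem, h1, fun h hh hh1 hl =>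
    (hg.max h hh hh1 (hle.trans hl)).trans hS'.symm⟩
  have hc : g * k = k * g := commute_of_mul_self gg kk (htop.mul_self B)
  refine LinearEquiv.ext fun x => ?_
  obtain ⟨a, ha, b, hb, rfl⟩ := Submodule.mem_sup.1
    ((B.isCompl_fix_rng hp2 hg.mem).sup_eq_top ▸ Submodule.mem_top (x := x))
  rw [map_add, map_add, mem_fix.1 ha, mem_fix.1 (hS ▸ ha : a ∈ fix k), apply_rng gg hb]
  have hkb : k b ∈ rng g := Top.commute_preserve hc hb
  have hfix : b + k b ∈ fix g := by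
    rw [hS, mem_fix, map_add, apply_apply_of_mul_self kk, add_comm]
  have := B.eq_zero_of_fix_rng hp2 hg.mem (mem_fix.1 hfix) (add_mem hb hkb)
  rw [eq_neg_of_add_eq_zero_right this]

theorem Top.eq_of_rng [Finite V] (B : Bisect H) (hp2 : p ≠ 2) {g k : V ≃ₗ[ZMod p] V}
    (hg : Top H g) (hk : Top H k) {u : V} (hu : u ≠ 0) (h1 : u ∈ rng g) (h2 : u ∈ rng k) :
    g = k := by
  obtain ⟨x, rfl⟩ := mem_rng.1 h1
  obtain ⟨y, hy⟩ := mem_rng.1 h2
  obtain ⟨b, bH, b1, -, b3, b4⟩ := B.swap hg.mem x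
  obtain ⟨-, -, b5⟩ := b4 k hk.mem y hy
  have hb1 : b ≠ 1 := fun e => hu (by rw [← b1, e]; simp)
  exact hg.eq_of_fix_eq B hp2 hk ((hg.max b bH hb1 b3).symm.trans (hk.max b bH hb1 b5))

theorem Top.exists_rng_ne_zero {g : V ≃ₗ[ZMod p] V} (hg : g ≠ 1) : ∃ v ∈ rng g, v ≠ 0 := by
  by_contra hc
  push Not at hc
  exact hg (eq_one_of_fix_top fun x => sub_eq_zero.1 (hc _ (sub_mem_rng g x)))

theorem Top.rng_le_fix [Finite V] (B : Bisect H) (hp2 : p ≠ 2) {g k : V ≃ₗ[ZMod p] V}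
    (hg : Top H g) (hk : Top H k) (hne : g ≠ k) (hc : g * k = k * g) : rng k ≤ fix g := by
  intro v hv
  by_contra hv'
  have h1 : g v - v ∈ rng k := sub_mem (Top.commute_preserve hc.symm hv) hv
  exact hne (hg.eq_of_rng B hp2 hk (u := g v - v) (fun e => hv' (sub_eq_zero.1 e))
    (sub_mem_rng g v) h1)

/-- If the maximal involutions fixing `T` commute, every element fixing `T` is an involution. -/
theorem Bisect.mul_self_of_commute [Finite V] (B : Bisect H) (hp2 : p ≠ 2)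
    {T : Submodule (ZMod p) V}
    (hcomm : ∀ f f', Top H f → Top H f' → T ≤ fix f → T ≤ fix f' → f * f' = f' * f)
    {h : V ≃ₗ[ZMod p] V} (hh : h ∈ H) (hT : T ≤ fix h) : h * h = 1 := by
  haveI := finite_aut (p := p) (V := V)
  have step : ∀ g, Top H g → T ≤ fix g → ∀ b ∈ H, T ≤ fix b → b * g = g * b := by
    intro g hg hgT b₀ b₀H b₀T
    by_contra hne₀
    obtain ⟨b, ⟨bH, bT, bne⟩, hbmax⟩ := Set.exists_max_image
      {b : V ≃ₗ[ZMod p] V | b ∈ H ∧ T ≤ fix b ∧ b * g ≠ g * b}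
      (fun b => Module.finrank (ZMod p) (fix b)) (Set.toFinite _) ⟨b₀, b₀H, b₀T, hne₀⟩
    have conjT : ∀ b f : V ≃ₗ[ZMod p] V, T ≤ fix b → T ≤ fix f → T ≤ fix (b * f * b⁻¹) :=
      fun b f h1 h2 => fix_le_fix_mul (fix_le_fix_mul h1 h2) (by rw [fix_inv]; exact h1)
    have hg' : Top H (b * g * b⁻¹) := hg.conj bH
    have hg'ne : b * g * b⁻¹ ≠ g := fun e => bne (by
      calc b * g = b * g * b⁻¹ * b := by group
        _ = g * b := by rw [e])
    obtain ⟨α, hα, hα0⟩ := Top.exists_rng_ne_zero hg.ne_one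
    have gg := hg.mul_self B
    have gg' := hg'.mul_self B
    have hgfix : rng (b * g * b⁻¹) ≤ fix g := hg.rng_le_fix B hp2 hg' hg'ne.symm
      (hcomm _ _ hg hg' hgT (conjT b g bT hgT))
    have hg'fix : rng g ≤ fix (b * g * b⁻¹) := hg'.rng_le_fix B hp2 hg hg'ne
      (hcomm _ _ hg' hg (conjT b g bT hgT) hgT)
    have hy' : b α ∈ rng (b * g * b⁻¹) := by rw [mem_rng_conj, inv_apply_self]; exact hα
    have hyfix : g (b α) = b α := mem_fix.1 (hgfix hy')
    have hbα0 : b α ≠ 0 := fun e => hα0 (b.map_eq_zero_iff.1 e)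
    have hαneg : g α = -α := apply_rng gg hα
    have αadd : α + α ≠ 0 := fun e => hα0 (eq_zero_of_add_self hp2 e)
    obtain ⟨b₁, b₁H, hb₁α, hb₁y, hb₁fix, -⟩ := B.swap bH α
    have maxeq : ∀ c ∈ H, fix b ≤ fix c → c * g ≠ g * c → fix c = fix b := fun c cH hle hne =>
      (Submodule.eq_of_le_of_finrank_le hle (hbmax c ⟨cH, bT.trans hle, hne⟩)).symm
    have hb₁ne : b₁ * g ≠ g * b₁ := by
      intro e
      have e1 := congrArg (fun t : V ≃ₗ[ZMod p] V => t α) e
      simp only [LinearEquiv.mul_apply] at e1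
      rw [hαneg, map_neg, hb₁α, hyfix] at e1
      exact hbα0 (eq_zero_of_add_self hp2 (by nth_rewrite 1 [← e1]; exact neg_add_cancel _))
    have hfb₁ : fix b₁ = fix b := maxeq b₁ b₁H hb₁fix hb₁ne
    have hb₁T : T ≤ fix b₁ := bT.trans hb₁fix
    have hb₁1 : b₁ ≠ 1 := fun e => hb₁ne (by rw [e, one_mul, mul_one])
    obtain ⟨f, hf, hbf⟩ := exists_top b₁H hb₁1
    have hfT : T ≤ fix f := hb₁T.trans hbf
    have hsum : α + b α ∈ fix f := hbf (by
      rw [mem_fix, map_add, hb₁α, hb₁y, add_comm])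
    have hfg : f ≠ g := by
      rintro rfl
      rw [mem_fix, map_add, hαneg, hyfix, add_left_inj] at hsum
      exact αadd (by nth_rewrite 1 [← hsum]; exact neg_add_cancel _)
    have hfg' : f ≠ b * g * b⁻¹ := by
      rintro rfl
      rw [mem_fix, map_add, apply_rng gg' hy', mem_fix.1 (hg'fix hα), add_right_inj] at hsum
      exact hbα0 (eq_zero_of_add_self hp2 (by nth_rewrite 1 [← hsum]; exact neg_add_cancel _))
    have ff := hf.mul_self B
    have hfα : f α = α := mem_fix.1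
      (hf.rng_le_fix B hp2 hg hfg (hcomm _ _ hf hg hfT hgT) hα)
    obtain ⟨δ, hδ, hδ0⟩ := Top.exists_rng_ne_zero hf.ne_one
    have hfδ : f δ = -δ := apply_rng ff hδ
    have hgδ : g δ = δ := mem_fix.1
      (hg.rng_le_fix B hp2 hf hfg.symm (hcomm _ _ hg hf hgT hfT) hδ)
    have hf'' : Top H (b₁ * f * b₁⁻¹) := hf.conj b₁H
    have hb₁δ : g (b₁ δ) = b₁ δ := by
      refine mem_fix.1 (hg.rng_le_fix B hp2 hf'' ?_
        (hcomm _ _ hg hf'' hgT (conjT b₁ f hb₁T hfT)) (by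
          rw [mem_rng_conj, inv_apply_self]; exact hδ))
      intro e
      apply hfg'
      have hb₁inv : b₁⁻¹ α = b α := by
        conv_lhs => rw [← hb₁y]
        exact inv_apply_self _ _
      refine hf.eq_of_rng B hp2 hg' hbα0 ?_ hy'
      rw [← hb₁inv]
      have : α ∈ rng (b₁ * f * b₁⁻¹) := e ▸ hα
      exact mem_rng_conj.1 this
    -- both `b₁` and `b₁ * f` give midpoints in `fix b`
    have mid : ∀ c ∈ H, fix b ≤ fix c → c (α + δ) - b α ∈ fix g →
        (α + δ) + c (α + δ) ∈ fix f := by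
      intro c cH hcb hc
      obtain ⟨b₂, b₂H, hb₂x, hb₂cx, hb₂fix, -⟩ := B.swap cH (α + δ)
      have hb₂ne : b₂ * g ≠ g * b₂ := by
        intro e
        have e1 := congrArg (fun t : V ≃ₗ[ZMod p] V => t (α + δ)) e
        simp only [LinearEquiv.mul_apply] at e1
        have hcg : g (c (α + δ)) = c (α + δ) := by
          have h0 := add_mem hc (mem_fix.2 hyfix : b α ∈ fix g)
          rw [sub_add_cancel] at h0
          exact mem_fix.1 h0
        rw [hb₂x, hcg, ← hb₂x] at e1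
        have e2 := b₂.injective e1
        rw [map_add, hαneg, hgδ, add_left_inj] at e2
        exact αadd (by nth_rewrite 1 [← e2]; exact neg_add_cancel _)
      have := maxeq b₂ b₂H (hcb.trans hb₂fix) hb₂ne
      apply hbf
      rw [hfb₁, ← this, mem_fix, map_add, hb₂x, hb₂cx, add_comm]
    have m1 := mid b₁ b₁H hb₁fix (by rw [map_add, hb₁α, add_sub_cancel_left, mem_fix]; exact hb₁δ)
    have e2 : (b₁ * f) (α + δ) = b α - b₁ δ := by
      rw [LinearEquiv.mul_apply, map_add f, hfα, hfδ, map_add, map_neg, hb₁α, sub_eq_add_neg]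
    have m2 := mid (b₁ * f) (H.mul_mem b₁H hf.mem)
      (fix_le_fix_mul hb₁fix (hfb₁ ▸ hbf))
      (by rw [e2, sub_sub_cancel_left, mem_fix, map_neg, hb₁δ])
    rw [e2] at m2
    rw [map_add, hb₁α] at m1
    have hd : δ + δ ∈ fix f := by
      have := sub_mem (add_mem m1 m2) (add_mem hsum hsum)
      rwa [show α + δ + (b α + b₁ δ) + (α + δ + (b α - b₁ δ)) - (α + b α + (α + b α)) = δ + δ by
        abel] at this
    rw [mem_fix, map_add, hfδ] at hd
    have : δ + δ + (δ + δ) = 0 := by nth_rewrite 1 [← hd]; abel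
    exact hδ0 (eq_zero_of_add_self hp2 (eq_zero_of_add_self hp2 this))
  by_contra hne
  obtain ⟨f, hf, hhf⟩ := exists_top (H.mul_mem hh hh) hne
  have hfT : T ≤ fix f := (fix_le_fix_mul hT hT).trans hhf
  have ff := hf.mul_self B
  obtain ⟨v, hv, hv0⟩ := Top.exists_rng_ne_zero hf.ne_one
  have hhv : h v ∈ rng f := Top.commute_preserve (step f hf hfT h hh hT).symm hv
  have hsq : v ∈ fix (h * h) := by
    rw [mem_fix, LinearEquiv.mul_apply]
    by_cases hx : h v = v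
    · rw [hx, hx]
    obtain ⟨b, bH, b1, b2, b3, b4⟩ := B.swap hh v
    obtain ⟨z, hz⟩ := mem_rng.1 (sub_mem hhv hv)
    obtain ⟨-, -, b5⟩ := b4 f hf.mem z hz
    have hb1 : b ≠ 1 := fun e => hx (by rw [← b1, e]; rfl)
    have hmid : v + h v ∈ fix f := by
      rw [← hf.max b bH hb1 b5, mem_fix, map_add, b1, b2, add_comm]
    have h0 := B.eq_zero_of_fix_rng hp2 hf.mem (mem_fix.1 hmid) (add_mem hv hhv)
    rw [eq_neg_of_add_eq_zero_right h0, map_neg, eq_neg_of_add_eq_zero_right h0, neg_neg]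
  have := mem_fix.1 (hhf hsq)
  rw [apply_rng ff hv] at this
  exact hv0 (eq_zero_of_add_self hp2 (by nth_rewrite 1 [← this]; exact neg_add_cancel _))

end Cfsg.Agent.BinAff
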