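import Cfsg.Agent.BinAff.OddPlane
import Cfsg.Agent.BinAff.PlaneSwap

/-!
# Odd characteristic: no polarity without absolute points
-/

set_option autoImplicit false
set_option linter.style.haveILetI false

namespace Cfsg.Agent.BinAff

open Module (finrank)

variable {p : ℕ} [Fact p.Prime]

/-- A symmetric relation in which two distinct points have exactly one common neighbour, without
loops, with valency and order congruent to one modulo `p`, does not exist. -/
theorem false_of_polarity {ι : Type*} [Fintype ι] [DecidableEq ι] (adj : ι → ι → Prop)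
    [DecidableRel adj] (hsym : ∀ a b, adj a b → adj b a) (hirr : ∀ a, ¬ adj a a)
    (hone : ∀ a b, a ≠ b → ∃! w, adj a w ∧ adj b w)
    (hdeg : ∀ a, ((Finset.univ.filter fun w => adj a w).card : ZMod p) = 1)
    (hcard : (Fintype.card ι : ZMod p) = 1) : False := by
  let A : Matrix ι ι (ZMod p) := Matrix.of fun a b => if adj a b then 1 else 0
  let J : Matrix ι ι (ZMod p) := Matrix.of fun _ _ => 1
  have hAA : A * A = J := by
    ext a b
    simp only [Matrix.mul_apply, A, J, Matrix.of_apply, ite_mul, one_mul, zero_mul, ← ite_and]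
    rw [Finset.sum_boole]
    by_cases h : a = b
    · subst h
      rw [← hdeg a]
      congr 2
      ext w
      simp only [Finset.mem_filter]
      exact ⟨fun h => ⟨h.1, h.2.1⟩, fun h => ⟨h.1, h.2, hsym _ _ h.2⟩⟩
    · obtain ⟨w, hw, huniq⟩ := hone a b h
      have : (Finset.univ.filter fun j => adj a j ∧ adj j b) = {w} := by
        ext j
        simp only [Finset.mem_filter, Finset.mem_univ, true_and, Finset.mem_singleton]
        exact ⟨fun h => huniq j ⟨h.1, hsym _ _ h.2⟩, fun h => h ▸ ⟨hw.1, hsym _ _ hw.2⟩⟩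
      rw [this, Finset.card_singleton, Nat.cast_one]
  have hAJ : A * J = J := by
    ext a b
    simp only [Matrix.mul_apply, A, J, Matrix.of_apply, mul_one]
    rw [Finset.sum_boole]
    exact hdeg a
  have hpow : ∀ n, 2 ≤ n → A ^ n = J := by
    intro n hn
    induction n, hn using Nat.le_induction with
    | base => rw [pow_two, hAA]
    | succ n _ ih => rw [pow_succ', ih, hAJ]
  have e := ZMod.trace_pow_card (p := p) A
  rw [hpow p (Fact.out : p.Prime).two_le] at e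
  have hA : Matrix.trace A = 0 :=
    Finset.sum_eq_zero fun a _ => by simp [Matrix.diag, A, hirr a]
  have hJ : Matrix.trace J = 1 := by
    simp [Matrix.trace, Matrix.diag, J, hcard]
  rw [hA, hJ, zero_pow (Fact.out : p.Prime).ne_zero] at e
  exact one_ne_zero e

variable {V : Type*} [AddCommGroup V] [Module (ZMod p) V] {H : Subgroup (V ≃ₗ[ZMod p] V)}

theorem Top.commute_of_fixed [Finite V] (B : Bisect H) (hp2 : p ≠ 2) {f c : V ≃ₗ[ZMod p] V}
    (hf : Top H f) (hc : Top H c) {v : V} (hv : v ∈ rng f) (hv0 : v ≠ 0) (hcv : c v = v) :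
    c * f = f * c := by
  have h : v ∈ rng (c * f * c⁻¹) := by
    rw [mem_rng_conj]
    conv => arg 2; rw [← hcv]
    rw [inv_apply_self]; exact hv
  have e := (hf.conj hc.mem).eq_of_rng B hp2 hf hv0 h hv
  calc c * f = c * f * c⁻¹ * c := by group
    _ = f * c := by rw [e]

/-- The roots lying in a subspace covered by roots of constant size: their number. -/
theorem card_roots [Finite V] (S : Submodule (ZMod p) V) (X : Set (V ≃ₗ[ZMod p] V)) (q : ℕ)
    (hsub : ∀ f ∈ X, rng f ≤ S) (hcov : ∀ v ∈ S, v ≠ 0 → ∃ f ∈ X, v ∈ rng f)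
    (huniq : ∀ f ∈ X, ∀ g ∈ X, ∀ v ≠ 0, v ∈ rng f → v ∈ rng g → f = g)
    (hq : ∀ f ∈ X, Nat.card (rng f) = q) :
    Nat.card X * (q - 1) = Nat.card S - 1 := by
  haveI := finite_aut (p := p) (V := V)
  haveI : Fintype X := Fintype.ofFinite _
  let e : (Σ f : X, {v : rng f.1 // v.1 ≠ 0}) → {u : S // u.1 ≠ 0} :=
    fun x => ⟨⟨x.2.1.1, hsub x.1.1 x.1.2 x.2.1.2⟩, x.2.2⟩
  have he : Function.Bijective e := by
    constructor
    · rintro ⟨⟨f, hf⟩, ⟨v, hv⟩, hv0⟩ ⟨⟨g, hg⟩, ⟨v', hv'⟩, hv0'⟩ hfg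
      have h' : v = v' := congrArg (fun x => x.1.1) hfg
      subst h'
      obtain rfl := huniq f hf g hg v hv0 hv hv'
      rfl
    · rintro ⟨⟨u, hu⟩, hu0⟩
      obtain ⟨f, hf, huf⟩ := hcov u hu hu0
      exact ⟨⟨⟨f, hf⟩, ⟨⟨u, huf⟩, hu0⟩⟩, rfl⟩
  have hne : ∀ S : Submodule (ZMod p) V, Nat.card {v : S // v.1 ≠ 0} = Nat.card S - 1 := by
    intro S
    have h1 : Nat.card {v : S // v.1 ≠ 0} = Nat.card ({0}ᶜ : Set S) :=
      Nat.card_congr (Equiv.subtypeEquivRight fun v => by simp)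
    rw [h1, Nat.card_coe_set_eq, Set.ncard_compl, Set.ncard_singleton]
  have hc := Nat.card_congr (Equiv.ofBijective e he)
  rw [Nat.card_sigma, Finset.sum_congr rfl (fun f _ => (hne (rng f.1)).trans (by rw [hq f.1 f.2])),
    hne, Finset.sum_const, Finset.card_univ, ← Nat.card_eq_fintype_card, smul_eq_mul] at hc
  exact hc

theorem finrank_inf_add [Finite V] {A C U : Submodule (ZMod p) V} (h : IsCompl A C) (hC : C ≤ U) :
    finrank (ZMod p) (A ⊓ U : Submodule (ZMod p) V) + finrank (ZMod p) C =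
      finrank (ZMod p) U := by
  have e := Submodule.finrank_sup_add_finrank_inf_eq (A ⊓ U) C
  have h1 : A ⊓ U ⊔ C = U := by
    refine le_antisymm (sup_le inf_le_right hC) fun x hx => ?_
    obtain ⟨a, ha, c, hc, rfl⟩ := Submodule.mem_sup.1 (h.sup_eq_top ▸ Submodule.mem_top (x := x))
    exact Submodule.add_mem_sup ⟨ha, by simpa using sub_mem hx (hC hc)⟩ hc
  rw [h1, (h.disjoint.mono_left inf_le_left).eq_bot, finrank_bot, add_zero] at e
  exact e.symm

theorem GoodPair.connected_false [Finite V] (B : Bisect H) (hp2 : p ≠ 2) {g k : V ≃ₗ[ZMod p] V}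
    (hgk : GoodPair H g k) {l a₀ : V ≃ₗ[ZMod p] V} (hl : Top H l)
    (hlm : finrank (ZMod p) (rng l) = finrank (ZMod p) (rng g))
    (hlT : ¬ fix g ⊓ fix k ≤ fix l) (ha₀ : Top H a₀) (ha₀T : fix g ⊓ fix k ≤ fix a₀)
    (hla : l * a₀ ≠ a₀ * l) : False := by
  classical
  haveI := finite_aut (p := p) (V := V)
  set m := finrank (ZMod p) (rng g) with hm
  set T := fix g ⊓ fix k with hT
  obtain ⟨hP, hdim⟩ := hgk.plane B hp2
  rw [← hT] at hP hdim
  rw [← hm] at hP hdim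
  set M := {f | Top H f ∧ T ≤ fix f} with hM
  set P := rng (g * k) with hPdef
  have hq3 : 3 ≤ p ^ m := by
    have h2 := hP.two_le
    by_contra hc
    have h3 : p ^ m = 2 := by omega
    have hm0 : m ≠ 0 := fun e => by rw [e] at h3; simp at h3
    have hdvd : p ∣ 2 := h3 ▸ dvd_pow_self p hm0
    exact hp2 ((Nat.prime_dvd_prime_iff_eq Fact.out Nat.prime_two).1 hdvd)
  have hdT : finrank (ZMod p) T + 2 * m = finrank (ZMod p) V := by
    have ne : g ≠ k := fun e => hgk.ne (by rw [e])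
    have := (pair_compl B hp2 hgk.left hgk.right ne).2
    rw [hdim k hgk.right inf_le_right, ← hm, ← hT] at this
    omega
  -- planes spanned by non-commuting pairs
  have good : ∀ a b, Top H a → Top H b → finrank (ZMod p) (rng a) = m →
      finrank (ZMod p) (rng b) = m → a * b ≠ b * a →
      ∃ (T' Q : Submodule (ZMod p) V) (M' : Set (V ≃ₗ[ZMod p] V)), IsPlane H T' Q M' (p ^ m) ∧
        (∀ f ∈ M', Top H f ∧ finrank (ZMod p) (rng f) = m) ∧ a ∈ M' ∧ b ∈ M' ∧
        Q = rng a ⊔ rng b := by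
    intro a b ha hb hma hmb hne
    have ne : a ≠ b := fun e => hne (by rw [e])
    have e := (pair_compl B hp2 ha hb ne).2
    have hab : GoodPair H a b := ⟨ha, hb, hne, fun g' k' h1 h2 h3 => by
      have := hgk.max g' k' h1 h2 h3
      rw [← hT] at this
      omega⟩
    obtain ⟨hQ, hd⟩ := hab.plane B hp2
    rw [hma] at hQ hd
    exact ⟨_, _, _, hQ, fun f hf => ⟨hf.1, hd f hf.1 hf.2⟩, ⟨ha, inf_le_left⟩,
      ⟨hb, inf_le_right⟩, (hQ.sup_rng ⟨ha, inf_le_left⟩ ⟨hb, inf_le_right⟩ ne).symm⟩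
  have comm_fix : ∀ f c, Top H f → Top H c → f ≠ c → c * f = f * c → rng f ≤ fix c :=
    fun f c hf hc hne hcm => hc.rng_le_fix B hp2 hf hne.symm hcm
  have notfix : ∀ f v, Top H f → v ∈ rng f → v ∈ fix f → v = 0 := fun f v hf h1 h2 =>
    B.eq_zero_of_fix_rng hp2 hf.mem (mem_fix.1 h2) h1
  set U := P ⊔ rng l with hU
  have hPl : Disjoint P (rng l) := by
    refine Submodule.disjoint_def.2 fun v hv hv' => ?_
    by_contra h0
    obtain ⟨r, hr, hvr⟩ := hP.cover v hv h0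
    exact hlT (hr.1.eq_of_rng B hp2 hl h0 hvr hv' ▸ hr.2)
  have hdP : finrank (ZMod p) P = 2 * m := by
    have h1 := hP.card_P
    rw [card_submodule, ← pow_mul] at h1
    have := Nat.pow_right_injective (Fact.out : p.Prime).two_le h1
    omega
  have hdU : finrank (ZMod p) U = 3 * m := by
    have := Submodule.finrank_sup_add_finrank_inf_eq P (rng l)
    rw [hPl.eq_bot, finrank_bot, add_zero, ← hU] at this
    omega
  let R : Set (V ≃ₗ[ZMod p] V) := {f | Top H f ∧ rng f ≤ U ∧ finrank (ZMod p) (rng f) = m}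
  have hMR : ∀ f ∈ M, f ∈ R := fun f hf =>
    ⟨hf.1, le_trans (hP.mem f hf).2.2.2.2 le_sup_left, hdim f hf.1 hf.2⟩
  have hlR : l ∈ R := ⟨hl, le_sup_right, hlm⟩
  have fixU : ∀ f ∈ R, finrank (ZMod p) (fix f ⊓ U : Submodule (ZMod p) V) = 2 * m := by
    intro f hf
    have := finrank_inf_add (B.isCompl_fix_rng hp2 hf.1.mem) hf.2.1
    rw [hf.2.2, hdU] at this
    omega
  -- a plane meets the fixed space of every root
  have meet : ∀ (T' Q : Submodule (ZMod p) V) (M' : Set (V ≃ₗ[ZMod p] V)),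
      IsPlane H T' Q M' (p ^ m) → (∀ f ∈ M', Top H f ∧ finrank (ZMod p) (rng f) = m) → Q ≤ U →
      ∀ c ∈ R, ∃ f ∈ M', f ≠ c ∧ c * f = f * c ∧ rng f ≤ fix c := by
    intro T' Q M' hQ hM' hQU c hc
    have hdQ : finrank (ZMod p) Q = 2 * m := by
      have h1 := hQ.card_P
      rw [card_submodule, ← pow_mul] at h1
      have := Nat.pow_right_injective (Fact.out : p.Prime).two_le h1
      omega
    obtain ⟨v, hv, hv0⟩ : ∃ v ∈ (Q ⊓ (fix c ⊓ U) : Submodule (ZMod p) V), v ≠ 0 := by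
      by_contra hcon
      push Not at hcon
      have h0 : Q ⊓ (fix c ⊓ U) = ⊥ := (Submodule.eq_bot_iff _).2 hcon
      have e := Submodule.finrank_sup_add_finrank_inf_eq Q (fix c ⊓ U)
      rw [h0, finrank_bot, add_zero, fixU c hc] at e
      have := Submodule.finrank_mono (sup_le hQU (inf_le_right : fix c ⊓ U ≤ U))
      have : m ≠ 0 := fun e => by rw [e] at hq3; simp at hq3
      omega
    obtain ⟨f, hf, hvf⟩ := hQ.cover v hv.1 hv0
    have hne : f ≠ c := fun e => hv0 (notfix c v hc.1 (e ▸ hvf) hv.2.1)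
    have hcm := (hM' f hf).1.commute_of_fixed B hp2 hc.1 hvf hv0 (mem_fix.1 hv.2.1)
    exact ⟨f, hf, hne, hcm, comm_fix f c (hM' f hf).1 hc.1 hne hcm⟩
  -- at most one root of a plane commutes with an element that does not centralise the plane
  have unique : ∀ (T' Q : Submodule (ZMod p) V) (M' : Set (V ≃ₗ[ZMod p] V)),
      IsPlane H T' Q M' (p ^ m) → (∀ f ∈ M', Top H f ∧ finrank (ZMod p) (rng f) = m) →
      ∀ c, Top H c → ∀ x ∈ M', c * x ≠ x * c →
      ∀ f ∈ M', ∀ f' ∈ M', f ≠ c → f' ≠ c → c * f = f * c → c * f' = f' * c → f = f' := by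
    intro T' Q M' hQ hM' c hc x hx hcx f hf f' hf' h1 h2 c1 c2
    by_contra hne
    obtain ⟨v, hv, hv0⟩ := Top.exists_rng_ne_zero (hM' x hx).1.ne_one
    have hle : Q ≤ fix c := by
      rw [← hQ.sup_rng hf hf' hne]
      exact sup_le (comm_fix f c (hM' f hf).1 hc h1 c1) (comm_fix f' c (hM' f' hf').1 hc h2 c2)
    exact hcx ((hM' x hx).1.commute_of_fixed B hp2 hc hv hv0
      (mem_fix.1 (hle ((hQ.mem x hx).2.2.2.2 hv))))
  have partner : ∀ (T' Q : Submodule (ZMod p) V) (M' : Set (V ≃ₗ[ZMod p] V)),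
      IsPlane H T' Q M' (p ^ m) → (∀ f ∈ M', Top H f ∧ finrank (ZMod p) (rng f) = m) → Q ≤ U →
      ∀ f ∈ M', ∃ f' ∈ M', f' ≠ f ∧ f * f' = f' * f ∧
        ∀ f'' ∈ M', f'' ≠ f → f * f'' = f'' * f → f'' = f' := by
    intro T' Q M' hQ hM' hQU f hf
    obtain ⟨f', hf', hne, hcm, hle⟩ := meet T' Q M' hQ hM' hQU f
      ⟨(hM' f hf).1, le_trans (hQ.mem f hf).2.2.2.2 hQU, (hM' f hf).2⟩
    refine ⟨f', hf', hne, hcm, fun f'' hf'' hne'' hcm'' => ?_⟩
    by_contra hne2
    obtain ⟨v, hv, hv0⟩ := Top.exists_rng_ne_zero (hM' f hf).1.ne_one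
    have hle2 : Q ≤ fix f := by
      rw [← hQ.sup_rng hf' hf'' (Ne.symm hne2)]
      exact sup_le hle (comm_fix f'' f (hM' f'' hf'').1 (hM' f hf).1 hne'' hcm'')
    exact hv0 (notfix f v (hM' f hf).1 hv (hle2 ((hQ.mem f hf).2.2.2.2 hv)))
  have hMdim : ∀ f ∈ M, Top H f ∧ finrank (ZMod p) (rng f) = m :=
    fun f hf => ⟨hf.1, hdim f hf.1 hf.2⟩
  have hlM : l ∉ M := fun h => hlT h.2
  obtain ⟨r, hr, -, hlr, hrfix⟩ := meet T P M hP hMdim le_sup_left l hlR
  have noncomm : ∀ f ∈ M, f ≠ r → l * f ≠ f * l := fun f hf hne h =>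
    hne (unique T P M hP hMdim l hl a₀ ⟨ha₀, ha₀T⟩ hla f hf r hr
      (fun e => hlM (e ▸ hf)) (fun e => hlM (e ▸ hr)) h hlr)
  have planeU : ∀ a b, a ∈ R → b ∈ R → rng a ⊔ rng b ≤ U := fun a b ha hb => sup_le ha.2.1 hb.2.1
  have lrne : l ≠ r := fun e => hlM (e ▸ hr)
  -- a further root in the sum of the two commuting roots
  set S := rng r ⊔ rng l with hS
  have hdS : finrank (ZMod p) S = 2 * m := by
    have := Submodule.finrank_sup_add_finrank_inf_eq (rng r) (rng l)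
    rw [(disjoint_rng B hp2 hr.1 hl lrne.symm).eq_bot, finrank_bot, add_zero, ← hS,
      hdim r hr.1 hr.2, hlm] at this
    omega
  obtain ⟨w, hwR, hwS, hwr, hwl⟩ : ∃ w ∈ R, rng w ≤ S ∧ w ≠ r ∧ w ≠ l := by
    obtain ⟨n, hn, hnr, hrn, hnu⟩ := partner T P M hP hMdim le_sup_left r hr
    obtain ⟨T₀, Q₀, M₀, hQ₀, hM₀, hnM₀, hlM₀, hQ₀e⟩ := good n l hn.1 hl (hdim n hn.1 hn.2) hlm
      (Ne.symm (noncomm n hn hnr))
    have hQ₀U : Q₀ ≤ U := hQ₀e ▸ planeU n l (hMR n hn) hlR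
    obtain ⟨n', hn', hn'l, hln', -⟩ := partner T₀ Q₀ M₀ hQ₀ hM₀ hQ₀U l hlM₀
    have hn'R : n' ∈ R :=
      ⟨(hM₀ n' hn').1, le_trans (hQ₀.mem n' hn').2.2.2.2 hQ₀U, (hM₀ n' hn').2⟩
    have hQ₀fix : Q₀ ≤ fix r := hQ₀e ▸ sup_le (comm_fix n r hn.1 hr.1 hnr hrn)
      (comm_fix l r hl hr.1 lrne hlr.symm)
    obtain ⟨v, hv, hv0⟩ := Top.exists_rng_ne_zero hn'R.1.ne_one
    have hvr : v ∈ fix r := hQ₀fix ((hQ₀.mem n' hn').2.2.2.2 hv)
    have hn'r : n' ≠ r := fun e => hv0 (notfix r v hr.1 (e ▸ hv) hvr)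
    have hrn' := hn'R.1.commute_of_fixed B hp2 hr.1 hv hv0 (mem_fix.1 hvr)
    have hSfix : fix n' ⊓ U = S := by
      refine (Submodule.eq_of_le_of_finrank_le (le_inf (sup_le
        (comm_fix r n' hr.1 hn'R.1 hn'r.symm hrn'.symm)
        (comm_fix l n' hl hn'R.1 hn'l.symm hln'.symm)) (planeU r l (hMR r hr) hlR)) ?_).symm
      rw [fixU n' hn'R, hdS]
    -- two members of the plane noncommuting with `l`
    obtain ⟨a, haM, har, han⟩ : ∃ a ∈ M, a ≠ r ∧ a ≠ n := by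
      by_contra hc
      push Not at hc
      have hsub : M ⊆ {r, n} := fun x hx => by
        by_cases e : x = r
        · exact Or.inl e
        · exact Or.inr (hc x hx e)
      have h1 := Set.ncard_le_ncard hsub (Set.toFinite _)
      rw [← Nat.card_coe_set_eq, hP.card_M] at h1
      have := Set.ncard_insert_le r ({n} : Set (V ≃ₗ[ZMod p] V))
      rw [Set.ncard_singleton] at this
      omega
    obtain ⟨b, hbM, hbr, hbn, hba⟩ : ∃ b ∈ M, b ≠ r ∧ b ≠ n ∧ b ≠ a := by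
      by_contra hc
      push Not at hc
      have hsub : M ⊆ {r, n, a} := fun x hx => by
        by_cases e : x = r
        · exact Or.inl e
        · by_cases e' : x = n
          · exact Or.inr (Or.inl e')
          · exact Or.inr (Or.inr (hc x hx e e'))
      have h1 := Set.ncard_le_ncard hsub (Set.toFinite _)
      rw [← Nat.card_coe_set_eq, hP.card_M] at h1
      have := Set.ncard_insert_le r ({n, a} : Set (V ≃ₗ[ZMod p] V))
      have := Set.ncard_insert_le n ({a} : Set (V ≃ₗ[ZMod p] V))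
      rw [Set.ncard_singleton] at this
      omega
    obtain ⟨T₁, Q₁, M₁, hQ₁, hM₁, hbM₁, hlM₁, hQ₁e⟩ := good b l hbM.1 hl (hdim b hbM.1 hbM.2) hlm
      (Ne.symm (noncomm b hbM hbr))
    have hQ₁U : Q₁ ≤ U := hQ₁e ▸ planeU b l (hMR b hbM) hlR
    obtain ⟨x, hx, hxb, hbx, -⟩ := partner T₁ Q₁ M₁ hQ₁ hM₁ hQ₁U b hbM₁
    have hxR : x ∈ R := ⟨(hM₁ x hx).1, le_trans (hQ₁.mem x hx).2.2.2.2 hQ₁U, (hM₁ x hx).2⟩
    have hxl : x ≠ l := fun e => noncomm b hbM hbr (e ▸ hbx.symm)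
    obtain ⟨vb, hvb, hvb0⟩ := Top.exists_rng_ne_zero hbM.1.ne_one
    have hbQ₁ : vb ∈ Q₁ := hQ₁e ▸ Submodule.mem_sup_left hvb
    have hxP : x ∉ M := by
      intro h
      obtain ⟨vx, hvx, hvx0⟩ := Top.exists_rng_ne_zero hxR.1.ne_one
      have hle : Q₁ ≤ P := by
        rw [← hQ₁.sup_rng hx hbM₁ hxb]
        exact sup_le (hP.mem x h).2.2.2.2 (hP.mem b hbM).2.2.2.2
      obtain ⟨vl, hvl, hvl0⟩ := Top.exists_rng_ne_zero hl.ne_one
      exact hvl0 (Submodule.disjoint_def.1 hPl vl (hle (hQ₁e ▸ Submodule.mem_sup_right hvl)) hvl)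
    have hxa : x * a ≠ a * x := by
      intro hcm
      have hPx : P ≤ fix x := by
        rw [← hP.sup_rng haM hbM hba.symm]
        exact sup_le (comm_fix a x haM.1 hxR.1 (fun e => hxP (e ▸ haM)) hcm)
          (comm_fix b x hbM.1 hxR.1 hxb.symm hbx.symm)
      obtain ⟨vr, hvr, hvr0⟩ := Top.exists_rng_ne_zero hr.1.ne_one
      have hxr := hr.1.commute_of_fixed B hp2 hxR.1 hvr hvr0
        (mem_fix.1 (hPx ((hP.mem r hr).2.2.2.2 hvr)))
      have hQ₁fix : Q₁ ≤ fix r := by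
        rw [← hQ₁.sup_rng hx hlM₁ hxl]
        exact sup_le (comm_fix x r hxR.1 hr.1 (fun e => hxP (e ▸ hr)) hxr.symm)
          (comm_fix l r hl hr.1 lrne hlr.symm)
      exact hbn (hnu b hbM hbr
        (hbM.1.commute_of_fixed B hp2 hr.1 hvb hvb0 (mem_fix.1 (hQ₁fix hbQ₁))))
    obtain ⟨T₂, Q₂, M₂, hQ₂, hM₂, haM₂, hxM₂, hQ₂e⟩ := good a x haM.1 hxR.1 (hdim a haM.1 haM.2)
      hxR.2.2 (Ne.symm hxa)
    have hQ₂U : Q₂ ≤ U := hQ₂e ▸ planeU a x (hMR a haM) hxR
    obtain ⟨w, hw, -, -, hwfix⟩ := meet T₂ Q₂ M₂ hQ₂ hM₂ hQ₂U n' hn'R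
    have hwU : rng w ≤ U := le_trans (hQ₂.mem w hw).2.2.2.2 hQ₂U
    refine ⟨w, ⟨(hM₂ w hw).1, hwU, (hM₂ w hw).2⟩, hSfix ▸ le_inf hwfix hwU, ?_, ?_⟩
    · intro e
      subst e
      have hle : Q₂ = P := by rw [← hQ₂.sup_rng haM₂ hw har, hP.sup_rng haM hr har]
      obtain ⟨vx, hvx, hvx0⟩ := Top.exists_rng_ne_zero hxR.1.ne_one
      obtain ⟨f, hf, hvf⟩ := hP.cover vx (hle ▸ (hQ₂.mem x hxM₂).2.2.2.2 hvx) hvx0
      exact hxP (hf.1.eq_of_rng B hp2 hxR.1 hvx0 hvf hvx ▸ hf)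
    · intro e
      subst e
      have hle : Q₂ = Q₁ := by
        rw [← hQ₂.sup_rng hxM₂ hw hxl, hQ₁.sup_rng hx hlM₁ hxl]
      have hPQ : P ≤ Q₁ := by
        rw [← hP.sup_rng haM hbM hba.symm, ← hle]
        exact sup_le (hQ₂.mem a haM₂).2.2.2.2 (hle ▸ (hQ₁.mem b hbM₁).2.2.2.2)
      have hUQ : U ≤ Q₁ := sup_le hPQ (hQ₁.mem _ hlM₁).2.2.2.2
      have := Submodule.finrank_mono hUQ
      have h1 := hQ₁.card_P
      rw [card_submodule, ← pow_mul] at h1
      have := Nat.pow_right_injective (Fact.out : p.Prime).two_le h1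
      have : m ≠ 0 := fun e => by rw [e] at hq3; simp at hq3
      omega
  have cover : ∀ v ∈ U, v ≠ 0 → ∃ f ∈ R, v ∈ rng f := by
    have inPlane : ∀ a b, a ∈ R → b ∈ R → a * b ≠ b * a →
        ∀ v ∈ rng a ⊔ rng b, v ≠ 0 → ∃ f ∈ R, v ∈ rng f := by
      intro a b ha hb hne v hv hv0
      obtain ⟨T', Q, M', hQ, hM', -, -, hQe⟩ := good a b ha.1 hb.1 ha.2.2 hb.2.2 hne
      obtain ⟨f, hf, hvf⟩ := hQ.cover v (hQe ▸ hv) hv0
      exact ⟨f, ⟨(hM' f hf).1, le_trans (hQ.mem f hf).2.2.2.2 (hQe ▸ planeU a b ha hb),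
        (hM' f hf).2⟩, hvf⟩
    intro v hv hv0
    obtain ⟨y, hy, z, hz, rfl⟩ := Submodule.mem_sup.1 hv
    by_cases hy0 : y = 0
    · exact ⟨l, hlR, by rw [hy0, zero_add]; exact hz⟩
    obtain ⟨f, hf, hyf⟩ := hP.cover y hy hy0
    by_cases hfr : f = r
    · subst hfr
      have hwne : w * f ≠ f * w := by
        intro hcm
        obtain ⟨vw, hvw, hvw0⟩ := Top.exists_rng_ne_zero hwR.1.ne_one
        have h1 : vw ∈ fix f := comm_fix w f hwR.1 hr.1 hwr hcm.symm hvw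
        obtain ⟨a, ha, b, hb, hab⟩ := Submodule.mem_sup.1 (hwS hvw)
        have h2 : b ∈ fix f := comm_fix l f hl hr.1 lrne hlr.symm hb
        have h3 : a ∈ fix f := by
          have := sub_mem h1 h2
          rwa [← hab, add_sub_cancel_right] at this
        rw [notfix f a hr.1 ha h3, zero_add] at hab
        exact hwl (hwR.1.eq_of_rng B hp2 hl hvw0 hvw (hab ▸ hb))
      have heq : rng w ⊔ rng f = S := by
        refine Submodule.eq_of_le_of_finrank_le (sup_le hwS le_sup_left) ?_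
        have := Submodule.finrank_sup_add_finrank_inf_eq (rng w) (rng f)
        rw [(disjoint_rng B hp2 hwR.1 hr.1 hwr).eq_bot, finrank_bot, add_zero, hwR.2.2,
          hdim f hr.1 hr.2] at this
        omega
      exact inPlane w f hwR (hMR f hr) hwne _ (heq ▸ Submodule.add_mem_sup hyf hz) hv0
    · exact inPlane f l (hMR f hf) hlR (Ne.symm (noncomm f hf hfr)) _
        (Submodule.add_mem_sup hyf hz) hv0
  -- the polarity graph
  let adj : R → R → Prop := fun a b => a ≠ b ∧ (a.1 * b.1 = b.1 * a.1)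
  have card_sub : ∀ (W : Submodule (ZMod p) V) (X : Set (V ≃ₗ[ZMod p] V)), X ⊆ R →
      (∀ f ∈ X, rng f ≤ W) → (∀ v ∈ W, v ≠ 0 → ∃ f ∈ X, v ∈ rng f) →
      Nat.card X * (p ^ m - 1) = p ^ finrank (ZMod p) W - 1 := fun W X h1 h2 h3 => by
    rw [← card_submodule W]
    exact card_roots W X _ h2 h3 (fun f hf g hg v hv0 a b => (h1 hf).1.eq_of_rng B hp2 (h1 hg).1
      hv0 a b) (fun f hf => by rw [card_submodule, (h1 hf).2.2])
  have hz : ∀ (n j : ℕ), n * (p ^ m - 1) = p ^ (j * m) - 1 → j = 2 ∨ j = 3 → (n : ZMod p) = 1 := by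
    intro n j hn hj
    have hm0 : m ≠ 0 := fun e => by rw [e] at hq3; simp at hq3
    have hp0 : ((p ^ m : ℕ) : ZMod p) = 0 := by
      rw [Nat.cast_pow, ZMod.natCast_self, zero_pow hm0]
    rcases hj with rfl | rfl
    · have e : n = p ^ m + 1 := by
        rw [show (2 * m) = m * 2 by ring, pow_mul,
          show (p ^ m) ^ 2 - 1 = (p ^ m + 1) * (p ^ m - 1) by simpa using Nat.sq_sub_sq (p ^ m) 1]
          at hn
        exact Nat.eq_of_mul_eq_mul_right (by omega) hn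
      rw [e, Nat.cast_add, hp0, zero_add, Nat.cast_one]
    · have e : n = (p ^ m) ^ 2 + p ^ m + 1 := by
        refine Nat.eq_of_mul_eq_mul_right (show 0 < p ^ m - 1 by omega) ?_
        rw [hn, show (3 * m) = m * 3 by ring, pow_mul]
        generalize p ^ m = q at hq3
        obtain ⟨i, rfl⟩ : ∃ i, q = i + 1 := ⟨q - 1, by omega⟩
        have : (i + 1) ^ 3 = ((i + 1) ^ 2 + (i + 1) + 1) * i + 1 := by ring
        rw [this, Nat.add_sub_cancel, Nat.add_sub_cancel]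
      rw [e, Nat.cast_add, Nat.cast_add, Nat.cast_pow, hp0, Nat.cast_one]
      ring
  haveI : Fintype R := Fintype.ofFinite _
  refine false_of_polarity (p := p) adj (fun a b h => ⟨h.1.symm, h.2.symm⟩) (fun a h => h.1 rfl)
    ?_ ?_ ?_
  · intro a b hab
    have hne : a.1 ≠ b.1 := fun e => hab (Subtype.ext e)
    obtain ⟨hc, -⟩ := pair_compl B hp2 a.2.1 b.2.1 hne
    have hd := finrank_inf_add hc (planeU a.1 b.1 a.2 b.2)
    have e := Submodule.finrank_sup_add_finrank_inf_eq (rng a.1) (rng b.1)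
    rw [(disjoint_rng B hp2 a.2.1 b.2.1 hne).eq_bot, finrank_bot, add_zero, a.2.2.2, b.2.2.2] at e
    rw [e, hdU] at hd
    set W := fix a.1 ⊓ fix b.1 ⊓ U with hW
    have hm0 : m ≠ 0 := fun e => by rw [e] at hq3; simp at hq3
    obtain ⟨v, hv, hv0⟩ : ∃ v ∈ W, v ≠ 0 := by
      by_contra hcon
      push Not at hcon
      rw [(Submodule.eq_bot_iff W).2 hcon, finrank_bot] at hd
      omega
    obtain ⟨f, hf, hvf⟩ := cover v hv.2 hv0
    have hfa : f ≠ a.1 := fun e => hv0 (notfix a.1 v a.2.1 (e ▸ hvf) hv.1.1)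
    have hfb : f ≠ b.1 := fun e => hv0 (notfix b.1 v b.2.1 (e ▸ hvf) hv.1.2)
    have c1 := hf.1.commute_of_fixed B hp2 a.2.1 hvf hv0 (mem_fix.1 hv.1.1)
    have c2 := hf.1.commute_of_fixed B hp2 b.2.1 hvf hv0 (mem_fix.1 hv.1.2)
    refine ⟨⟨f, hf⟩, ⟨⟨fun e => hfa (congrArg Subtype.val e).symm, c1⟩,
      ⟨fun e => hfb (congrArg Subtype.val e).symm, c2⟩⟩, ?_⟩
    rintro ⟨f', hf'⟩ ⟨⟨n1, d1⟩, ⟨n2, d2⟩⟩
    have inW : ∀ x, x ∈ R → x ≠ a.1 → x ≠ b.1 → a.1 * x = x * a.1 → b.1 * x = x * b.1 →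
        rng x = W := fun x hx x1 x2 y1 y2 => Submodule.eq_of_le_of_finrank_le
      (le_inf (le_inf (comm_fix x a.1 hx.1 a.2.1 x1 y1) (comm_fix x b.1 hx.1 b.2.1 x2 y2)) hx.2.1)
      (by rw [hx.2.2]; omega)
    refine Subtype.ext (hf'.1.eq_of_rng B hp2 hf.1 hv0 ?_ hvf)
    rw [inW f' hf' (fun e => n1 (Subtype.ext e.symm)) (fun e => n2 (Subtype.ext e.symm)) d1 d2]
    exact hv
  · intro a
    have hN := card_sub (fix a.1 ⊓ U) {f | f ∈ R ∧ f ≠ a.1 ∧ a.1 * f = f * a.1} (fun f hf => hf.1)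
      (fun f hf => le_inf (comm_fix f a.1 hf.1.1 a.2.1 hf.2.1 hf.2.2) hf.1.2.1)
      (fun v hv hv0 => by
        obtain ⟨f, hf, hvf⟩ := cover v hv.2 hv0
        exact ⟨f, ⟨hf, fun e => hv0 (notfix a.1 v a.2.1 (e ▸ hvf) hv.1),
          hf.1.commute_of_fixed B hp2 a.2.1 hvf hv0 (mem_fix.1 hv.1)⟩, hvf⟩)
    rw [fixU a.1 a.2] at hN
    rw [← hz _ 2 hN (Or.inl rfl), ← Fintype.card_subtype, ← Nat.card_eq_fintype_card]
    exact congrArg _ (Nat.card_congr
      { toFun := fun w => ⟨w.1.1, w.1.2, fun e => w.2.1 (Subtype.ext e.symm), w.2.2⟩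
        invFun := fun f => ⟨⟨f.1, f.2.1⟩, fun e => f.2.2.1 (congrArg Subtype.val e).symm, f.2.2.2⟩
        left_inv := fun w => rfl
        right_inv := fun f => rfl })
  · have hN := card_sub U R (fun f hf => hf) (fun f hf => hf.2.1) cover
    rw [hdU] at hN
    rw [← hz _ 3 hN (Or.inr rfl), Nat.card_eq_fintype_card]

/-- In an irreducible group the plane of a good pair is everything. -/
theorem GoodPair.fix_eq_bot [Finite V] (B : Bisect H) (hp2 : p ≠ 2) {g k : V ≃ₗ[ZMod p] V}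
    (hgk : GoodPair H g k)
    (hirr : ∀ U : Submodule (ZMod p) V, (∀ h ∈ H, ∀ v ∈ U, h v ∈ U) → U = ⊥ ∨ U = ⊤) :
    fix g ⊓ fix k = ⊥ := by
  obtain ⟨hP, hdim⟩ := hgk.plane B hp2
  have hgM : g ∈ {f | Top H f ∧ fix g ⊓ fix k ≤ fix f} := ⟨hgk.left, inf_le_left⟩
  have hs : IsPlane.Split H (fix g ⊓ fix k) (rng (g * k))
      {f | Top H f ∧ fix g ⊓ fix k ≤ fix f} := by
    intro h hh f hf
    have hl := hf.1.conj (b := h) hh
    have hin : ∀ v ∈ rng f, h v ∈ rng (h * f * h⁻¹) := fun v hv => by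
      rw [mem_rng_conj, inv_apply_self]; exact hv
    by_cases hlT : fix g ⊓ fix k ≤ fix (h * f * h⁻¹)
    · exact Or.inl fun v hv => (hP.mem _ ⟨hl, hlT⟩).2.2.2.2 (hin v hv)
    · right
      have hr : finrank (ZMod p) (rng (h * f * h⁻¹)) = finrank (ZMod p) (rng g) := by
        have : rng (h * f * h⁻¹) = (rng f).map h.toLinearMap := by
          ext v
          rw [mem_rng_conj, Submodule.mem_map_equiv]
          rfl
        rw [this]
        exact (LinearEquiv.finrank_map_eq h _).trans (hdim f hf.1 hf.2)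
      have hcomm : ∀ a, Top H a → fix g ⊓ fix k ≤ fix a →
          h * f * h⁻¹ * a = a * (h * f * h⁻¹) := by
        intro a ha haT
        by_contra hne
        exact hgk.connected_false B hp2 hl hr hlT ha haT hne
      exact fun v hv => ⟨hgk.left.rng_le_fix B hp2 hl (fun e => hlT (e ▸ inf_le_left))
          (hcomm g hgk.left inf_le_left).symm (hin v hv),
        hgk.right.rng_le_fix B hp2 hl (fun e => hlT (e ▸ inf_le_right))
          (hcomm k hgk.right inf_le_right).symm (hin v hv)⟩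
  by_cases hex : ∃ h ∈ H, ∀ v ∈ rng (g * k), h v ∈ fix g ⊓ fix k
  · obtain ⟨h, hh, hT⟩ := hex
    exfalso
    refine hP.false_of_split B hs ?_ hh hT
    have h2 := hP.two_le
    by_contra hc
    have h3 : p ^ finrank (ZMod p) (rng g) = 2 := by omega
    have hm0 : finrank (ZMod p) (rng g) ≠ 0 := fun e => by rw [e] at h3; simp at h3
    exact hp2 ((Nat.prime_dvd_prime_iff_eq Fact.out Nat.prime_two).1 (h3 ▸ dvd_pow_self p hm0))
  · push Not at hex
    rcases hirr (rng (g * k)) (fun h hh v hv => by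
      rcases hP.image_cases hs hh with hc | hc
      · exact hc v hv
      · obtain ⟨w, hw, hw'⟩ := hex h hh
        exact absurd (hc w hw) hw') with h | h
    · have := hP.card_P
      rw [h, Nat.card_eq_one_iff_unique.2 ⟨inferInstance, inferInstance⟩] at this
      have h2 := hP.two_le
      rw [pow_two] at this
      nlinarith
    · have := hP.compl.disjoint
      rwa [h, disjoint_top] at this

end Cfsg.Agent.BinAff
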