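import Cfsg.Agent.BinAff.Basic

/-!
# Dihedral planes of a binary linear group
-/

set_option autoImplicit false

namespace Cfsg.Agent.BinAff

variable {p : ℕ} [Fact p.Prime] {V : Type*} [AddCommGroup V] [Module (ZMod p) V]

/-- A plane `P` over a field with `q` elements, with complement `T`, together with the set `M` of
the `q + 1` reflections of an anisotropic orthogonal group of that plane. -/
structure IsPlane (H : Subgroup (V ≃ₗ[ZMod p] V)) (T P : Submodule (ZMod p) V)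
    (M : Set (V ≃ₗ[ZMod p] V)) (q : ℕ) : Prop where
  compl : IsCompl T P
  two_le : 2 ≤ q
  card_P : Nat.card P = q ^ 2
  card_M : Nat.card M = q + 1
  mem : ∀ g ∈ M, g ∈ H ∧ g * g = 1 ∧ g ≠ 1 ∧ T ≤ fix g ∧ rng g ≤ P
  cover : ∀ u ∈ P, u ≠ 0 → ∃ g ∈ M, u ∈ rng g
  root_unique : ∀ g ∈ M, ∀ g' ∈ M, ∀ u ≠ 0, u ∈ rng g → u ∈ rng g' → g = g'
  card_rng : ∀ g ∈ M, Nat.card (rng g) = q
  bisect : ∀ g ∈ M, ∀ h ∈ H, ∀ x, h x - x ∈ rng g → h x ≠ x → g x = h x
  fix_unique : ∀ c ∉ T, ∀ g ∈ M, ∀ g' ∈ M, g c = c → g' c = c → g = g'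
  fix_exists : ∀ c ∉ T, ∃ g ∈ M, g c = c
  inj : ∀ g ∈ M, ∀ g' ∈ M, ∀ v ∉ T, g v = g' v → g = g'
  triple : ∀ a ∈ M, ∀ b ∈ M, ∀ c ∈ M, a * b * c ∈ M
  prod_not_mem : ∀ a ∈ M, ∀ b ∈ M, a * b ∉ M
  gen : ∀ h ∈ H, T ≤ fix h → ∀ g ∈ M, h ∈ M ∨ h * g ∈ M

namespace IsPlane

variable {H : Subgroup (V ≃ₗ[ZMod p] V)} {T P : Submodule (ZMod p) V}
  {M : Set (V ≃ₗ[ZMod p] V)} {q : ℕ}

theorem nonempty (hP : IsPlane H T P M q) : ∃ g, g ∈ M := by
  have h : Nat.card M ≠ 0 := by rw [hP.card_M]; exact Nat.succ_ne_zero q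
  obtain ⟨⟨g, hg⟩⟩ := (Nat.card_ne_zero.1 h).1
  exact ⟨g, hg⟩

theorem not_mem_T (hP : IsPlane H T P M q) {c : V} (hc : c ∈ P) (h0 : c ≠ 0) : c ∉ T := fun h =>
  h0 (Submodule.disjoint_def.1 hP.compl.disjoint c h hc)

theorem maps (hP : IsPlane H T P M q) {g : V ≃ₗ[ZMod p] V} (hg : g ∈ M) {v : V} (hv : v ∈ P) :
    g v ∈ P := by
  have := add_mem hv ((hP.mem g hg).2.2.2.2 (sub_mem_rng g v))
  rwa [add_sub_cancel] at this

/-- Inside the plane, orbits of `H` are orbits of the plane group. -/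
theorem exists_apply_eq (hP : IsPlane H T P M q) {e : V ≃ₗ[ZMod p] V} (he : e ∈ H) {y : V}
    (hy : y ∈ P) (hey : e y ∈ P) : ∃ g ∈ M, g y = e y := by
  by_cases hu : e y = y
  · by_cases hy0 : y = 0
    · obtain ⟨g, hg⟩ := hP.nonempty
      exact ⟨g, hg, by simp [hy0]⟩
    · rw [hu]
      exact hP.fix_exists y (hP.not_mem_T hy hy0)
  · obtain ⟨g, hg, hug⟩ := hP.cover (e y - y) (sub_mem hey hy) (sub_ne_zero.2 hu)
    exact ⟨g, hg, hP.bisect g hg e he y hug hu⟩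

/-- An element normalising the plane and fixing one of its nonzero vectors is trivial or a
reflection on it. -/
theorem stab_plane (hP : IsPlane H T P M q) {e : V ≃ₗ[ZMod p] V} (he : e ∈ H)
    (hmap : ∀ y ∈ P, e y ∈ P) {c : V} (hc : c ∈ P) (hec : e c = c) {g : V ≃ₗ[ZMod p] V}
    (hg : g ∈ M) (hgc : g c = c) (hc0 : c ≠ 0) :
    (∀ y ∈ P, e y = y) ∨ ∀ y ∈ P, e y = g y := by
  have key : ∀ y ∈ P, e y = y ∨ e y = g y := by
    intro y hy
    by_cases hu : e y = y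
    · exact Or.inl hu
    obtain ⟨r, hr, hur⟩ := hP.cover (e y - y) (sub_mem (hmap y hy) hy) (sub_ne_zero.2 hu)
    have e1 := hP.bisect r hr e he y hur hu
    have e2 := hP.bisect r hr e he (y - c) (by rwa [map_sub, hec, sub_sub_sub_cancel_right])
      (by rwa [map_sub, hec, Ne, sub_left_inj])
    rw [map_sub, map_sub, hec, e1, sub_right_inj] at e2
    have hrg := hP.fix_unique c (hP.not_mem_T hc hc0) r hr g hg e2 hgc
    exact Or.inr (hrg ▸ e1.symm)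
  by_contra hne
  push Not at hne
  obtain ⟨⟨a, ha, hea⟩, b, hb, heb⟩ := hne
  have h1 := (key a ha).resolve_left hea
  have h2 := (key b hb).resolve_right heb
  rcases key (a + b) (add_mem ha hb) with h | h
  · rw [map_add, h2, add_left_inj] at h
    exact hea h
  · rw [map_add, map_add, h1, add_right_inj] at h
    exact heb h

end IsPlane

end Cfsg.Agent.BinAff
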