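import Cfsg.Agent.BinAff.Odd
import Cfsg.Agent.BinAff.Plane

/-!
# Planes from two non-commuting maximal involutions (odd characteristic)
-/

set_option autoImplicit false
set_option linter.style.haveILetI false

namespace Cfsg.Agent.BinAff

open Module (finrank)

variable {p : ℕ} [Fact p.Prime] {V : Type*} [AddCommGroup V] [Module (ZMod p) V]
  {H : Subgroup (V ≃ₗ[ZMod p] V)}

/-- Two non-commuting maximal involutions with largest common fixed space. -/
structure GoodPair (H : Subgroup (V ≃ₗ[ZMod p] V)) (g k : V ≃ₗ[ZMod p] V) : Prop where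
  left : Top H g
  right : Top H k
  ne : g * k ≠ k * g
  max : ∀ g' k', Top H g' → Top H k' → g' * k' ≠ k' * g' →
    finrank (ZMod p) (fix g' ⊓ fix k' : Submodule (ZMod p) V) ≤
      finrank (ZMod p) (fix g ⊓ fix k : Submodule (ZMod p) V)

theorem exists_goodPair [Finite V] (h : ∃ g k, Top H g ∧ Top H k ∧ g * k ≠ k * g) :
    ∃ g k, GoodPair H g k := by
  haveI := finite_aut (p := p) (V := V)
  obtain ⟨g, k, hg, hk, hne⟩ := h
  obtain ⟨⟨a, b⟩, ⟨h1, h2, h3⟩, hmax⟩ := Set.exists_max_image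
    {x : (V ≃ₗ[ZMod p] V) × (V ≃ₗ[ZMod p] V) |
      Top H x.1 ∧ Top H x.2 ∧ x.1 * x.2 ≠ x.2 * x.1}
    (fun x => finrank (ZMod p) (fix x.1 ⊓ fix x.2 : Submodule (ZMod p) V)) (Set.toFinite _)
    ⟨(g, k), hg, hk, hne⟩
  exact ⟨a, b, h1, h2, h3, fun g' k' x y z => hmax (g', k') ⟨x, y, z⟩⟩

theorem disjoint_rng [Finite V] (B : Bisect H) (hp2 : p ≠ 2) {g k : V ≃ₗ[ZMod p] V}
    (hg : Top H g) (hk : Top H k) (hne : g ≠ k) : Disjoint (rng g) (rng k) :=
  Submodule.disjoint_def.2 fun v a b => by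
    by_contra hv
    exact hne (hg.eq_of_rng B hp2 hk hv a b)

/-- The common fixed space of two maximal involutions has complement the sum of their ranges. -/
theorem pair_compl [Finite V] (B : Bisect H) (hp2 : p ≠ 2) {g k : V ≃ₗ[ZMod p] V}
    (hg : Top H g) (hk : Top H k) (hne : g ≠ k) :
    IsCompl (fix g ⊓ fix k) (rng g ⊔ rng k) ∧
      finrank (ZMod p) (fix g ⊓ fix k : Submodule (ZMod p) V) + finrank (ZMod p) (rng g) +
        finrank (ZMod p) (rng k) = finrank (ZMod p) V := by
  have gg := hg.mul_self B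
  have kk := hk.mul_self B
  have hd : Disjoint (fix g ⊓ fix k) (rng g ⊔ rng k) := by
    refine Submodule.disjoint_def.2 fun t ht ht' => ?_
    obtain ⟨hgt, hkt⟩ := Submodule.mem_inf.1 ht
    obtain ⟨a, ha, b, hb, rfl⟩ := Submodule.mem_sup.1 ht'
    rw [mem_fix, map_add, apply_rng gg ha] at hgt
    rw [mem_fix, map_add, apply_rng kk hb] at hkt
    have hgb : g b = a + a + b := by
      calc g b = a + (-a + g b) := by abel
        _ = a + a + b := by rw [hgt]; abel
    have hka : k a = a + b + b := by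
      calc k a = (k a + -b) + b := by abel
        _ = a + b + b := by rw [hkt]
    have hh : (g * k) a - a = (a + b) + (a + b) := by
      rw [LinearEquiv.mul_apply, hka, map_add, map_add, apply_rng gg ha, hgb]
      abel
    have hfix : a + b ∈ fix (g * k) := by
      rw [mem_fix, LinearEquiv.mul_apply, map_add k, apply_rng kk hb, hkt, map_add,
        apply_rng gg ha, hgt]
    exact eq_zero_of_add_self hp2 (B.eq_zero_of_fix_rng hp2 (H.mul_mem hg.mem hk.mem)
      (mem_fix.1 (add_mem hfix hfix)) (hh ▸ sub_mem_rng (g * k) a))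
  have e1 := Submodule.finrank_sup_add_finrank_inf_eq (fix g) (fix k)
  have e2 := Submodule.finrank_sup_add_finrank_inf_eq (rng g) (rng k)
  rw [(disjoint_rng B hp2 hg hk hne).eq_bot, finrank_bot, add_zero] at e2
  have e3 := Submodule.finrank_sup_add_finrank_inf_eq (fix g ⊓ fix k) (rng g ⊔ rng k)
  rw [hd.eq_bot, finrank_bot, add_zero] at e3
  have := Submodule.finrank_le (fix g ⊔ fix k)
  have := Submodule.finrank_le (fix g ⊓ fix k ⊔ (rng g ⊔ rng k))
  have := finrank_fix_add_rng g
  have := finrank_fix_add_rng k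
  exact ⟨(Submodule.isCompl_iff_disjoint _ _ (by omega)).2 hd, by omega⟩

theorem card_submodule [Finite V] (S : Submodule (ZMod p) V) :
    Nat.card S = p ^ finrank (ZMod p) S := by
  rw [Module.natCard_eq_pow_finrank (K := ZMod p), Nat.card_zmod]

theorem GoodPair.plane [Finite V] (B : Bisect H) (hp2 : p ≠ 2) {g k : V ≃ₗ[ZMod p] V}
    (hgk : GoodPair H g k) :
    IsPlane H (fix g ⊓ fix k) (rng (g * k)) {f | Top H f ∧ fix g ⊓ fix k ≤ fix f}
      (p ^ finrank (ZMod p) (rng g)) ∧
    ∀ f, Top H f → fix g ⊓ fix k ≤ fix f →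
      finrank (ZMod p) (rng f) = finrank (ZMod p) (rng g) := by
  haveI := finite_aut (p := p) (V := V)
  set T := fix g ⊓ fix k with hTdef
  set m := finrank (ZMod p) (rng g) with hmdef
  have hgM : Top H g ∧ T ≤ fix g := ⟨hgk.left, inf_le_left⟩
  have hkM : Top H k ∧ T ≤ fix k := ⟨hgk.right, inf_le_right⟩
  have ne_k : g ≠ k := fun e => hgk.ne (by rw [e])
  -- non-commuting members meet exactly in `T`
  have pairT : ∀ f f', Top H f ∧ T ≤ fix f → Top H f' ∧ T ≤ fix f' → f * f' ≠ f' * f →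
      fix f ⊓ fix f' = T := fun f f' hf hf' hne =>
    (Submodule.eq_of_le_of_finrank_le (le_inf hf.2 hf'.2) (hgk.max f f' hf.1 hf'.1 hne)).symm
  have halfle : ∀ f f', Top H f ∧ T ≤ fix f → Top H f' ∧ T ≤ fix f' → f * f' ≠ f' * f →
      finrank (ZMod p) T + 2 * finrank (ZMod p) (rng f') ≤ finrank (ZMod p) V := by
    intro f f' hf hf' hne
    have ff := hf.1.mul_self B
    have htop := hf'.1.conj hf.1.mem (b := f)
    have hne' : f * f' * f⁻¹ ≠ f' := fun e => hne (by
      calc f * f' = f * f' * f⁻¹ * f := by group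
        _ = f' * f := by rw [e])
    have hle : T ≤ fix (f * f' * f⁻¹) := fix_le_fix_mul (fix_le_fix_mul hf.2 hf'.2)
      (by rw [fix_inv]; exact hf.2)
    have e := (pair_compl B hp2 htop hf'.1 hne').2
    have hr : finrank (ZMod p) (rng (f * f' * f⁻¹)) = finrank (ZMod p) (rng f') := by
      have : rng (f * f' * f⁻¹) = (rng f').map f.toLinearMap := by
        ext v
        rw [mem_rng_conj, Submodule.mem_map_equiv]
        rfl
      rw [this]
      exact LinearEquiv.finrank_map_eq f _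
    have := Submodule.finrank_mono (le_inf hle hf'.2)
    omega
  have hgdim := (pair_compl B hp2 hgk.left hgk.right ne_k).2
  have hm : finrank (ZMod p) T + 2 * m = finrank (ZMod p) V := by
    have a1 := halfle k g hkM hgM (Ne.symm hgk.ne)
    have a2 := halfle g k hgM hkM hgk.ne
    rw [← hTdef] at hgdim
    omega
  have dimM : ∀ f, Top H f ∧ T ≤ fix f → finrank (ZMod p) (rng f) = m := by
    intro f hf
    obtain ⟨f', hf', hne⟩ : ∃ f', (Top H f' ∧ T ≤ fix f') ∧ f * f' ≠ f' * f := by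
      by_contra hc
      push Not at hc
      have c1 := hc g hgM
      have c2 := hc k hkM
      by_cases e1 : f = g
      · exact hgk.ne (by rw [← e1]; exact c2)
      by_cases e2 : f = k
      · exact hgk.ne (by rw [← e2]; exact c1.symm)
      obtain ⟨v, hv, hv0⟩ := Top.exists_rng_ne_zero hf.1.ne_one
      have hvT : v ∈ T := ⟨hgk.left.rng_le_fix B hp2 hf.1 (Ne.symm e1) c1.symm hv,
        hgk.right.rng_le_fix B hp2 hf.1 (Ne.symm e2) c2.symm hv⟩
      exact hv0 (B.eq_zero_of_fix_rng hp2 hf.1.mem (mem_fix.1 (hf.2 hvT)) hv)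
    have a1 := halfle f' f hf' hf (Ne.symm hne)
    have a2 := halfle f f' hf hf' hne
    have e := (pair_compl B hp2 hf.1 hf'.1 (fun e => hne (by rw [e]))).2
    rw [pairT f f' hf hf' hne] at e
    omega
  refine ⟨?_, fun f a b => dimM f ⟨a, b⟩⟩
  have distinctT : ∀ f f', Top H f ∧ T ≤ fix f → Top H f' ∧ T ≤ fix f' → f ≠ f' →
      fix f ⊓ fix f' = T := by
    intro f f' hf hf' hne
    refine (Submodule.eq_of_le_of_finrank_le (le_inf hf.2 hf'.2) ?_).symm
    have e := (pair_compl B hp2 hf.1 hf'.1 hne).2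
    rw [dimM f hf, dimM f' hf'] at e
    omega
  have funique : ∀ c ∉ T, ∀ f f', Top H f ∧ T ≤ fix f → Top H f' ∧ T ≤ fix f' →
      f c = c → f' c = c → f = f' := by
    intro c hc f f' hf hf' a b
    by_contra hne
    exact hc ((distinctT f f' hf hf' hne).le ⟨a, b⟩)
  -- stabilisers of vectors outside `T`
  have stab : ∀ c ∉ T, ∀ j ∈ H, T ≤ fix j → j c = c → j ≠ 1 → Top H j := by
    intro c hc j jH jT jc j1
    obtain ⟨f, hf, hjf⟩ := exists_top jH j1
    have hfT := jT.trans hjf
    have hfc : f c = c := mem_fix.1 (hjf (mem_fix.2 jc))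
    have inv2 : ∀ h ∈ H, T ⊔ Submodule.span (ZMod p) {c} ≤ fix h → h * h = 1 := by
      refine fun h hh hT' => B.mul_self_of_commute hp2 (fun a b ha hb ha' hb' => ?_) hh hT'
      rw [funique c hc a b ⟨ha, le_sup_left.trans ha'⟩ ⟨hb, le_sup_left.trans hb'⟩
        (mem_fix.1 (ha' (le_sup_right (α := Submodule (ZMod p) V)
          (Submodule.mem_span_singleton_self c))))
        (mem_fix.1 (hb' (le_sup_right (α := Submodule (ZMod p) V)
          (Submodule.mem_span_singleton_self c))))]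
    have leT : ∀ {h : V ≃ₗ[ZMod p] V}, T ≤ fix h → h c = c →
        T ⊔ Submodule.span (ZMod p) {c} ≤ fix h := fun h1 h2 =>
      sup_le h1 ((Submodule.span_singleton_le_iff_mem _ _).2 (mem_fix.2 h2))
    have jj := inv2 j jH (leT jT jc)
    have ff := hf.mul_self B
    have hjfm : j * f ∈ H := H.mul_mem jH hf.mem
    have hjfc : (j * f) c = c := by rw [LinearEquiv.mul_apply, hfc, jc]
    have hcom : j * f = f * j := commute_of_mul_self jj ff
      (inv2 _ hjfm (leT (fix_le_fix_mul jT hfT) hjfc))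
    suffices j * f = 1 by
      have : j = f := by
        calc j = j * (f * f) := by rw [ff, mul_one]
          _ = f := by rw [← mul_assoc, this, one_mul]
      rwa [this]
    by_contra hne
    obtain ⟨f', hf', hle⟩ := exists_top hjfm hne
    have e : f' = f := funique c hc f' f ⟨hf', (fix_le_fix_mul jT hfT).trans hle⟩ ⟨hf, hfT⟩
      (mem_fix.1 (hle (mem_fix.2 hjfc))) hfc
    subst e
    obtain ⟨v, hv, hv0⟩ := Top.exists_rng_ne_zero hf.ne_one
    have hjv : j v ∈ rng f' := Top.commute_preserve hcom.symm hv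
    have h0 : v + j v = 0 := B.eq_zero_of_fix_rng hp2 hf.mem (mem_fix.1 (hjf (by
      rw [mem_fix, map_add, apply_apply_of_mul_self jj, add_comm]))) (add_mem hv hjv)
    refine hv0 (B.eq_zero_of_fix_rng hp2 hf.mem (mem_fix.1 (hle ?_)) hv)
    rw [mem_fix, LinearEquiv.mul_apply, apply_rng ff hv, map_neg,
      eq_neg_of_add_eq_zero_right h0, neg_neg]
  have fexists : ∀ c ∉ T, ∃ f, (Top H f ∧ T ≤ fix f) ∧ f c = c := by
    intro c hc
    by_contra hne
    push Not at hne
    apply hgk.ne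
    have hreg : ∀ j ∈ H, T ≤ fix j → j c = c → j = 1 := fun j jH jT jc => by
      by_contra j1
      exact hne j ⟨stab c hc j jH jT jc j1, jT⟩ jc
    exact commute_of_mul_self (hgk.left.mul_self B) (hgk.right.mul_self B)
      (B.mul_self_of_regular hreg (H.mul_mem hgk.left.mem hgk.right.mem)
        (fix_le_fix_mul hgM.2 hkM.2))
  have inj : ∀ f f', Top H f ∧ T ≤ fix f → Top H f' ∧ T ≤ fix f' → ∀ v ∉ T,
      f v = f' v → f = f' := by
    intro f f' hf hf' v hv e
    by_cases h : f v = v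
    · exact funique v hv f f' hf hf' h (e ▸ h)
    · exact hf.1.eq_of_rng B hp2 hf'.1 (sub_ne_zero.2 h) (sub_mem_rng f v)
        (e ▸ sub_mem_rng f' v)
  -- the orbit of a vector under the stabiliser of `T` is its orbit under the involutions
  have orbit : ∀ x ∉ T, ∀ h ∈ H, T ≤ fix h → ∃ f, (Top H f ∧ T ≤ fix f) ∧ f x = h x := by
    intro x hx h hh hT
    obtain ⟨gx, hgx, hgxx⟩ := fexists x hx
    obtain ⟨b, bH, b1, b2, b3, -⟩ := B.swap hh x
    have bT : T ≤ fix b := hT.trans b3
    by_cases hb1 : b = 1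
    · exact ⟨gx, hgx, by rw [hgxx, ← b1, hb1]; rfl⟩
    by_cases hc : ∃ c ∉ T, b c = c
    · obtain ⟨c, hcT, hbc⟩ := hc
      exact ⟨b, ⟨stab c hcT b bH bT hbc hb1, bT⟩, b1⟩
    push Not at hc
    have hmid : x + h x ∈ T := by
      by_contra hn
      exact hc _ hn (by rw [map_add, b1, b2, add_comm])
    have gg := hgx.1.mul_self B
    obtain ⟨α, hα, hα0⟩ := Top.exists_rng_ne_zero hgx.1.ne_one
    have hαT : α ∉ T := fun e =>
      hα0 (B.eq_zero_of_fix_rng hp2 hgx.1.mem (mem_fix.1 (hgx.2 e)) hα)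
    have bbx : (b * b) x = x := by rw [LinearEquiv.mul_apply, b1, b2]
    have bb : b * b = 1 := by
      by_contra hne
      have htop := stab x hx _ (H.mul_mem bH bH) (fix_le_fix_mul bT bT) bbx hne
      have e := funique x hx _ _ ⟨htop, fix_le_fix_mul bT bT⟩ hgx bbx hgxx
      have hbα : b α ∈ rng gx := Top.commute_preserve (by rw [← e, mul_assoc]) hα
      have hne2 : b α ≠ α := fun e2 => hc α hαT e2
      obtain ⟨b', b'H, c1, -, -, c4⟩ := B.swap bH α
      obtain ⟨z, hz⟩ := mem_rng.1 (sub_mem hbα hα)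
      obtain ⟨-, -, c5⟩ := c4 gx hgx.1.mem z hz
      have hb'1 : b' ≠ 1 := fun e2 => hne2 (by rw [← c1, e2]; rfl)
      have hb'g : b' = gx := funique x hx b' gx
        ⟨stab x hx b' b'H (hgx.2.trans c5) (mem_fix.1 (c5 hgxx)) hb'1, hgx.2.trans c5⟩ hgx
        (mem_fix.1 (c5 hgxx)) hgxx
      rw [hb'g, apply_rng gg hα] at c1
      have := congrArg (fun t : V ≃ₗ[ZMod p] V => t α) e
      simp only [LinearEquiv.mul_apply] at this
      rw [← c1, map_neg, ← c1, neg_neg, apply_rng gg hα] at this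
      exact hα0 (eq_zero_of_add_self hp2 (by nth_rewrite 1 [this]; exact neg_add_cancel _))
    have hcfix : (b * gx * b⁻¹) x = x := by
      have h1 : b⁻¹ x = h x := by
        conv_lhs => rw [← b2]
        exact inv_apply_self _ _
      have h2 : gx (h x) = h x := by
        have := mem_fix.1 (hgx.2 hmid)
        rwa [map_add, hgxx, add_right_inj] at this
      rw [LinearEquiv.mul_apply, LinearEquiv.mul_apply, h1, h2, b2]
    have hfc := funique x hx _ gx ⟨hgx.1.conj bH, fix_le_fix_mul (fix_le_fix_mul bT hgx.2)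
      (by rw [fix_inv]; exact bT)⟩ hgx hcfix hgxx
    have hcom : b * gx = gx * b := by
      calc b * gx = b * gx * b⁻¹ * b := by group
        _ = gx * b := by rw [hfc]
    have hbα : b α ∈ rng gx := Top.commute_preserve hcom.symm hα
    have h0 : α + b α = 0 := by
      refine B.eq_zero_of_fix_rng hp2 hgx.1.mem (mem_fix.1 (hgx.2 ?_)) (add_mem hα hbα)
      by_contra hn
      exact hc _ hn (by rw [map_add, apply_apply_of_mul_self bb, add_comm])
    have hfix : (b * gx) α = α := by
      rw [LinearEquiv.mul_apply, apply_rng gg hα, map_neg, eq_neg_of_add_eq_zero_right h0, neg_neg]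
    have hne : b * gx ≠ 1 := fun e => by
      have : b = gx := by
        calc b = b * (gx * gx) := by rw [gg, mul_one]
          _ = gx := by rw [← mul_assoc, e, one_mul]
      exact hc x hx (this ▸ hgxx)
    exact ⟨b * gx, ⟨stab α hαT _ (H.mul_mem bH hgx.1.mem) (fix_le_fix_mul bT hgx.2) hfix hne,
      fix_le_fix_mul bT hgx.2⟩, by rw [LinearEquiv.mul_apply, hgxx, b1]⟩
  have gen : ∀ h ∈ H, T ≤ fix h → ∀ f, Top H f ∧ T ≤ fix f →
      (Top H h ∧ T ≤ fix h) ∨ (Top H (h * f) ∧ T ≤ fix (h * f)) := by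
    intro h hh hT f hf
    obtain ⟨x, hxf, hxT⟩ : ∃ x, x ∈ fix f ∧ x ∉ T := by
      by_contra hc
      push Not at hc
      have := Submodule.finrank_mono (show fix f ≤ T from hc)
      have := finrank_fix_add_rng f
      have := dimM f hf
      have hpos : m ≠ 0 := by
        intro h0
        obtain ⟨v, hv, hv0⟩ := Top.exists_rng_ne_zero hgk.left.ne_one
        rw [hmdef, Submodule.finrank_eq_zero] at h0
        rw [h0, Submodule.mem_bot] at hv
        exact hv0 hv
      omega
    obtain ⟨a, ha, hax⟩ := orbit x hxT h hh hT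
    have aa := ha.1.mul_self B
    have hjx : (a * h) x = x := by
      rw [LinearEquiv.mul_apply, ← hax, apply_apply_of_mul_self aa]
    by_cases hj : a * h = 1
    · left
      have : h = a := by
        calc h = a * a * h := by rw [aa, one_mul]
          _ = a := by rw [mul_assoc, hj, mul_one]
      rwa [this]
    · right
      have hjf := funique x hxT _ f
        ⟨stab x hxT _ (H.mul_mem ha.1.mem hh) (fix_le_fix_mul ha.2 hT) hjx hj,
          fix_le_fix_mul ha.2 hT⟩ hf hjx (mem_fix.1 hxf)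
      have : h * f = a := by
        calc h * f = (a * a) * h * f := by rw [aa, one_mul]
          _ = a * (a * h) * f := by group
          _ = a := by rw [hjf, mul_assoc, hf.1.mul_self B, mul_one]
      rwa [this]
  have prodnot : ∀ a b, Top H a ∧ T ≤ fix a → Top H b ∧ T ≤ fix b →
      ¬ (Top H (a * b) ∧ T ≤ fix (a * b)) := by
    intro a b ha hb hab
    have aa := ha.1.mul_self B
    have bb := hb.1.mul_self B
    have hcom := commute_of_mul_self aa bb (hab.1.mul_self B)
    by_cases e : a = b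
    · exact hab.1.ne_one (by rw [e, bb])
    obtain ⟨v, hv, hv0⟩ := Top.exists_rng_ne_zero ha.1.ne_one
    have hbv : b v = v := mem_fix.1 (hb.1.rng_le_fix B hp2 ha.1 (Ne.symm e) hcom.symm hv)
    have hc : (a * b) v = -v := by rw [LinearEquiv.mul_apply, hbv, apply_rng aa hv]
    have := hab.1.eq_of_rng B hp2 ha.1 hv0
      (B.mem_rng_of_apply_neg hp2 hab.1.mem (hab.1.mul_self B) hc) hv
    exact hb.1.ne_one (mul_left_cancel (by rw [this, mul_one] : a * b = a * 1))
  have triple : ∀ a b c, Top H a ∧ T ≤ fix a → Top H b ∧ T ≤ fix b → Top H c ∧ T ≤ fix c →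
      Top H (a * b * c) ∧ T ≤ fix (a * b * c) := by
    intro a b c ha hb hc
    refine (gen _ (H.mul_mem (H.mul_mem ha.1.mem hb.1.mem) hc.1.mem)
      (fix_le_fix_mul (fix_le_fix_mul ha.2 hb.2) hc.2) c hc).resolve_right fun h => ?_
    rw [mul_assoc, hc.1.mul_self B, mul_one] at h
    exact prodnot a b ha hb h
  have hhH : g * k ∈ H := H.mul_mem hgk.left.mem hgk.right.mem
  have hfixgk : fix (g * k) = T := by
    refine le_antisymm (fun x hx => ?_) (fix_le_fix_mul hgM.2 hkM.2)
    by_contra hxT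
    rw [mem_fix, LinearEquiv.mul_apply] at hx
    exact ne_k (inj g k hgM hkM x hxT
      (by conv_lhs => rw [← hx]; exact apply_apply_of_mul_self (hgk.left.mul_self B) _))
  have hcompl : IsCompl T (rng (g * k)) := hfixgk ▸ B.isCompl_fix_rng hp2 hhH
  have hrngP : ∀ f, Top H f ∧ T ≤ fix f → rng f ≤ rng (g * k) := by
    intro f hf v hv
    obtain ⟨x, rfl⟩ := mem_rng.1 hv
    have htr := (triple f g k hf hgM hkM).1.mul_self B
    have ff := hf.1.mul_self B
    have key : f * (g * k) = (g * k)⁻¹ * f := by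
      have e : (f * g * k)⁻¹ = f * g * k := inv_eq_of_mul_eq_one_left htr
      rw [mul_inv_rev, mul_inv_rev, inv_eq_of_mul_eq_one_left ff] at e
      rw [mul_inv_rev, ← mul_assoc, ← e]
      group
    obtain ⟨t, ht, y, hy, rfl⟩ := Submodule.mem_sup.1
      (hcompl.sup_eq_top ▸ Submodule.mem_top (x := x))
    obtain ⟨z, rfl⟩ := mem_rng.1 hy
    have hfy : f ((g * k) z - z) ∈ rng (g * k) := by
      rw [map_sub, ← LinearEquiv.mul_apply, key, LinearEquiv.mul_apply]
      refine mem_rng.2 ⟨-(g * k)⁻¹ (f z), ?_⟩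
      rw [map_neg, apply_inv_self, sub_neg_eq_add]
      abel
    rw [map_add, mem_fix.1 (hf.2 ht), add_sub_add_left_eq_sub]
    exact sub_mem hfy (sub_mem_rng _ z)
  have hdP : finrank (ZMod p) (rng (g * k)) = 2 * m := by
    have := finrank_fix_add_rng (g * k)
    rw [hfixgk] at this
    omega
  have cardP : Nat.card (rng (g * k)) = (p ^ m) ^ 2 := by
    rw [card_submodule, hdP, ← pow_mul, mul_comm]
  have hq2 : 2 ≤ p ^ m := by
    obtain ⟨v, hv, hv0⟩ := Top.exists_rng_ne_zero hgk.left.ne_one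
    have hm0 : m ≠ 0 := by
      intro h0
      rw [hmdef, Submodule.finrank_eq_zero] at h0
      rw [h0, Submodule.mem_bot] at hv
      exact hv0 hv
    calc 2 ≤ p := (Fact.out : p.Prime).two_le
      _ ≤ p ^ m := Nat.le_self_pow hm0 p
  have cover : ∀ u ∈ rng (g * k), u ≠ 0 → ∃ f, (Top H f ∧ T ≤ fix f) ∧ u ∈ rng f := by
    intro u hu hu0
    obtain ⟨x, rfl⟩ := mem_rng.1 hu
    obtain ⟨b, bH, b1, b2, b3, -⟩ := B.swap hhH x
    rw [hfixgk] at b3
    have hbu : b ((g * k) x - x) = -((g * k) x - x) := by rw [map_sub, b1, b2, neg_sub]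
    have huT : (g * k) x - x ∉ T := fun h =>
      hu0 (Submodule.disjoint_def.1 hcompl.disjoint _ h hu)
    obtain ⟨gu, hgu, hguu⟩ := fexists _ huT
    rcases gen b bH b3 gu hgu with h | h
    · exact ⟨b, h, B.mem_rng_of_apply_neg hp2 bH (h.1.mul_self B) hbu⟩
    · refine ⟨b * gu, h, B.mem_rng_of_apply_neg hp2 h.1.mem (h.1.mul_self B) ?_⟩
      rw [LinearEquiv.mul_apply, hguu, hbu]
  have cardM : Nat.card {f | Top H f ∧ T ≤ fix f} = p ^ m + 1 := by
    let e : (Σ f : {f | Top H f ∧ T ≤ fix f}, {v : rng f.1 // v.1 ≠ 0}) →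
        {u : rng (g * k) // u.1 ≠ 0} := fun a => ⟨⟨a.2.1.1, hrngP a.1.1 a.1.2 a.2.1.2⟩, a.2.2⟩
    have he : Function.Bijective e := by
      constructor
      · rintro ⟨⟨f, hf⟩, ⟨v, hv⟩, hv0⟩ ⟨⟨f', hf'⟩, ⟨v', hv'⟩, hv0'⟩ h
        have h' : v = v' := congrArg (fun a => a.1.1) h
        subst h'
        obtain rfl := hf.1.eq_of_rng B hp2 hf'.1 hv0 hv hv'
        rfl
      · rintro ⟨⟨u, hu⟩, hu0⟩
        obtain ⟨f, hf, huf⟩ := cover u hu hu0
        exact ⟨⟨⟨f, hf⟩, ⟨⟨u, huf⟩, hu0⟩⟩, rfl⟩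
    haveI : Fintype {f | Top H f ∧ T ≤ fix f} := Fintype.ofFinite _
    have hne : ∀ S : Submodule (ZMod p) V, Nat.card {v : S // v.1 ≠ 0} = Nat.card S - 1 := by
      intro S
      have h1 : Nat.card {v : S // v.1 ≠ 0} = Nat.card ({0}ᶜ : Set S) :=
        Nat.card_congr (Equiv.subtypeEquivRight fun v => by simp)
      rw [h1, Nat.card_coe_set_eq, Set.ncard_compl, Set.ncard_singleton]
    have hc := Nat.card_congr (Equiv.ofBijective e he)
    have hsum : ∀ f : {f | Top H f ∧ T ≤ fix f}, Nat.card {v : rng f.1 // v.1 ≠ 0} = p ^ m - 1 := by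
      intro f
      rw [hne, card_submodule, dimM f.1 f.2]
    rw [Nat.card_sigma, Finset.sum_congr rfl (fun f _ => hsum f), hne, cardP, Finset.sum_const,
      Finset.card_univ, ← Nat.card_eq_fintype_card, smul_eq_mul] at hc
    have : (p ^ m) ^ 2 - 1 = (p ^ m + 1) * (p ^ m - 1) := by
      simpa using Nat.sq_sub_sq (p ^ m) 1
    rw [this] at hc
    exact Nat.eq_of_mul_eq_mul_right (by omega) hc
  refine
    { compl := hcompl
      two_le := hq2
      card_P := cardP
      card_M := cardM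
      mem := fun f hf => ⟨hf.1.mem, hf.1.mul_self B, hf.1.ne_one, hf.2, hrngP f hf⟩
      cover := cover
      root_unique := fun f hf f' hf' u hu a b => hf.1.eq_of_rng B hp2 hf'.1 hu a b
      card_rng := fun f hf => by rw [card_submodule, dimM f hf]
      bisect := ?_
      fix_unique := fun c hc f hf f' hf' => funique c hc f f' hf hf'
      fix_exists := fexists
      inj := fun f hf f' hf' v hv => inj f f' hf hf' v hv
      triple := fun a ha b hb c hc => triple a b c ha hb hc
      prod_not_mem := fun a ha b hb => prodnot a b ha hb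
      gen := fun h hh hT f hf => gen h hh hT f hf }
  intro f hf h hh x hu hne
  obtain ⟨b, bH, b1, -, -, b4⟩ := B.swap hh x
  obtain ⟨z, hz⟩ := mem_rng.1 hu
  obtain ⟨-, -, b5⟩ := b4 f hf.1.mem z hz
  have hb1 : b ≠ 1 := fun e => hne (by rw [← b1, e]; rfl)
  have hfix := hf.1.max b bH hb1 b5
  have htop : Top H b := ⟨bH, hb1, fun h' hh' h1 hle =>
    (hf.1.max h' hh' h1 (b5.trans hle)).trans hfix.symm⟩
  rw [hf.1.eq_of_fix_eq B hp2 htop hfix.symm, b1]

end Cfsg.Agent.BinAff
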