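import Cfsg.Agent.BinAff.Main

/-!
# From binary affine permutation groups to linear groups
-/

set_option autoImplicit false
set_option linter.style.haveILetI false

namespace Cfsg.Agent.BinAff

/-- The linear part of a binary group of affine maps has the bisector property. -/
theorem bisect_of_binary {p : ℕ} [Fact p.Prime] {V : Type*} [AddCommGroup V] [Module (ZMod p) V]
    [Finite V] {H : Subgroup (V ≃ₗ[ZMod p] V)}
    (hbin : ∀ (n : ℕ) (I J : Fin n → V), 2 ≤ n →
      (∀ i j : Fin n, i ≠ j → ∃ h ∈ H, h (I i - I j) = J i - J j) →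
      ∃ h ∈ H, ∀ i j, h (I i - I j) = J i - J j) : Bisect H := by
  classical
  intro u
  let D : Set V := {x | ∃ h ∈ H, h x = x + u}
  by_cases hD : D.Nonempty
  swap
  · exact ⟨1, H.one_mem, fun h hh x hx => absurd ⟨x, h, hh, hx⟩ hD⟩
  obtain ⟨x₀, hx₀⟩ := hD
  haveI : Fintype D := Fintype.ofFinite _
  let ι := Fintype.equivFin (Fin 2 ⊕ D)
  let I' : Fin 2 ⊕ D → V := Sum.elim ![0, x₀] fun x => x₀ - x.1
  let J' : Fin 2 ⊕ D → V := Sum.elim ![0, x₀ + u] fun x => x₀ - x.1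
  have pairs : ∀ a b : Fin 2 ⊕ D, ∃ h ∈ H, h (I' a - I' b) = J' a - J' b := by
    obtain ⟨h₀, hh₀, e₀⟩ := hx₀
    rintro (a | ⟨x, hx⟩) (b | ⟨y, hy⟩)
    · fin_cases a <;> fin_cases b
      · exact ⟨1, H.one_mem, by simp [I', J']⟩
      · exact ⟨h₀, hh₀, by simp [I', J', e₀]⟩
      · exact ⟨h₀, hh₀, by simp [I', J', e₀]⟩
      · exact ⟨1, H.one_mem, by simp [I', J']⟩
    · fin_cases a
      · exact ⟨1, H.one_mem, by simp [I', J']⟩
      · obtain ⟨h, hh, e⟩ := hy
        refine ⟨h, hh, ?_⟩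
        change h (x₀ - (x₀ - y)) = x₀ + u - (x₀ - y)
        rw [sub_sub_cancel, e]
        abel
    · fin_cases b
      · exact ⟨1, H.one_mem, by simp [I', J']⟩
      · obtain ⟨h, hh, e⟩ := hx
        refine ⟨h, hh, ?_⟩
        change h (x₀ - x - x₀) = x₀ - x - (x₀ + u)
        rw [show x₀ - x - x₀ = -x by abel, map_neg, e]
        abel
    · exact ⟨1, H.one_mem, rfl⟩
  obtain ⟨g, hg, hgp⟩ := hbin (Fintype.card (Fin 2 ⊕ D)) (I' ∘ ι.symm) (J' ∘ ι.symm)
    (by rw [Fintype.card_sum, Fintype.card_fin]; omega)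
    (fun i j _ => pairs (ι.symm i) (ι.symm j))
  have hg' : ∀ a b, g (I' a - I' b) = J' a - J' b := fun a b => by
    simpa using hgp (ι a) (ι b)
  have key : ∀ h ∈ H, ∀ x, h x = x + u → g x = x + u := by
    intro h hh x hx
    have e := hg' (Sum.inl 1) (Sum.inr ⟨x, h, hh, hx⟩)
    change g (x₀ - (x₀ - x)) = x₀ + u - (x₀ - x) at e
    rw [sub_sub_cancel] at e
    rw [e]
    abel
  refine ⟨g, hg, fun h hh x hx => ⟨key h hh x hx, ?_, fun z hz => ?_⟩⟩
  · have e := key h⁻¹ (H.inv_mem hh) (-x - u) (by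
      rw [show -x - u = -(h x) by rw [hx]; abel, map_neg, inv_apply_self, hx]
      abel)
    rw [show -x - u = -(x + u) by abel, map_neg, show -(x + u) + u = -x by abel, neg_inj] at e
    exact e
  · have e := key h hh (x + z) (by rw [map_add, hx, mem_fix.1 hz]; abel)
    rw [map_add, key h hh x hx, add_right_comm x z u, add_right_inj] at e
    exact mem_fix.2 e

theorem exists_addEquiv_fun {p : ℕ} [Fact p.Prime] {A : Type*} [CommGroup A] [Finite A]
    (hA : ∀ x : A, x ^ p = 1) : ∃ d : ℕ, Nonempty (Additive A ≃+ (Fin d → ZMod p)) := by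
  letI : Module (ZMod p) (Additive A) := AddCommGroup.zmodModule (n := p) fun x =>
    congrArg Additive.ofMul (hA (Additive.toMul x))
  exact ⟨_, ⟨(Module.finBasis (ZMod p) (Additive A)).equivFun.toAddEquiv⟩⟩

/-- Coordinates for a primitive group with a nontrivial abelian normal subgroup. -/
theorem exists_affine_coords {G Ω : Type*} [Group G] [Finite G] [MulAction G Ω] [FaithfulSMul G Ω]
    [Fintype Ω] (hprim : MulAction.IsPreprimitive G Ω)
    (haff : ∃ N : Subgroup G, N.Normal ∧ N ≠ ⊥ ∧ IsMulCommutative ↥N) :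
    ∃ (p d : ℕ) (_ : Fact p.Prime) (pt : (Fin d → ZMod p) ≃ Ω)
      (H : Subgroup ((Fin d → ZMod p) ≃ₗ[ZMod p] (Fin d → ZMod p))),
      0 < d ∧
      (∀ g : G, ∃ h ∈ H, ∃ b, ∀ v, g • pt v = pt (h v + b)) ∧
      (∀ h ∈ H, ∀ b, ∃ g : G, ∀ v, g • pt v = pt (h v + b)) ∧
      (∀ U : Submodule (ZMod p) (Fin d → ZMod p), (∀ h ∈ H, ∀ v ∈ U, h v ∈ U) → U = ⊥ ∨ U = ⊤) ∧
      ∀ ω : Ω, Nat.card ↥(MulAction.stabilizer G ω) = Nat.card H := by
  classical
  haveI := hprim
  haveI hpre : MulAction.IsPretransitive G Ω := hprim.toIsPretransitive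
  obtain ⟨N, hN, hNb, hNc⟩ := haff
  obtain ⟨n₀, hn₀, hn₀1⟩ : ∃ n ∈ N, n ≠ 1 := by
    by_contra hc
    push Not at hc
    exact hNb ((Subgroup.eq_bot_iff_forall N).2 hc)
  obtain ⟨p, hp, hpd⟩ := Nat.exists_prime_and_dvd (n := orderOf n₀)
    (by rwa [Ne, orderOf_eq_one_iff])
  haveI : Fact p.Prime := ⟨hp⟩
  have hcomm : ∀ a ∈ N, ∀ b ∈ N, a * b = b * a := fun a ha b hb =>
    congrArg Subtype.val (hNc.is_comm.comm ⟨a, ha⟩ ⟨b, hb⟩)
  let W : Subgroup G :=
    { carrier := {x | x ∈ N ∧ x ^ p = 1}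
      one_mem' := ⟨N.one_mem, one_pow p⟩
      mul_mem' := fun {a b} ha hb => ⟨N.mul_mem ha.1 hb.1, by
        rw [Commute.mul_pow (hcomm a ha.1 b hb.1), ha.2, hb.2, one_mul]⟩
      inv_mem' := fun {a} ha => ⟨N.inv_mem ha.1, by rw [inv_pow, ha.2, inv_one]⟩ }
  haveI hWn : W.Normal := ⟨fun x hx g => ⟨hN.conj_mem x hx.1 g, by rw [conj_pow, hx.2]; group⟩⟩
  have hW0 : n₀ ^ (orderOf n₀ / p) ∈ W ∧ n₀ ^ (orderOf n₀ / p) ≠ 1 := by
    refine ⟨⟨N.pow_mem hn₀ _, ?_⟩, fun h => ?_⟩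
    · rw [← pow_mul, Nat.div_mul_cancel hpd, pow_orderOf_eq_one]
    · have hpos := orderOf_pos n₀
      have h1 := orderOf_le_of_pow_eq_one
        (Nat.div_pos (Nat.le_of_dvd hpos hpd) hp.pos) h
      have := Nat.div_lt_self hpos hp.one_lt
      omega
  obtain ⟨ω₀⟩ : Nonempty Ω := by
    by_contra hc
    rw [not_nonempty_iff] at hc
    exact hn₀1 (eq_of_smul_eq_smul (α := Ω) fun ω => isEmptyElim ω)
  -- `W` is transitive
  have htr : ∀ ω : Ω, ∃ w ∈ W, w • ω₀ = ω := by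
    have hne : MulAction.fixedPoints W Ω ≠ Set.univ := by
      intro h
      exact hW0.2 (eq_of_smul_eq_smul (α := Ω) fun ω => by
        rw [one_smul]
        exact (h ▸ Set.mem_univ ω : ω ∈ MulAction.fixedPoints W Ω) ⟨_, hW0.1⟩)
    haveI := MulAction.IsQuasiPreprimitive.isPretransitive_of_normal (G := G) (X := Ω) hne
    intro ω
    obtain ⟨w, hw⟩ := MulAction.exists_smul_eq W ω₀ ω
    exact ⟨w.1, w.2, hw⟩
  have hreg : ∀ w ∈ W, w • ω₀ = ω₀ → w = 1 := by
    intro w hw h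
    refine eq_of_smul_eq_smul (α := Ω) fun ω => ?_
    obtain ⟨v, hv, rfl⟩ := htr ω
    rw [one_smul, smul_smul, hcomm w hw.1 v hv.1, ← smul_smul, h]
  -- coordinates
  obtain ⟨d, ⟨c⟩⟩ : ∃ d : ℕ, Nonempty (Additive W ≃+ (Fin d → ZMod p)) :=
    @exists_addEquiv_fun p _ W
      { (inferInstance : Group W) with mul_comm := fun a b => Subtype.ext (hcomm _ a.2.1 _ b.2.1) }
      inferInstance (fun x => Subtype.ext x.2.2)
  let wv : (Fin d → ZMod p) → G := fun v => ((Additive.toMul (c.symm v) : W) : G)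
  have wv_mem : ∀ v, wv v ∈ W := fun v => (Additive.toMul (c.symm v) : W).2
  have wv_add : ∀ a b, wv (a + b) = wv a * wv b := fun a b => by
    change ((Additive.toMul (c.symm (a + b)) : W) : G) = _
    rw [map_add]
    rfl
  have wv_surj : ∀ w ∈ W, ∃ v, wv v = w := fun w hw =>
    ⟨c (Additive.ofMul ⟨w, hw⟩), by simp [wv]⟩
  have wv_inj : Function.Injective wv := fun a b h => c.symm.injective
    (Additive.toMul.injective (Subtype.ext h))
  have ptbij : Function.Bijective fun v => wv v • ω₀ := by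
    constructor
    · intro a b h
      refine wv_inj ?_
      have := hreg _ (W.mul_mem (W.inv_mem (wv_mem b)) (wv_mem a))
        (by rw [← smul_smul]; exact (congrArg ((wv b)⁻¹ • ·) h).trans (inv_smul_smul _ _))
      exact (inv_mul_eq_one.1 this).symm
    · intro ω
      obtain ⟨w, hw, rfl⟩ := htr ω
      obtain ⟨v, rfl⟩ := wv_surj w hw
      exact ⟨v, rfl⟩
  let pt := Equiv.ofBijective _ ptbij
  let S := MulAction.stabilizer G ω₀
  let conjv : G → (Fin d → ZMod p) → (Fin d → ZMod p) := fun g v =>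
    c (Additive.ofMul (⟨g * wv v * g⁻¹, hWn.conj_mem _ (wv_mem v) g⟩ : W))
  have wv_conj : ∀ g v, wv (conjv g v) = g * wv v * g⁻¹ := fun g v => by simp [wv, conjv]
  have conjv_mul : ∀ g g' v, conjv (g * g') v = conjv g (conjv g' v) := fun g g' v => wv_inj (by
    rw [wv_conj, wv_conj, wv_conj]; group)
  have conjv_add : ∀ g a b, conjv g (a + b) = conjv g a + conjv g b := fun g a b => wv_inj (by
    rw [wv_add, wv_conj, wv_conj, wv_conj, wv_add]; group)
  have conjv_one : ∀ v, conjv 1 v = v := fun v => wv_inj (by rw [wv_conj]; group)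
  let ψ : S →* ((Fin d → ZMod p) ≃ₗ[ZMod p] (Fin d → ZMod p)) :=
    { toFun := fun s =>
        { ((AddMonoidHom.mk' (conjv s.1) (conjv_add s.1)).toZModLinearMap p) with
          invFun := conjv s.1⁻¹
          left_inv := fun v => by
            change conjv s.1⁻¹ (conjv s.1 v) = v
            rw [← conjv_mul, inv_mul_cancel, conjv_one]
          right_inv := fun v => by
            change conjv s.1 (conjv s.1⁻¹ v) = v
            rw [← conjv_mul, mul_inv_cancel, conjv_one] }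
      map_one' := LinearEquiv.ext fun v => conjv_one v
      map_mul' := fun a b => LinearEquiv.ext fun v => conjv_mul _ _ v }
  have hψ : ∀ (s : S) v, ψ s v = conjv s.1 v := fun s v => rfl
  have act : ∀ (s : S) v, s.1 • pt v = pt (ψ s v) := by
    intro s v
    change s.1 • (wv v • ω₀) = wv (ψ s v) • ω₀
    rw [hψ, wv_conj, smul_smul, show s.1 * wv v * s.1⁻¹ = (s.1 * wv v) * s.1⁻¹ from rfl,
      ← smul_smul (s.1 * wv v) s.1⁻¹, inv_smul_eq_iff.2 (s.2 : s.1 • ω₀ = ω₀).symm]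
  have trans : ∀ a b, wv b • pt a = pt (a + b) := by
    intro a b
    change wv b • (wv a • ω₀) = wv (a + b) • ω₀
    rw [smul_smul, add_comm, wv_add]
  have hdpos : 0 < d := by
    rw [Nat.pos_iff_ne_zero]
    intro h0
    haveI : IsEmpty (Fin d) := by rw [h0]; exact Fin.isEmpty
    obtain ⟨v, hv⟩ := wv_surj _ hW0.1
    have : wv 0 = 1 := by simp [wv]
    rw [Subsingleton.elim v 0, this] at hv
    exact hW0.2 hv.symm
  have hψinj : Function.Injective ψ := by
    intro a b h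
    refine Subtype.ext (eq_of_smul_eq_smul (α := Ω) fun ω => ?_)
    obtain ⟨v, rfl⟩ := pt.surjective ω
    rw [act, act, h]
  refine ⟨p, d, inferInstance, pt, ψ.range, hdpos, fun g => ?_, ?_, ?_, ?_⟩
  · obtain ⟨b, hb⟩ := pt.surjective (g • ω₀)
    have hb' : wv b • ω₀ = g • ω₀ := hb
    let s : S := ⟨(wv b)⁻¹ * g, by
      change ((wv b)⁻¹ * g) • ω₀ = ω₀
      rw [← smul_smul, ← hb', inv_smul_smul]⟩
    refine ⟨ψ s, ⟨s, rfl⟩, b, fun v => ?_⟩
    rw [← trans, ← act, smul_smul, mul_inv_cancel_left]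
  · rintro _ ⟨s, rfl⟩ b
    exact ⟨wv b * s.1, fun v => by rw [← smul_smul, act, trans]⟩
  · intro U hU
    let Bl : Set Ω := pt '' (U : Set (Fin d → ZMod p))
    have hblock : MulAction.IsBlock G Bl := by
      rw [MulAction.isBlock_iff_smul_eq_or_disjoint]
      intro g
      obtain ⟨b, hb⟩ := pt.surjective (g • ω₀)
      have hb' : wv b • ω₀ = g • ω₀ := hb
      let s : S := ⟨(wv b)⁻¹ * g, by
        change ((wv b)⁻¹ * g) • ω₀ = ω₀
        rw [← smul_smul, ← hb', inv_smul_smul]⟩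
      have hg : ∀ v, g • pt v = pt (ψ s v + b) := fun v => by
        rw [← trans, ← act, smul_smul, mul_inv_cancel_left]
      have hs : ∀ v ∈ U, ψ s v ∈ U := hU _ ⟨s, rfl⟩
      have hs' : ∀ v ∈ U, ∃ w ∈ U, ψ s w = v := fun v hv =>
        ⟨(ψ s)⁻¹ v, hU _ (Subgroup.inv_mem _ ⟨s, rfl⟩) v hv, apply_inv_self _ _⟩
      by_cases hbU : b ∈ U
      · left
        ext ω
        constructor
        · rintro ⟨_, ⟨v, hv, rfl⟩, rfl⟩
          exact ⟨_, add_mem (hs v hv) hbU, (hg v).symm⟩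
        · rintro ⟨v, hv, rfl⟩
          obtain ⟨w, hw, hwv⟩ := hs' (v - b) (sub_mem hv hbU)
          exact ⟨pt w, ⟨w, hw, rfl⟩, (hg w).trans (by rw [hwv, sub_add_cancel])⟩
      · right
        rw [Set.disjoint_left]
        rintro _ ⟨_, ⟨v, hv, rfl⟩, rfl⟩ ⟨w, hw, e⟩
        have e' : ψ s v + b = w := pt.injective ((hg v).symm.trans e.symm)
        exact hbU (by simpa [← e'] using sub_mem hw (hs v hv))
    rcases hprim.isTrivialBlock_of_isBlock hblock with h | h
    · left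
      refine (Submodule.eq_bot_iff U).2 fun v hv => pt.injective (h ⟨v, hv, rfl⟩ ⟨0, U.zero_mem, rfl⟩)
    · right
      refine (Submodule.eq_top_iff').2 fun v => ?_
      obtain ⟨w, hw, e⟩ := (h ▸ Set.mem_univ (pt v) : pt v ∈ Bl)
      exact pt.injective e ▸ hw
  · intro ω
    obtain ⟨g, rfl⟩ := MulAction.exists_smul_eq G ω₀ ω
    rw [MulAction.stabilizer_smul_eq_stabilizer_map_conj,
      Subgroup.card_map_of_injective (MulAut.conj g).injective]
    exact Nat.card_congr (MonoidHom.ofInjective hψinj).toEquiv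

end Cfsg.Agent.BinAff
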